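import Cfsg.Agent.Helper71.McLDefs

/-!
# Abstract transvection systems: first consequences (piece A of S5075)
-/

set_option autoImplicit false

namespace Cfsg.Agent.Helper71.McL

open Module

variable {F V : Type*} [Field F] [AddCommGroup V] [Module F V]

/-- The commutator lemma. -/
theorem lemA (S : TSys F V) {φ ψ : Dual F V} {v w : V} (h1 : S.Θ φ v) (h2 : S.Θ ψ w)
    (hφw : φ w = 0) (hψv : ψ v ≠ 0) : S.Θ φ w := by
  have h3 := S.conj h1 h2
  rw [hφw, zero_smul, sub_zero] at h3
  have h4 := S.add_right h3 (S.smul_right (-1) h1)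
  have h5 : v + ψ v • w + (-1 : F) • v = ψ v • w := by
    rw [neg_smul, one_smul]; abel
  rw [h5] at h4
  have h6 := S.smul_right (ψ v)⁻¹ h4
  rwa [smul_smul, inv_mul_cancel₀ hψv, one_smul] at h6

/-- An opposite pair generates a full `SL₂`: all its transvections are in the system. -/
theorem sl2 (S : TSys F V) {φ ψ : Dual F V} {v w : V} (h1 : S.Θ φ v) (h2 : S.Θ ψ w)
    (hφw : φ w ≠ 0) (hψv : ψ v ≠ 0) (a b c e : F)
    (h0 : (a • φ + b • ψ) (c • v + e • w) = 0) : S.Θ (a • φ + b • ψ) (c • v + e • w) := by
  have hφv : φ v = 0 := S.vanish h1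
  have hψw : ψ w = 0 := S.vanish h2
  have h0' : a * e * φ w + b * c * ψ v = 0 := by
    have := h0
    simp only [LinearMap.add_apply, LinearMap.smul_apply, map_add, map_smul, smul_eq_mul, hφv,
      hψw, mul_zero, zero_add, add_zero] at this
    linear_combination this
  by_cases hc : c = 0
  · subst hc
    have hae : a * e = 0 := by
      have : a * e * φ w = 0 := by linear_combination h0'
      exact (mul_eq_zero.mp this).resolve_right hφw
    rw [zero_smul, zero_add]
    rcases mul_eq_zero.mp hae with ha | he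
    · subst ha
      rw [zero_smul, zero_add]
      exact S.smul_left b (S.smul_right e h2)
    · subst he
      rw [zero_smul]
      exact S.zero_right _
  · -- conjugate `(φ, v)` by `(k • ψ, w)` with `k = (e / c) / ψ v`
    set k : F := (e / c) / ψ v with hk
    have h3 := S.conj h1 (S.smul_left k h2)
    have h4 := S.smul_left a (S.smul_right c h3)
    have e1 : a • (φ - φ w • k • ψ) = a • φ + b • ψ := by
      have hb : b = -(a * e * φ w) / (c * ψ v) := by
        field_simp
        linear_combination h0'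
      rw [smul_sub, smul_smul, smul_smul, sub_eq_add_neg, ← neg_smul]
      congr 2
      rw [hb, hk]
      field_simp
    have e2 : c • (v + (k • ψ) v • w) = c • v + e • w := by
      rw [smul_add, LinearMap.smul_apply, smul_eq_mul, smul_smul]
      congr 2
      rw [hk]
      field_simp
    rw [e1, e2] at h4
    exact h4

/-- Conjugating a centre by a transvection of the system gives a centre. -/
theorem isCenter_conj (S : TSys F V) {u w : V} {ψ : Dual F V} (hu : S.IsCenter u)
    (h : S.Θ ψ w) : S.IsCenter (u + ψ u • w) := by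
  obtain ⟨hu0, φ, hφ0, hφ⟩ := hu
  have hψw : ψ w = 0 := S.vanish h
  refine ⟨?_, φ - φ w • ψ, ?_, S.conj hφ h⟩
  · intro h0
    have h1 : ψ (u + ψ u • w) = 0 := by rw [h0, map_zero]
    rw [map_add, map_smul, hψw, smul_zero, add_zero] at h1
    rw [h1, zero_smul, add_zero] at h0
    exact hu0 h0
  · intro h0
    have h1 : (φ - φ w • ψ) w = 0 := by rw [h0, LinearMap.zero_apply]
    rw [LinearMap.sub_apply, LinearMap.smul_apply, hψw, smul_zero, sub_zero] at h1
    rw [h1, zero_smul, sub_zero] at h0
    exact hφ0 h0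

/-- The plane of an opposite pair is a full block. -/
theorem full_pair (S : TSys F V) {φ ψ : Dual F V} {v w : V} (h1 : S.Θ φ v) (h2 : S.Θ ψ w)
    (hφw : φ w ≠ 0) (hψv : ψ v ≠ 0) : S.Full (Submodule.span F {v, w}) := by
  have hφv : φ v = 0 := S.vanish h1
  have hψw : ψ w = 0 := S.vanish h2
  intro x hx _ χ hχ
  obtain ⟨c, e, rfl⟩ := Submodule.mem_span_pair.mp hx
  have key : ∀ c' e' : F, ((χ w / φ w) • φ + (χ v / ψ v) • ψ) (c' • v + e' • w) =
      χ (c' • v + e' • w) := by
    intro c' e'
    simp only [LinearMap.add_apply, LinearMap.smul_apply, map_add, map_smul, smul_eq_mul, hφv,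
      hψw, mul_zero, zero_add, add_zero]
    field_simp
  refine ⟨(χ w / φ w) • φ + (χ v / ψ v) • ψ, ?_, ?_⟩
  · exact sl2 S h1 h2 hφw hψv _ _ c e (by rw [key, hχ])
  · intro q hq
    obtain ⟨c', e', rfl⟩ := Submodule.mem_span_pair.mp hq
    exact key c' e'

/-- The plane of an opposite pair has dimension two. -/
theorem finrank_pair (S : TSys F V) {φ ψ : Dual F V} {v w : V} (h1 : S.Θ φ v) (h2 : S.Θ ψ w)
    (hφw : φ w ≠ 0) (hψv : ψ v ≠ 0) : finrank F (Submodule.span F {v, w}) = 2 := by
  have hφv : φ v = 0 := S.vanish h1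
  have hψw : ψ w = 0 := S.vanish h2
  have hli : LinearIndependent F ![v, w] := by
    rw [LinearIndependent.pair_iff]
    intro s t hst
    have e1 : φ (s • v + t • w) = 0 := by rw [hst, map_zero]
    have e2 : ψ (s • v + t • w) = 0 := by rw [hst, map_zero]
    simp only [map_add, map_smul, smul_eq_mul, hφv, hψw, mul_zero, zero_add, add_zero] at e1 e2
    exact ⟨(mul_eq_zero.mp e2).resolve_right hψv, (mul_eq_zero.mp e1).resolve_right hφw⟩
  have h3 := finrank_span_eq_card hli
  have h4 : Set.range ![v, w] = {v, w} := by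
    ext z
    simp only [Set.mem_range, Set.mem_insert_iff, Set.mem_singleton_iff]
    constructor
    · rintro ⟨i, rfl⟩
      fin_cases i
      · left; rfl
      · right; rfl
    · rintro (rfl | rfl)
      · exact ⟨0, rfl⟩
      · exact ⟨1, rfl⟩
  rw [h4] at h3
  simpa using h3

end Cfsg.Agent.Helper71.McL
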