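import Mathlib
import Cfsg.Agent.Helper5.AltEmbed
import Cfsg.Agent.Helper66.AutRank

/-!
# Recognition of the Klein four-group, `A₄` and `S₄`

A finite group `X` with a self-centralizing normal subgroup `V` of order `4` has order dividing
`24`; if its order is `12` it is `A₄`, if its order is `24` it is `S₄`.
-/

set_option autoImplicit false

namespace Cfsg.Agent.Helper71.ZRec

/-- a group of order `4` and exponent `2` is the Klein four-group -/
theorem equiv_klein {X : Type*} [Group X] (hc : Nat.card X = 4) (hx : ∀ x : X, x * x = 1) :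
    Nonempty (X ≃* DihedralGroup 2) := by
  have hfin : Finite X := Nat.finite_of_card_ne_zero (by rw [hc]; norm_num)
  have hexp : Monoid.exponent X = 2 := by
    have h1 : Monoid.exponent X ∣ 2 :=
      Monoid.exponent_dvd_of_forall_pow_eq_one (fun g => by rw [pow_two]; exact hx g)
    rcases (Nat.dvd_prime Nat.prime_two).mp h1 with h | h
    · exfalso
      rw [Monoid.exp_eq_one_iff] at h
      have h2 := Finite.card_le_one_iff_subsingleton.mpr h
      omega
    · exact h
  have : IsKleinFour X := ⟨hc, hexp⟩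
  exact IsKleinFour.nonempty_mulEquiv

/-- an element of order `3` has no nontrivial fixed point on a self-centralizing normal
subgroup of order `4` -/
theorem fp_trivial {X : Type*} [Group X] [Finite X] (V : Subgroup X) [hV : V.Normal]
    (hc : Nat.card V = 4) (hC : Subgroup.centralizer (V : Set X) ≤ V) (c : X) (hc3 : c ^ 3 = 1)
    (hc1 : c ≠ 1) (v : X) (hv : v ∈ V) (hcv : c * v = v * c) : v = 1 := by
  have hφ : (MulAut.conj c) ^ 3 ^ 1 = 1 := by
    rw [pow_one, ← map_pow, hc3, map_one]
  have hH : ∀ h ∈ V, MulAut.conj c h ∈ V := fun h hh => by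
    rw [MulAut.conj_apply]; exact hV.conj_mem h hh c
  have hmod := Cfsg.Agent.Helper66.card_modEq_card_fixedSubgroup (MulAut.conj c) 3 1
    Nat.prime_three hφ V hH
  rw [hc] at hmod
  have hFle : Cfsg.Agent.Helper66.fixedSubgroup (MulAut.conj c) V ≤ V :=
    Cfsg.Agent.Helper66.fixedSubgroup_le _ _
  have hdvd : Nat.card (Cfsg.Agent.Helper66.fixedSubgroup (MulAut.conj c) V) ∣ 4 := by
    rw [← hc]; exact Subgroup.card_dvd_of_le hFle
  have hvF : v ∈ Cfsg.Agent.Helper66.fixedSubgroup (MulAut.conj c) V := by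
    rw [Cfsg.Agent.Helper66.mem_fixedSubgroup]
    refine ⟨hv, ?_⟩
    rw [MulAut.conj_apply, hcv, mul_inv_cancel_right]
  have hcard : Nat.card (Cfsg.Agent.Helper66.fixedSubgroup (MulAut.conj c) V) = 1 ∨
      Nat.card (Cfsg.Agent.Helper66.fixedSubgroup (MulAut.conj c) V) = 4 := by
    have hle := Nat.le_of_dvd (by norm_num) hdvd
    have hm : 4 % 3 = Nat.card (Cfsg.Agent.Helper66.fixedSubgroup (MulAut.conj c) V) % 3 := hmod
    omega
  rcases hcard with h1 | h4
  · have hb : Cfsg.Agent.Helper66.fixedSubgroup (MulAut.conj c) V = ⊥ :=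
      Subgroup.card_eq_one.mp h1
    rw [hb] at hvF
    exact Subgroup.mem_bot.mp hvF
  · exfalso
    have hFV : Cfsg.Agent.Helper66.fixedSubgroup (MulAut.conj c) V = V :=
      Subgroup.eq_of_le_of_card_ge hFle (by rw [h4, hc])
    have hcen : c ∈ Subgroup.centralizer (V : Set X) := by
      rw [Subgroup.mem_centralizer_iff]
      intro w hw
      have hwF : w ∈ Cfsg.Agent.Helper66.fixedSubgroup (MulAut.conj c) V := by
        rw [hFV]; exact hw
      have h2 := ((Cfsg.Agent.Helper66.mem_fixedSubgroup _ _ _).mp hwF).2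
      rw [MulAut.conj_apply] at h2
      calc w * c = (c * w * c⁻¹) * c := by rw [h2]
        _ = c * w := by group
    have hcV : c ∈ V := hC hcen
    have h3 : orderOf c ∣ 3 := orderOf_dvd_of_pow_eq_one hc3
    have h4' : orderOf c ∣ 4 := by
      rw [← hc]; exact Subgroup.orderOf_dvd_natCard V hcV
    have h1 : orderOf c ∣ 1 := by
      have := Nat.dvd_gcd h3 h4'
      simpa using this
    exact hc1 (orderOf_eq_one_iff.mp (Nat.dvd_one.mp h1))

/-- the order of a group with a self-centralizing normal subgroup of order `4` divides `24` -/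
theorem card_dvd {X : Type*} [Group X] [Finite X] (V : Subgroup X) [hV : V.Normal]
    (hc : Nat.card V = 4) (hC : Subgroup.centralizer (V : Set X) ≤ V) : Nat.card X ∣ 24 := by
  classical
  let ψ : X →* Equiv.Perm V := (MulAut.toPerm V).comp (MulAut.conjNormal (H := V))
  have hψ : ∀ (x : X) (v : V), ((ψ x v : V) : X) = x * v * x⁻¹ := fun x v => rfl
  have hker : ψ.ker ≤ V := by
    intro x hx
    apply hC
    rw [Subgroup.mem_centralizer_iff]
    intro v hv
    have h1 : ψ x ⟨v, hv⟩ = ⟨v, hv⟩ := by rw [MonoidHom.mem_ker.mp hx]; rfl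
    have h2 := hψ x ⟨v, hv⟩
    rw [h1] at h2
    have h3 : v = x * v * x⁻¹ := h2
    calc v * x = (x * v * x⁻¹) * x := by rw [← h3]
      _ = x * v := by group
  have hrange : ψ.range ≤ MulAction.stabilizer (Equiv.Perm V) (1 : V) := by
    rintro _ ⟨x, rfl⟩
    rw [MulAction.mem_stabilizer_iff]
    apply Subtype.ext
    show ((ψ x 1 : V) : X) = 1
    rw [hψ]
    simp
  have hstab : Nat.card (MulAction.stabilizer (Equiv.Perm V) (1 : V)) = 6 := by
    have h1 := MulAction.index_stabilizer_of_transitive (Equiv.Perm V) (1 : V)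
    have h2 := (MulAction.stabilizer (Equiv.Perm V) (1 : V)).card_mul_index
    rw [h1, hc, Nat.card_perm, hc] at h2
    have h3 : Nat.card (MulAction.stabilizer (Equiv.Perm V) (1 : V)) * 4 = 6 * 4 := by
      rw [h2]; rfl
    exact Nat.eq_of_mul_eq_mul_right (by norm_num) h3
  have hr : Nat.card ψ.range ∣ 6 := by
    rw [← hstab]; exact Subgroup.card_dvd_of_le hrange
  have hk : Nat.card ψ.ker ∣ 4 := by
    rw [← hc]; exact Subgroup.card_dvd_of_le hker
  have h := ψ.ker.card_mul_index
  rw [Subgroup.index_ker] at h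
  rw [← h]
  exact mul_dvd_mul hk hr

/-- **Recognition of `A₄` and `S₄`.** -/
theorem equiv_of_klein_normal {X : Type*} [Group X] [Finite X] (V : Subgroup X) [hV : V.Normal]
    (hc : Nat.card V = 4) (hC : Subgroup.centralizer (V : Set X) ≤ V)
    (hX : Nat.card X = 12 ∨ Nat.card X = 24) :
    (Nat.card X = 12 → Nonempty (X ≃* alternatingGroup (Fin 4))) ∧
    (Nat.card X = 24 → Nonempty (X ≃* Equiv.Perm (Fin 4))) := by
  classical
  have : Fact (Nat.Prime 3) := ⟨Nat.prime_three⟩
  obtain ⟨P⟩ : Nonempty (Sylow 3 X) := inferInstance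
  have h3X : 3 ∣ Nat.card X := by rcases hX with h | h <;> rw [h] <;> norm_num
  have hX24 : Nat.card X ∣ 24 := by rcases hX with h | h <;> rw [h] <;> norm_num
  have hP3 : Nat.card (P : Subgroup X) = 3 := by
    obtain ⟨k, hk⟩ := IsPGroup.iff_card.mp P.isPGroup'
    have hne := P.ne_bot_of_dvd_card h3X
    have hk0 : k ≠ 0 := by
      rintro rfl
      rw [pow_zero] at hk
      exact hne (Subgroup.card_eq_one.mp hk)
    have hk1 : k ≤ 1 := by
      by_contra hcon
      have h2 : 2 ≤ k := by omega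
      have hd : 3 ^ k ∣ Nat.card X := by
        rw [← hk]; exact Subgroup.card_subgroup_dvd_card (P : Subgroup X)
      have h9 : 3 ^ 2 ∣ 24 := (pow_dvd_pow 3 h2).trans (hd.trans hX24)
      norm_num at h9
    have hk' : k = 1 := by omega
    rw [hk, hk', pow_one]
  obtain ⟨c, hcP, hc1⟩ : ∃ c ∈ (P : Subgroup X), c ≠ 1 := by
    have hne := P.ne_bot_of_dvd_card h3X
    by_contra hcon
    push Not at hcon
    exact hne ((Subgroup.eq_bot_iff_forall _).mpr hcon)
  have hc3 : c ^ 3 = 1 := by
    have h := Subgroup.orderOf_dvd_natCard (P : Subgroup X) hcP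
    rw [hP3] at h
    exact orderOf_dvd_iff_pow_eq_one.mp h
  have hPV : ∀ x ∈ (P : Subgroup X), x ∈ V → x = 1 := by
    intro x hxP hxV
    have h3 : orderOf x ∣ 3 := by rw [← hP3]; exact Subgroup.orderOf_dvd_natCard _ hxP
    have h4 : orderOf x ∣ 4 := by rw [← hc]; exact Subgroup.orderOf_dvd_natCard _ hxV
    have h1 : orderOf x ∣ 1 := by simpa using Nat.dvd_gcd h3 h4
    exact orderOf_eq_one_iff.mp (Nat.dvd_one.mp h1)
  have hVK : ∀ v ∈ V, v ∈ Subgroup.normalizer ((P : Subgroup X) : Set X) → v = 1 := by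
    intro v hv hvK
    apply fp_trivial V hc hC c hc3 hc1 v hv
    have h1 : v * c * v⁻¹ ∈ (P : Subgroup X) := (Subgroup.mem_normalizer_iff.mp hvK c).mp hcP
    have h2 : v * c * v⁻¹ * c⁻¹ ∈ (P : Subgroup X) :=
      (P : Subgroup X).mul_mem h1 ((P : Subgroup X).inv_mem hcP)
    have h3 : v * c * v⁻¹ * c⁻¹ ∈ V := by
      have e : v * c * v⁻¹ * c⁻¹ = v * (c * v⁻¹ * c⁻¹) := by group
      rw [e]
      exact V.mul_mem hv (hV.conj_mem _ (V.inv_mem hv) c)
    have h4 := hPV _ h2 h3
    calc c * v = (v * c * v⁻¹ * c⁻¹)⁻¹ * (v * c) := by group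
      _ = v * c := by rw [h4]; group
  have hn3 : (Subgroup.normalizer ((P : Subgroup X) : Set X)).index = 4 := by
    have h1 : Nat.card (Sylow 3 X) =
        (Subgroup.normalizer ((P : Subgroup X) : Set X)).index := P.card_eq_index_normalizer
    have h2 := card_sylow_modEq_one 3 X
    have h3 : Nat.card (Sylow 3 X) ∣ (P : Subgroup X).index := P.card_dvd_index
    have hidx : (P : Subgroup X).index ∣ 8 := by
      have h := (P : Subgroup X).card_mul_index
      rw [hP3] at h
      have h24 : 3 * (P : Subgroup X).index ∣ 3 * 8 := by rw [h]; exact hX24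
      exact Nat.dvd_of_mul_dvd_mul_left (by norm_num) h24
    have hd8 : Nat.card (Sylow 3 X) ∣ 8 := h3.trans hidx
    have hne1 : Nat.card (Sylow 3 X) ≠ 1 := by
      intro h
      rw [h1] at h
      have htop := Subgroup.index_eq_one.mp h
      have hall : ∀ v ∈ V, v = 1 := fun v hv => hVK v hv (by rw [htop]; exact Subgroup.mem_top v)
      have hVbot : V = ⊥ := (Subgroup.eq_bot_iff_forall V).mpr hall
      rw [hVbot, Subgroup.card_bot] at hc
      norm_num at hc
    rw [← h1]
    have hle : Nat.card (Sylow 3 X) ≤ 8 := Nat.le_of_dvd (by norm_num) hd8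
    have hm : Nat.card (Sylow 3 X) % 3 = 1 % 3 := h2
    have h7 : Nat.card (Sylow 3 X) ≠ 7 := by
      intro h; rw [h] at hd8; norm_num at hd8
    omega
  have hcore : (Subgroup.normalizer ((P : Subgroup X) : Set X)).normalCore = ⊥ := by
    rw [Subgroup.eq_bot_iff_forall]
    intro x hx
    have hxK : x ∈ Subgroup.normalizer ((P : Subgroup X) : Set X) :=
      Subgroup.normalCore_le _ hx
    have hn : ((Subgroup.normalizer ((P : Subgroup X) : Set X)).normalCore).Normal :=
      Subgroup.normalCore_normal _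
    have hcen : x ∈ Subgroup.centralizer (V : Set X) := by
      rw [Subgroup.mem_centralizer_iff]
      intro v hv
      have h1 : v * x * v⁻¹ * x⁻¹ ∈ (Subgroup.normalizer ((P : Subgroup X) : Set X)).normalCore :=
        Subgroup.mul_mem _ (hn.conj_mem x hx v) (Subgroup.inv_mem _ hx)
      have h2 : v * x * v⁻¹ * x⁻¹ ∈ V := by
        have e : v * x * v⁻¹ * x⁻¹ = v * (x * v⁻¹ * x⁻¹) := by group
        rw [e]; exact V.mul_mem hv (hV.conj_mem _ (V.inv_mem hv) x)
      have h3 := hVK _ h2 (Subgroup.normalCore_le _ h1)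
      calc v * x = (v * x * v⁻¹ * x⁻¹) * (x * v) := by group
        _ = x * v := by rw [h3, one_mul]
    exact hVK x (hC hcen) hxK
  let φ : X →* Equiv.Perm (X ⧸ Subgroup.normalizer ((P : Subgroup X) : Set X)) :=
    MulAction.toPermHom X (X ⧸ Subgroup.normalizer ((P : Subgroup X) : Set X))
  have hφ : Function.Injective φ := by
    rw [← MonoidHom.ker_eq_bot_iff, ← Subgroup.normalCore_eq_ker, hcore]
  have hcardq : Nat.card (X ⧸ Subgroup.normalizer ((P : Subgroup X) : Set X)) = 4 := by
    rw [← Subgroup.index_eq_card]; exact hn3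
  constructor
  · intro h12
    exact Cfsg.Agent.Helper5.equiv_alternatingGroup_of_injective φ hφ 4 hcardq
      (by rw [h12]; rfl)
  · intro h24
    have hbij : Function.Bijective φ := hφ.bijective_of_nat_card_le (by
      rw [Nat.card_perm, hcardq, h24]; rfl)
    have ε : X ⧸ Subgroup.normalizer ((P : Subgroup X) : Set X) ≃ Fin 4 :=
      Finite.equivFinOfCardEq hcardq
    exact ⟨(MulEquiv.ofBijective φ hbij).trans ε.permCongrHom⟩

end Cfsg.Agent.Helper71.ZRec
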