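import Cfsg.Agent.Helper71.McLDefs

/-!
# Group-level definitions for S5075 (McLaughlin's theorem)

`H` is a group of linear automorphisms of a vector space `V` over `ZMod p`.
-/

set_option autoImplicit false

namespace Cfsg.Agent.Helper71.McL

open Module

variable {p : ℕ} [Fact p.Prime] {V : Type*} [AddCommGroup V] [Module (ZMod p) V]

/-- The transvection `x ↦ x + φ x • v` (with `φ v = 0`) is an element of `G`. -/
def TV (G : Subgroup (V ≃ₗ[ZMod p] V)) (φ : Dual (ZMod p) V) (v : V) : Prop :=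
  φ v = 0 ∧ ∃ g ∈ G, ∀ x : V, g x = x + φ x • v

/-- The subgroup generated by the transvections of `H` with centre in `W`. -/
def HW (H : Subgroup (V ≃ₗ[ZMod p] V)) (W : Submodule (ZMod p) V) :
    Subgroup (V ≃ₗ[ZMod p] V) :=
  Subgroup.closure {g | g ∈ H ∧ ∃ (φ : Dual (ZMod p) V) (v : V), v ∈ W ∧ φ v = 0 ∧
    ∀ x : V, g x = x + φ x • v}

/-- The common fixed vectors of `G`. -/
def FixG (G : Subgroup (V ≃ₗ[ZMod p] V)) : Submodule (ZMod p) V where
  carrier := {x | ∀ g ∈ G, g x = x}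
  add_mem' := by
    intro a b ha hb g hg
    rw [map_add, ha g hg, hb g hg]
  zero_mem' := by
    intro g _
    exact map_zero g
  smul_mem' := by
    intro c a ha g hg
    rw [map_smul, ha g hg]

theorem mem_FixG {G : Subgroup (V ≃ₗ[ZMod p] V)} {x : V} :
    x ∈ FixG G ↔ ∀ g ∈ G, g x = x := Iff.rfl

/-- `U` is invariant under `G`. -/
def InvG (G : Subgroup (V ≃ₗ[ZMod p] V)) (U : Submodule (ZMod p) V) : Prop :=
  ∀ g ∈ G, ∀ x ∈ U, g x ∈ U

/-- `G` is generated by its transvections. -/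
def TGen (G : Subgroup (V ≃ₗ[ZMod p] V)) : Prop :=
  G = Subgroup.closure {g | g ∈ G ∧ ∃ (φ : Dual (ZMod p) V) (v : V), φ v = 0 ∧
    ∀ x : V, g x = x + φ x • v}

/-- A block of `H`: a minimal `H`-invariant subspace not fixed pointwise by `H`. -/
def IsBlock (H : Subgroup (V ≃ₗ[ZMod p] V)) (W : Submodule (ZMod p) V) : Prop :=
  InvG H W ∧ ¬ W ≤ FixG H ∧ ∀ U : Submodule (ZMod p) V, U ≤ W → InvG H U → U = W ∨ U ≤ FixG H

end Cfsg.Agent.Helper71.McL
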