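import Mathlib
import Cfsg.Agent.Helper66.ZassPSL
import Cfsg.Agent.S0739
import Cfsg.Agent.S0885

set_option autoImplicit false

/-!
# Zassenhaus groups with two-point stabiliser of odd order `(q-1)/2` are `PSL₂(q)` (helper71)

The companion of `Cfsg.Agent.Helper66.zass_psl` (two-point stabiliser of even order).

* `no_normal_index`: if `|Ω| = 2e + 2` with `e` odd the order of the two-point stabiliser, then
  `G` has no normal subgroup of index the full power of a prime divisor of `e` (Feit's bound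
  `S0885` applied to the normal subgroup, which is again a Zassenhaus group).
* `zass_psl_odd`: such a group is `PSL₂(K)` with `|K| = 2e + 1` (so `|K| ≡ 3 mod 4`): by `S0739`
  every element interchanging two points inverts the two-point stabiliser, hence is an involution;
  the coordinates of `Helper66.exists_coord` then identify a suitable interchanging element with
  `x ↦ -1/x` directly, since `-1` is not a square.
-/

namespace Cfsg.Agent.Helper71.ZassOdd

open OnePoint Matrix MulAction Cfsg.Agent.Helper66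

section ZO

variable {G Ω : Type*} [Group G] [MulAction G Ω]

theorem no_normal_index [Finite G] [Fintype Ω] (hZ : Cfsg.IsZassenhausGroup G Ω) {a b : Ω}
    (hab : a ≠ b)
    (hodd : Odd (Nat.card ↥(stabilizer G a ⊓ stabilizer G b)))
    (hd : 2 * Nat.card ↥(stabilizer G a ⊓ stabilizer G b) + 2 = Fintype.card Ω)
    (T : Subgroup G) (hT1 : ∀ t ∈ T, t • a = a)
    (hT2 : ∀ g : G, g • a = a → ∀ t ∈ T, g * t * g⁻¹ ∈ T)
    (hT3 : ∀ t ∈ T, t ≠ 1 → ∀ c : Ω, c ≠ a → t • c ≠ c)
    (hTc : ∀ t ∈ T, ∀ t' ∈ T, t * t' = t' * t)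
    (hcardT : Nat.card T + 1 = Fintype.card Ω) :
    ∀ q : ℕ, q.Prime → q ∣ Nat.card ↥(stabilizer G a ⊓ stabilizer G b) →
      ¬ ∃ N : Subgroup G, N.Normal ∧ N.index = q ^ (Nat.card G).factorization q := by
  rintro q hq hqe ⟨N, hNn, hNidx⟩
  obtain ⟨e, he⟩ : ∃ e : ℕ, e = Nat.card ↥(stabilizer G a ⊓ stabilizer G b) := ⟨_, rfl⟩
  rw [← he] at hodd hd hqe
  have hG := Cfsg.Agent.Helper15.zass_card_group hZ hab
  rw [Nat.card_eq_fintype_card (α := Ω), ← he] at hG
  have hepos : 0 < e := by rw [he]; exact Nat.card_pos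
  have hqG : q ∣ Nat.card G := by rw [hG]; exact Dvd.dvd.mul_left hqe _
  obtain ⟨k, hkdef⟩ : ∃ k : ℕ, k = (Nat.card G).factorization q := ⟨_, rfl⟩
  rw [← hkdef] at hNidx
  have hk : k ≠ 0 := by
    rw [hkdef]
    exact (hq.factorization_pos_of_dvd Nat.card_pos.ne' hqG).ne'
  have hNbot : N ≠ ⊥ := by
    rintro rfl
    rw [Subgroup.index_bot] at hNidx
    have h1 : 2 * e + 1 ∣ q ^ k := by
      rw [← hNidx, hG]
      have : Fintype.card Ω - 1 = 2 * e + 1 := by omega
      rw [this]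
      exact Dvd.dvd.mul_right (Dvd.intro_left _ rfl) _
    obtain ⟨j, -, hj⟩ := (Nat.dvd_prime_pow hq).mp h1
    have hj0 : j ≠ 0 := by
      rintro rfl
      rw [pow_zero] at hj
      omega
    have h2 : q ∣ 2 * e + 1 := by rw [hj]; exact dvd_pow_self q hj0
    have h3 : q ∣ 1 := (Nat.dvd_add_right (Dvd.dvd.mul_left hqe 2)).mp h2
    exact hq.one_lt.ne' (Nat.dvd_one.mp h3)
  have hZN := Cfsg.Agent.Helper6.zs_normal_zassenhaus hZ N hNbot
  have hTN : T ≤ N := Cfsg.Agent.Helper6.zs_kernel_le hZ N hNbot a T hT1 hT2 hT3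
  obtain ⟨e', he'⟩ : ∃ e' : ℕ,
    e' = Nat.card ↥(stabilizer ↥N a ⊓ stabilizer ↥N b : Subgroup ↥N) := ⟨_, rfl⟩
  have hN := Cfsg.Agent.Helper15.zass_card_group hZN hab
  rw [Nat.card_eq_fintype_card (α := Ω), ← he'] at hN
  have hidx := Subgroup.index_mul_card N
  rw [hNidx, hN, hG] at hidx
  have hee' : e = q ^ k * e' := by
    have hpos : 0 < Fintype.card Ω * (Fintype.card Ω - 1) := by
      apply Nat.mul_pos <;> omega
    apply Nat.eq_of_mul_eq_mul_left hpos
    rw [← hidx]
    ring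
  have hqk : 2 ≤ q ^ k := by
    calc 2 ≤ q := hq.two_le
      _ = q ^ 1 := (pow_one q).symm
      _ ≤ q ^ k :=
        Nat.pow_le_pow_right hq.pos (Nat.one_le_iff_ne_zero.mpr hk)
  have he'pos : 0 < e' := by rw [he']; exact Nat.card_pos
  have hodd' : Odd e' := hodd.of_dvd_nat ⟨q ^ k, by rw [hee']; ring⟩
  have hle : 2 * e' ≤ e := by rw [hee']; exact Nat.mul_le_mul_right e' hqk
  have hres := Cfsg.Agent.S0885.result hZN hab (Fintype.card Ω - 1) e' (by omega) he'.symm hodd'
    (T.subgroupOf N)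
    (fun x hx => by
      rw [mem_stabilizer_iff]
      exact hT1 (x : G) (Subgroup.mem_subgroupOf.mp hx))
    (by rw [Nat.card_congr (Subgroup.subgroupOfEquivOfLe hTN).toEquiv]; exact hcardT)
    (fun u hu hu1 c hc => by
      by_contra hca
      exact hT3 (u : G) (Subgroup.mem_subgroupOf.mp hu) (fun h => hu1 (Subtype.ext h)) c hca hc)
  rcases hres with h1 | ⟨-, ⟨u, v, huv⟩, -⟩
  · omega
  · apply huv
    apply Subtype.ext
    apply Subtype.ext
    exact hTc _ (Subgroup.mem_subgroupOf.mp u.2) _ (Subgroup.mem_subgroupOf.mp v.2)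

/-- **Zassenhaus, odd case.** A Zassenhaus group of degree `2d + 2` whose two point stabilisers
have odd order `d` is `PSL₂(K)` with `|K| = 2d + 1`. -/
theorem zass_psl_odd [Finite G] [Fintype Ω] (hZ : Cfsg.IsZassenhausGroup G Ω) {a b : Ω}
    (hab : a ≠ b)
    (hodd : Odd (Nat.card ↥(stabilizer G a ⊓ stabilizer G b)))
    (hd : 2 * Nat.card ↥(stabilizer G a ⊓ stabilizer G b) + 2 = Fintype.card Ω) :
    ∃ (p f : ℕ) (K : Type) (_ : Field K) (_ : Fintype K), p.Prime ∧ p ≠ 2 ∧
      Fintype.card K = p ^ f ∧ Fintype.card Ω = p ^ f + 1 ∧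
      Nonempty (G ≃* Matrix.ProjectiveSpecialLinearGroup (Fin 2) K) := by
  classical
  obtain ⟨T, hT1, hT2, hT3, hT4⟩ := Cfsg.Agent.Helper6.zs_kernel hZ a
  -- regularity of `T`
  have hTle : T ≤ stabilizer G a := fun t ht => mem_stabilizer_iff.mpr (hT1 t ht)
  have hTn : (T.subgroupOf (stabilizer G a)).Normal := by
    constructor
    intro n hn g
    rw [Subgroup.mem_subgroupOf] at hn ⊢
    exact hT2 g (mem_stabilizer_iff.mp g.2) n hn
  have hreg : ∀ y z : Ω, y ≠ a → z ≠ a → ∃! u : T, (u : G) • y = z := by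
    intro y z hy hz
    obtain ⟨t, ht, hty⟩ := hT4 y z hy hz
    refine ⟨⟨t, ht⟩, hty, ?_⟩
    intro u hu
    by_contra hne
    have h1 : (u : G)⁻¹ * t ≠ 1 := by
      intro h
      apply hne
      apply Subtype.ext
      show (u : G) = t
      exact (inv_mul_eq_one.mp h)
    have h2 : ((u : G)⁻¹ * t) • y = y := by
      rw [mul_smul, hty, ← hu, inv_smul_smul]
    exact hT3 _ (T.mul_mem (T.inv_mem u.2) ht) h1 y hy h2
  have hd' : Fintype.card Ω - 2 ≤ 2 * Nat.card ↥(stabilizer G a ⊓ stabilizer G b) := by omega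
  obtain ⟨hTcomm, p, f, hp, hexp, hΩ⟩ := Cfsg.Agent.S0738.result hZ hab hd' T hTle hTn hreg
  have hTc : ∀ t ∈ T, ∀ t' ∈ T, t * t' = t' * t := by
    intro t ht t' ht'
    have := hTcomm.is_comm.comm (⟨t, ht⟩ : T) ⟨t', ht'⟩
    exact congrArg Subtype.val this
  -- `|T| = |Ω| - 1`
  have hcardT : Nat.card T = Fintype.card Ω - 1 := by
    have hub_ne_a : ∀ u : T, (u : G) • b ≠ a := by
      intro u h
      have : (u : G) • b = (u : G) • a := by rw [hT1 u u.2]; exact h
      exact hab ((MulAction.injective (u : G)) this).symm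
    have h1 : Nat.card T = Nat.card {y : Ω // y ≠ a} := by
      apply Nat.card_congr
      refine Equiv.ofBijective (fun u => ⟨(u : G) • b, hub_ne_a u⟩) ⟨?_, ?_⟩
      · intro u u' h
        have h' : (u : G) • b = (u' : G) • b := congrArg Subtype.val h
        obtain ⟨w, hw, hwu⟩ := hreg b ((u' : G) • b) (Ne.symm hab) (hub_ne_a u')
        exact (hwu u h').trans (hwu u' rfl).symm
      · rintro ⟨z, hz⟩
        obtain ⟨w, hw, _⟩ := hreg b z (Ne.symm hab) hz
        exact ⟨w, Subtype.ext hw⟩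
    rw [h1, Nat.card_eq_fintype_card, Fintype.card_subtype_compl, Fintype.card_subtype_eq]
  -- every element interchanging `a` and `b` inverts the two point stabiliser
  have hnil := no_normal_index hZ hab hodd hd T hT1 hT2 hT3 hTc (by omega)
  obtain ⟨-, -, hinv⟩ := Cfsg.Agent.S0739.result hZ hab hodd hnil
  obtain ⟨H, hH⟩ : ∃ H : Subgroup G, H = stabilizer G a ⊓ stabilizer G b := ⟨_, rfl⟩
  rw [← hH] at hodd hd hinv
  have hHmem : ∀ h : G, h ∈ H ↔ h • a = a ∧ h • b = b := by
    intro h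
    rw [hH, Subgroup.mem_inf, mem_stabilizer_iff, mem_stabilizer_iff]
  have hcardT' : Nat.card T = 2 * Nat.card H + 1 := by omega
  have hcop : Nat.Coprime 2 (Nat.card H) := Nat.coprime_two_left.mpr hodd
  have hswap : ∀ g : G, g • a = b → g • b = a → g * g = 1 := by
    intro g hga hgb
    have hgg : g * g ∈ H :=
      (hHmem _).mpr ⟨by rw [mul_smul, hga, hgb], by rw [mul_smul, hgb, hga]⟩
    have h1 := hinv g hga hgb (g * g) hgg
    have h2 : g * (g * g) * g⁻¹ = g * g := by group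
    rw [h2] at h1
    have h3 : (g * g) ^ 2 = 1 := by
      calc (g * g) ^ 2 = (g * g) * (g * g) := pow_two _
        _ = (g * g)⁻¹ * (g * g) := by rw [← h1]
        _ = 1 := inv_mul_cancel _
    have h4 : orderOf (g * g) ∣ 2 := orderOf_dvd_of_pow_eq_one h3
    have h5 : orderOf (g * g) ∣ Nat.card H := Subgroup.orderOf_dvd_natCard H hgg
    exact orderOf_eq_one_iff.mp (Nat.eq_one_of_dvd_coprimes hcop h4 h5)
  have hsH : ∀ s : G, s • a = b → s • b = a → ∀ h ∈ H, s * h * s⁻¹ = h⁻¹ := hinv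
  obtain ⟨c₁, hca, hcb⟩ := Cfsg.Agent.Helper6.zs_exists_ne₂ hZ a b
  obtain ⟨s₁, hs₁a, hs₁b⟩ := Cfsg.Agent.Helper15.zass_two_trans hZ hab hab.symm
  have hs₁s₁ := hswap s₁ hs₁a hs₁b
  have hs₁inv : s₁⁻¹ = s₁ := inv_eq_of_mul_eq_one_left hs₁s₁
  have hHc : ∀ h ∈ H, ∀ h' ∈ H, h * h' = h' * h := by
    intro h hh h' hh'
    have e1 := hsH s₁ hs₁a hs₁b h hh
    have e2 := hsH s₁ hs₁a hs₁b h' hh'
    have e3 := hsH s₁ hs₁a hs₁b (h * h') (H.mul_mem hh hh')
    have e4 : s₁ * (h * h') * s₁⁻¹ = (s₁ * h * s₁⁻¹) * (s₁ * h' * s₁⁻¹) := by group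
    rw [e3, e1, e2] at e4
    have := congrArg (fun x => x⁻¹) e4
    simpa [_root_.mul_inv_rev] using this
  have hHb : ∀ h ∈ H, h • b = b := fun h hh => ((hHmem h).mp hh).2
  have hHn : ∀ h ∈ H, ∀ t ∈ T, h * t * h⁻¹ ∈ T :=
    fun h hh t ht => hT2 h ((hHmem h).mp hh).1 t ht
  have hfix : ∀ h ∈ H, ∀ c : Ω, c ≠ a → c ≠ b → h • c = c → h = 1 := by
    intro h hh c hca hcb hc
    obtain ⟨hha, hhb⟩ := (hHmem h).mp hh
    exact Cfsg.Agent.Helper15.zass_eq_one_of_fix_three hZ hab (Ne.symm hcb) (Ne.symm hca)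
      hha hhb hc
  obtain ⟨K, instF, instFt, instD, ι, μ, hιinf, hι0, hι1, hTm, hμact, hμmul, hμ1, hμ0, hμinj, hKT,
    h2K⟩ := exists_coord a b c₁ hab hca hcb T hT1 hT3 hT4 hTc H hHb hHn hHc hfix (le_of_eq hcardT')
  have hKcard : Fintype.card K = 2 * Nat.card H + 1 := by rw [hKT, hcardT']
  have h2K' : (2 : K) ≠ 0 := by
    intro h
    obtain ⟨t, ht, ht1, htt⟩ := h2K h
    have ho : orderOf (⟨t, ht⟩ : T) = 2 := by
      apply orderOf_eq_prime
      · apply Subtype.ext
        show t ^ 2 = 1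
        rw [pow_two]; exact htt
      · intro h'
        exact ht1 (congrArg Subtype.val h')
    have := orderOf_dvd_natCard (⟨t, ht⟩ : T)
    rw [ho, hcardT'] at this
    omega
  have hμinv : ∀ h : H, μ h⁻¹ = (μ h)⁻¹ := by
    intro h
    exact eq_inv_of_mul_eq_one_left (by rw [← hμmul, inv_mul_cancel, hμ1])
  have hιinj := ι.injective
  have hcoe_ne_a : ∀ x : K, ι (x : OnePoint K) ≠ a := by
    intro x h
    rw [← hιinf] at h
    exact OnePoint.coe_ne_infty x (hιinj h)
  have hcoe_eq_b : ∀ x : K, ι (x : OnePoint K) = b → x = 0 := by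
    intro x h
    rw [← hι0] at h
    exact OnePoint.coe_injective (hιinj h)
  have hcoe_inj : ∀ x y : K, ι (x : OnePoint K) = ι (y : OnePoint K) → x = y :=
    fun x y h => OnePoint.coe_injective (hιinj h)
  -- the subgroup of squares
  let μ' : H →* Kˣ :=
    { toFun := fun h => Units.mk0 (μ h) (hμ0 h)
      map_one' := Units.ext hμ1
      map_mul' := fun h h' => Units.ext (hμmul h h') }
  have hμ'val : ∀ h : H, ((μ' h : Kˣ) : K) = μ h := fun h => rfl
  have hμ'inj : Function.Injective μ' := by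
    intro h h' e
    apply hμinj
    exact congrArg Units.val e
  have hSidx : μ'.range.index = 2 := by
    have h1 : Nat.card μ'.range = Nat.card H :=
      (Nat.card_congr (MonoidHom.ofInjective hμ'inj).toEquiv).symm
    have h2 := Subgroup.index_mul_card μ'.range
    rw [h1, Nat.card_units, Nat.card_eq_fintype_card (α := K), hKcard] at h2
    have hpos : 0 < Nat.card H := Nat.card_pos
    have h3 : μ'.range.index * Nat.card H = 2 * Nat.card H := by omega
    exact Nat.eq_of_mul_eq_mul_right hpos h3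
  -- `-1` is not a square
  have hSneg : (-1 : Kˣ) ∉ μ'.range := by
    rintro ⟨h, hh⟩
    have h1 : μ h = -1 := by
      have := congrArg Units.val hh
      rw [hμ'val] at this
      rw [this]
      simp
    have h2 : μ (h * h) = μ 1 := by rw [hμmul, h1, hμ1]; ring
    have h3 : h * h = 1 := hμinj h2
    have h4 : orderOf h ∣ 2 := orderOf_dvd_of_pow_eq_one (by rw [pow_two]; exact h3)
    have h5 : orderOf h ∣ Nat.card H := orderOf_dvd_natCard h
    have h7 : h = 1 := orderOf_eq_one_iff.mp (Nat.eq_one_of_dvd_coprimes hcop h4 h5)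
    rw [h7, hμ1] at h1
    exact h2K' (by linear_combination h1)
  have hnonsq : ∀ (x : K) (hx : x ≠ 0), Units.mk0 x hx ∉ μ'.range →
      Units.mk0 (-x) (neg_ne_zero.mpr hx) ∈ μ'.range := by
    intro x hx hxS
    have h1 : (-1 : Kˣ) * Units.mk0 x hx = Units.mk0 (-x) (neg_ne_zero.mpr hx) := by
      apply Units.ext
      simp
    rw [← h1, Subgroup.mul_mem_iff_of_index_two hSidx]
    exact ⟨fun h => absurd h hSneg, fun h => absurd h hxS⟩
  -- point stabilisers have odd order
  have hstabodd : ∀ (c : Ω) (g : G), g • c = c → g * g = 1 → g = 1 := by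
    intro c g hgc hgg
    obtain ⟨d, hdc⟩ : ∃ d : Ω, c ≠ d := by
      by_cases h : c = a
      · exact ⟨b, by rw [h]; exact hab⟩
      · exact ⟨a, h⟩
    have h1 := Cfsg.Agent.Helper3.fz_card_stab hZ hdc
    rw [Cfsg.Agent.Helper15.zass_card_stab_inf hZ hab hdc, ← hH, Nat.card_eq_fintype_card (α := Ω)]
      at h1
    have hodd_c : Odd (Nat.card (stabilizer G c)) := by
      rw [h1]
      exact Odd.mul ⟨Nat.card H, by omega⟩ hodd
    have h4 : orderOf (⟨g, hgc⟩ : stabilizer G c) ∣ 2 :=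
      orderOf_dvd_of_pow_eq_one (Subtype.ext (by
        show g ^ 2 = 1
        rw [pow_two]; exact hgg))
    have h5 := orderOf_dvd_natCard (⟨g, hgc⟩ : stabilizer G c)
    have h6 := Nat.eq_one_of_dvd_coprimes (Nat.coprime_two_left.mpr hodd_c) h4 h5
    exact congrArg Subtype.val (orderOf_eq_one_iff.mp h6)
  -- an interchanging element mapping `1` to `-1`
  obtain ⟨s₀, hs₀a, hs₀b, hs₀c⟩ : ∃ s₀ : G, s₀ • a = b ∧ s₀ • b = a ∧
      s₀ • c₁ = ι (((-1 : K) : K) : OnePoint K) := by
    obtain ⟨w, hw⟩ := ι.surjective (s₁ • c₁)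
    cases w with
    | infty =>
      exfalso
      rw [hιinf] at hw
      apply hcb
      rw [← hs₁a, hw, ← mul_smul, hs₁s₁, one_smul]
    | coe y =>
      have hy0 : y ≠ 0 := by
        rintro rfl
        rw [hι0] at hw
        apply hca
        rw [← hs₁b, hw, ← mul_smul, hs₁s₁, one_smul]
      by_cases hyS : Units.mk0 y hy0 ∈ μ'.range
      · exfalso
        obtain ⟨h₀, hh₀⟩ := hyS
        have hμh₀ : μ h₀ = y := congrArg Units.val hh₀
        obtain ⟨k, hk⟩ : ∃ k : H, k * k = h₀ := by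
          obtain ⟨m, hm⟩ := hodd
          refine ⟨h₀ ^ (m + 1), ?_⟩
          rw [← pow_add]
          have : m + 1 + (m + 1) = Nat.card H + 1 := by omega
          rw [this, pow_succ, pow_card_eq_one', one_mul]
        have hfixk : s₁ • ((k : G) • c₁) = (k : G) • c₁ := by
          have h1 : s₁ * (k : G) = (k : G)⁻¹ * s₁ := by
            have := hsH s₁ hs₁a hs₁b k k.2
            rw [hs₁inv] at this
            rw [← this, mul_assoc (s₁ * (k : G)), hs₁s₁, mul_one]
          have h2 := hμact k⁻¹ (μ k * μ k)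
          rw [hμinv] at h2
          have h3 : (μ k)⁻¹ * (μ k * μ k) = μ k := by
            rw [← mul_assoc, inv_mul_cancel₀ (hμ0 k), one_mul]
          rw [h3] at h2
          have h4 := hμact k 1
          rw [mul_one, hι1] at h4
          rw [← mul_smul, h1, mul_smul, ← hw, ← hμh₀, ← hk, hμmul, h4]
          exact h2
        have hs₁1 : s₁ = 1 := hstabodd _ s₁ hfixk hs₁s₁
        rw [hs₁1, one_smul] at hs₁a
        exact hab hs₁a
      · obtain ⟨h₁, hh₁⟩ := hnonsq y hy0 hyS
        have hμh₁ : μ h₁ = -y := congrArg Units.val hh₁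
        refine ⟨(h₁ : G)⁻¹ * s₁, ?_, ?_, ?_⟩
        · rw [mul_smul, hs₁a, inv_smul_eq_iff, hHb h₁ h₁.2]
        · rw [mul_smul, hs₁b, inv_smul_eq_iff, ((hHmem _).mp h₁.2).1]
        · have h2 := hμact h₁⁻¹ y
          rw [hμinv, hμh₁] at h2
          have h3 : (-y)⁻¹ * y = -1 := by
            rw [inv_neg, neg_mul, inv_mul_cancel₀ hy0]
          rw [h3] at h2
          rw [mul_smul, ← hw]
          exact h2
  have hs₀s₀ := hswap s₀ hs₀a hs₀b
  have hs₀inv : s₀⁻¹ = s₀ := inv_eq_of_mul_eq_one_left hs₀s₀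
  -- the map `j`
  have hj : ∀ x : K, ∃ y : K, x ≠ 0 →
      (s₀ • ι (x : OnePoint K) = ι (y : OnePoint K) ∧ y ≠ 0) := by
    intro x
    by_cases hx : x = 0
    · exact ⟨0, fun h => absurd hx h⟩
    · obtain ⟨w, hw⟩ := ι.surjective (s₀ • ι (x : OnePoint K))
      cases w with
      | infty =>
        exfalso
        apply hx
        apply hcoe_eq_b
        rw [hιinf] at hw
        rw [← hs₀a, hw, ← mul_smul, hs₀s₀, one_smul]
      | coe y =>
        refine ⟨y, fun _ => ⟨hw.symm, ?_⟩⟩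
        intro hy
        rw [hy, hι0] at hw
        apply hcoe_ne_a x
        rw [← hs₀b, hw, ← mul_smul, hs₀s₀, one_smul]
  choose j hj using hj
  have hjact : ∀ x : K, x ≠ 0 → s₀ • ι (x : OnePoint K) = ι ((j x : K) : OnePoint K) :=
    fun x hx => (hj x hx).1
  have hj0 : ∀ x : K, x ≠ 0 → j x ≠ 0 := fun x hx => (hj x hx).2
  have hjj : ∀ x : K, x ≠ 0 → j (j x) = x := by
    intro x hx
    apply hcoe_inj
    rw [← hjact (j x) (hj0 x hx), ← hjact x hx, ← mul_smul, hs₀s₀, one_smul]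
  have hj1 : j 1 = -1 := by
    apply hcoe_inj
    rw [← hjact 1 one_ne_zero, hι1, hs₀c]
  have hjm1 : j (-1) = 1 := by
    have := hjj 1 one_ne_zero
    rwa [hj1] at this
  have hjS : ∀ (h : H) (x : K), x ≠ 0 → j (μ h * x) = (μ h)⁻¹ * j x := by
    intro h x hx
    have hne : μ h * x ≠ 0 := mul_ne_zero (hμ0 h) hx
    apply hcoe_inj
    rw [← hjact _ hne, ← hμact h x, ← mul_smul, ← hμinv, ← hμact h⁻¹ (j x), ← hjact x hx,
      ← mul_smul]
    congr 1
    have := hsH s₀ hs₀a hs₀b h h.2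
    rw [hs₀inv] at this
    show s₀ * (h : G) = (h : G)⁻¹ * s₀
    rw [← this, mul_assoc (s₀ * (h : G)), hs₀s₀, mul_one]
  have hjinv : ∀ x : K, x ≠ 0 → j x = -x⁻¹ := by
    intro x hx
    by_cases hxS : Units.mk0 x hx ∈ μ'.range
    · obtain ⟨h, hh⟩ := hxS
      have hμh : μ h = x := congrArg Units.val hh
      have := hjS h 1 one_ne_zero
      rw [mul_one, hj1, hμh] at this
      rw [this, mul_neg, mul_one]
    · obtain ⟨h, hh⟩ := hnonsq x hx hxS
      have hμh : μ h = -x := congrArg Units.val hh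
      have := hjS h (-1) (neg_ne_zero.mpr one_ne_zero)
      rw [hjm1, hμh, mul_one] at this
      have e1 : -x * -1 = x := by ring
      rw [e1] at this
      rw [this, inv_neg]
  -- the Moebius generators
  have hW : ∃ g : G, MoebMatch ι g (mbW : GL (Fin 2) K) := by
    refine ⟨s₀, ?_⟩
    intro y
    cases y with
    | infty =>
      rw [mbW_smul_infty, hιinf, hs₀a, hι0]
    | coe x =>
      by_cases hx : x = 0
      · subst hx
        rw [mbW_smul_zero, hι0, hs₀b, hιinf]
      · rw [mbW_smul_coe hx, hjact x hx, hjinv x hx]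
  have hT : ∀ r : K, ∃ g : G, MoebMatch ι g (mbT r) := fun r => by
    obtain ⟨t, _, ht⟩ := hTm r
    exact ⟨t, ht⟩
  -- the order of `G`
  have hGa : Nat.card (stabilizer G a) ≤ Nat.card T * Nat.card H := by
    rw [← Nat.card_prod]
    let φ : T × H → stabilizer G a := fun q => ⟨(q.1 : G) * (q.2 : G), by
      rw [mem_stabilizer_iff, mul_smul, ((hHmem _).mp q.2.2).1, hT1 _ q.1.2]⟩
    apply Nat.card_le_card_of_surjective φ
    rintro ⟨g, hg⟩
    rw [mem_stabilizer_iff] at hg
    have hgb : g • b ≠ a := by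
      intro h
      have : g • b = g • a := by rw [hg]; exact h
      exact hab (MulAction.injective g this).symm
    obtain ⟨t, ht, htb⟩ := hT4 b (g • b) hab.symm hgb
    refine ⟨(⟨t, ht⟩, ⟨t⁻¹ * g, (hHmem _).mpr ⟨?_, ?_⟩⟩), ?_⟩
    · rw [mul_smul, hg, inv_smul_eq_iff, hT1 t ht]
    · rw [mul_smul, ← htb, inv_smul_smul]
    · apply Subtype.ext
      show t * (t⁻¹ * g) = g
      rw [mul_inv_cancel_left]
  have hGcard : Nat.card G = Fintype.card Ω * Nat.card (stabilizer G a) := by
    have := Cfsg.Agent.Helper15.zass_pretrans hZ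
    rw [← Subgroup.index_mul_card (stabilizer G a), MulAction.index_stabilizer_of_transitive,
      Nat.card_eq_fintype_card]
  have hcard : 2 * Nat.card G ≤ Fintype.card K * (Fintype.card K ^ 2 - 1) := by
    rw [hKcard, hGcard, ← hd]
    have e1 : (2 * Nat.card H + 1) ^ 2 - 1 = 4 * Nat.card H * Nat.card H + 4 * Nat.card H := by
      have : (2 * Nat.card H + 1) ^ 2 = 4 * Nat.card H * Nat.card H + 4 * Nat.card H + 1 := by
        ring
      omega
    rw [e1]
    rw [hcardT'] at hGa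
    calc 2 * ((2 * Nat.card H + 2) * Nat.card (stabilizer G a))
        ≤ 2 * ((2 * Nat.card H + 2) * ((2 * Nat.card H + 1) * Nat.card H)) := by
          apply Nat.mul_le_mul_left
          apply Nat.mul_le_mul_left
          exact hGa
      _ = (2 * Nat.card H + 1) * (4 * Nat.card H * Nat.card H + 4 * Nat.card H) := by ring
  have hfaith := hZ.1
  have hres := psl2_of_moebius (G := G) ι h2K' hT hW hcard
  have hKpf : Fintype.card K = p ^ f := by omega
  refine ⟨p, f, K, instF, instFt, hp, ?_, hKpf, hΩ, hres⟩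
  rintro rfl
  cases f with
  | zero =>
    rw [pow_zero] at hKpf
    have := Fintype.one_lt_card (α := K)
    omega
  | succ n =>
    rw [pow_succ] at hKpf
    omega

end ZO

end Cfsg.Agent.Helper71.ZassOdd
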