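import Mathlib
import Cfsg.Agent.Helper1.FpfSylow
import Cfsg.Agent.Helper2.TateNormal
import Cfsg.Agent.Helper2.PGroup
import Cfsg.Agent.Helper19.ThompsonThesis

/-!
# Camina pairs

`Cam N`: every `g ∉ N` is conjugate to every element of its coset `g N`.  We prove Camina's
trichotomy: a Camina pair `(G, N)` is a Frobenius group with kernel `N`, or `N` is a `p`-group,
or `G / N` is a `p`-group.
-/

set_option autoImplicit false

namespace Cfsg.Agent.Helper71.CaminaPair

open Subgroup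
open scoped commutatorElement

/-- The Camina condition on a subgroup `N`. -/
def Cam {G : Type*} [Group G] (N : Subgroup G) : Prop :=
  ∀ g : G, g ∉ N → ∀ n ∈ N, ∃ x : G, x * g * x⁻¹ = g * n

variable {G : Type*} [Group G]

/-- An element of `N` commuting with `g ∉ N` has order dividing that of `g`. -/
theorem cam_pow_eq_one [Finite G] {N : Subgroup G} (h : Cam N) {g n : G} (hg : g ∉ N)
    (hn : n ∈ N) (hc : n * g = g * n) : n ^ orderOf g = 1 := by
  obtain ⟨x, hx⟩ := h g hg n hn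
  have h1 : orderOf (g * n) = orderOf g := by
    rw [← hx]
    exact (MulAut.conj x).orderOf_eq g
  have h2 : (g * n) ^ orderOf g = 1 := by rw [← h1]; exact pow_orderOf_eq_one _
  have hcomm : Commute g n := hc.symm
  rw [hcomm.mul_pow, pow_orderOf_eq_one, one_mul] at h2
  exact h2

/-- The Camina condition passes to quotients. -/
theorem cam_map_mk {N : Subgroup G} (D : Subgroup G) [D.Normal] (h : Cam N) :
    Cam (N.map (QuotientGroup.mk' D)) := by
  intro g hg n hn
  obtain ⟨g, rfl⟩ := QuotientGroup.mk'_surjective D g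
  obtain ⟨n, hn', rfl⟩ := hn
  have hgN : g ∉ N := fun hgN => hg (Subgroup.mem_map_of_mem _ hgN)
  obtain ⟨x, hx⟩ := h g hgN n hn'
  refine ⟨QuotientGroup.mk' D x, ?_⟩
  rw [← map_inv, ← map_mul, ← map_mul, hx, map_mul]

/-- For `x ∉ N` and a normal subgroup `D ≤ N` of `G`, the centralizers of `x` in `G` and of its
image in `G ⧸ D` have the same order. -/
theorem cam_card_centralizer [Finite G] {N D : Subgroup G} [D.Normal] (h : Cam N) (hDN : D ≤ N)
    {x : G} (hx : x ∉ N) :
    Nat.card (centralizer ({QuotientGroup.mk' D x} : Set (G ⧸ D))) =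
      Nat.card (centralizer ({x} : Set G)) := by
  classical
  obtain ⟨π, hπ⟩ : ∃ π : G →* G ⧸ D, π = QuotientGroup.mk' D := ⟨_, rfl⟩
  rw [← hπ]
  have hπs : Function.Surjective π := by rw [hπ]; exact QuotientGroup.mk'_surjective D
  have hπD : ∀ g : G, π g = 1 ↔ g ∈ D := by
    intro g; rw [hπ]; exact QuotientGroup.eq_one_iff g
  obtain ⟨CX, hCX⟩ : ∃ CX : Subgroup (G ⧸ D), CX = centralizer ({π x} : Set (G ⧸ D)) := ⟨_, rfl⟩
  obtain ⟨Cs, hCs⟩ : ∃ Cs : Subgroup G, Cs = CX.comap π := ⟨_, rfl⟩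
  obtain ⟨C, hC⟩ : ∃ C : Subgroup G, C = centralizer ({x} : Set G) := ⟨_, rfl⟩
  rw [← hCX, ← hC]
  have hmemCs : ∀ a : G, a ∈ Cs ↔ π a * π x = π x * π a := by
    intro a
    rw [hCs, Subgroup.mem_comap, hCX, Subgroup.mem_centralizer_singleton_iff]
  have hmemC : ∀ a : G, a ∈ C ↔ a * x = x * a := by
    intro a
    rw [hC, Subgroup.mem_centralizer_singleton_iff]
  have hCle : C ≤ Cs := by
    intro a ha
    rw [hmemCs, ← map_mul, ← map_mul, (hmemC a).mp ha]
  have hmemD : ∀ a : G, a ∈ Cs → a * x * a⁻¹ * x⁻¹ ∈ D := by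
    intro a ha
    rw [← hπD, map_mul, map_mul, map_mul, map_inv, map_inv, (hmemCs a).mp ha]
    group
  -- the bijection `Cs / C ≃ D`
  let f : ↥Cs → ↥D := fun a => ⟨(a : G) * x * (a : G)⁻¹ * x⁻¹, hmemD a a.2⟩
  have hf : ∀ a b : ↥Cs, QuotientGroup.leftRel (C.subgroupOf Cs) a b → f a = f b := by
    intro a b hab
    rw [QuotientGroup.leftRel_apply, Subgroup.mem_subgroupOf] at hab
    have h1 : ((a : G)⁻¹ * (b : G)) * x = x * ((a : G)⁻¹ * (b : G)) := by
      have := (hmemC _).mp hab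
      simpa using this
    apply Subtype.ext
    show (a : G) * x * (a : G)⁻¹ * x⁻¹ = (b : G) * x * (b : G)⁻¹ * x⁻¹
    have h2 : (b : G) * x * (b : G)⁻¹ = (a : G) * (((a : G)⁻¹ * (b : G)) * x) * (b : G)⁻¹ := by group
    rw [h2, h1]; group
  let F : (↥Cs ⧸ C.subgroupOf Cs) → ↥D := Quotient.lift f hf
  have hFinj : Function.Injective F := by
    intro u v huv
    induction u using QuotientGroup.induction_on with
    | H a =>
    induction v using QuotientGroup.induction_on with
    | H b =>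
    have h1 : f a = f b := huv
    have h2 : (a : G) * x * (a : G)⁻¹ * x⁻¹ = (b : G) * x * (b : G)⁻¹ * x⁻¹ :=
      congrArg Subtype.val h1
    apply QuotientGroup.eq.mpr
    rw [Subgroup.mem_subgroupOf]
    have h3 : (a : G) * x * (a : G)⁻¹ = (b : G) * x * (b : G)⁻¹ := by
      have := congrArg (· * x) h2
      simpa using this
    have h4 : ((a : G)⁻¹ * (b : G)) * x = x * ((a : G)⁻¹ * (b : G)) := by
      have h5 : (b : G) * x = (a : G) * x * (a : G)⁻¹ * (b : G) := by rw [h3]; group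
      calc ((a : G)⁻¹ * (b : G)) * x = (a : G)⁻¹ * ((b : G) * x) := by group
        _ = (a : G)⁻¹ * ((a : G) * x * (a : G)⁻¹ * (b : G)) := by rw [h5]
        _ = x * ((a : G)⁻¹ * (b : G)) := by group
    have := (hmemC _).mpr h4
    simpa using this
  have hFsurj : Function.Surjective F := by
    rintro ⟨d, hd⟩
    have hn : x⁻¹ * d * x ∈ N := by
      have h1 := (inferInstance : D.Normal).conj_mem d hd x⁻¹
      rw [inv_inv] at h1
      exact hDN h1
    obtain ⟨a, ha⟩ := h x hx _ hn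
    have ha' : a * x * a⁻¹ = d * x := by rw [ha]; group
    have haCs : a ∈ Cs := by
      rw [hmemCs]
      have h1 : a * x = d * x * a := by rw [← ha']; group
      rw [← map_mul, h1, map_mul, map_mul, (hπD d).mpr hd, one_mul]
    refine ⟨QuotientGroup.mk (⟨a, haCs⟩ : ↥Cs), ?_⟩
    apply Subtype.ext
    show a * x * a⁻¹ * x⁻¹ = d
    rw [ha']; group
  have hcard1 : Nat.card (↥Cs ⧸ C.subgroupOf Cs) = Nat.card D :=
    Nat.card_eq_of_bijective F ⟨hFinj, hFsurj⟩
  have hcard2 : Nat.card Cs = Nat.card D * Nat.card C := by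
    rw [Subgroup.card_eq_card_quotient_mul_card_subgroup (C.subgroupOf Cs), hcard1,
      Nat.card_congr (Subgroup.subgroupOfEquivOfLe hCle).toEquiv]
  have hidx : Cs.index = CX.index := by
    rw [hCs]; exact Subgroup.index_comap_of_surjective CX hπs
  have hG1 : Nat.card Cs * CX.index = Nat.card G := by
    rw [← hidx]; exact Subgroup.card_mul_index Cs
  have hG2 : Nat.card G = Nat.card (G ⧸ D) * Nat.card D :=
    Subgroup.card_eq_card_quotient_mul_card_subgroup D
  have hG3 : Nat.card CX * CX.index = Nat.card (G ⧸ D) := Subgroup.card_mul_index CX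
  have hidx0 : 0 < CX.index := Nat.pos_of_ne_zero Subgroup.index_ne_zero_of_finite
  have hD0 : 0 < Nat.card D := Nat.card_pos
  have h5 : Nat.card D * CX.index * Nat.card CX = Nat.card D * CX.index * Nat.card C := by
    calc Nat.card D * CX.index * Nat.card CX = (Nat.card CX * CX.index) * Nat.card D := by ring
      _ = Nat.card G := by rw [hG3, ← hG2]
      _ = Nat.card Cs * CX.index := hG1.symm
      _ = Nat.card D * CX.index * Nat.card C := by rw [hcard2]; ring
  exact Nat.eq_of_mul_eq_mul_left (Nat.mul_pos hD0 hidx0) h5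

/-- Fixed points of a `p`-element on a normal subgroup: `|D| ≡ |C_D(x)|` modulo `p`. -/
theorem card_inf_centralizer_modEq [Finite G] (D : Subgroup G) [D.Normal] {p : ℕ}
    [hp : Fact p.Prime] {x : G} {a : ℕ} (hxa : x ^ p ^ a = 1) :
    Nat.card D ≡ Nat.card (D ⊓ centralizer ({x} : Set G) : Subgroup G) [MOD p] := by
  have hZ : IsPGroup p (zpowers x) := by
    have h1 : orderOf x ∣ p ^ a := orderOf_dvd_of_pow_eq_one hxa
    obtain ⟨b, -, hb⟩ := (Nat.dvd_prime_pow hp.out).mp h1
    exact IsPGroup.of_card (n := b) (by rw [Nat.card_zpowers, hb])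
  letI : MulAction (zpowers x) D :=
    MulAction.compHom D ((MulAut.conjNormal (H := D)).comp (zpowers x).subtype)
  have hsmul : ∀ (z : zpowers x) (d : D), ((z • d : D) : G) = (z : G) * d * (z : G)⁻¹ := by
    intro z d
    rfl
  have h1 := hZ.card_modEq_card_fixedPoints D
  have e : MulAction.fixedPoints (zpowers x) D ≃ (D ⊓ centralizer ({x} : Set G) : Subgroup G) :=
    { toFun := fun d => ⟨(d.1 : G), by
        refine Subgroup.mem_inf.mpr ⟨d.1.2, ?_⟩
        rw [Subgroup.mem_centralizer_singleton_iff]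
        have h2 := d.2 ⟨x, Subgroup.mem_zpowers x⟩
        have h3 : x * (d.1 : G) * x⁻¹ = (d.1 : G) := by
          have := congrArg Subtype.val h2
          rwa [hsmul] at this
        calc (d.1 : G) * x = (x * (d.1 : G) * x⁻¹) * x := by rw [h3]
          _ = x * (d.1 : G) := by group⟩
      invFun := fun g => ⟨⟨(g : G), (Subgroup.mem_inf.mp g.2).1⟩, by
        intro z
        apply Subtype.ext
        rw [hsmul]
        obtain ⟨k, hk⟩ := Subgroup.mem_zpowers_iff.mp z.2
        have h2 : (g : G) * x = x * (g : G) :=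
          Subgroup.mem_centralizer_singleton_iff.mp (Subgroup.mem_inf.mp g.2).2
        have h3 : Commute (z : G) (g : G) := by
          rw [← hk]
          exact (Commute.zpow_left (show Commute x (g : G) from h2.symm) k)
        show (z : G) * (g : G) * (z : G)⁻¹ = (g : G)
        rw [h3.eq]; group⟩
      left_inv := fun d => by rfl
      right_inv := fun g => by rfl }
  rw [Nat.card_congr e] at h1
  exact h1

/-- For a `p`-element `x ∉ N` and a normal subgroup `D ≤ N` of order divisible by `p`, the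
centralizer of the image of `x` in `G ⧸ D` has order divisible by `p` times the order of that
image. -/
theorem cam_dvd_card_centralizer [Finite G] {N D : Subgroup G} [D.Normal] (h : Cam N)
    (hDN : D ≤ N) {p : ℕ} [hp : Fact p.Prime] (hpD : p ∣ Nat.card D) {x : G} (hx : x ∉ N) {a : ℕ}
    (hxa : x ^ p ^ a = 1) :
    p * orderOf (QuotientGroup.mk' D x) ∣
      Nat.card (centralizer ({QuotientGroup.mk' D x} : Set (G ⧸ D))) := by
  rw [cam_card_centralizer h hDN hx]
  obtain ⟨C, hC⟩ : ∃ C : Subgroup G, C = centralizer ({x} : Set G) := ⟨_, rfl⟩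
  rw [← hC]
  let ρ : C →* G ⧸ D := (QuotientGroup.mk' D).comp C.subtype
  have h1 : Nat.card ρ.ker * Nat.card ρ.range = Nat.card C := by
    rw [← Subgroup.index_ker, Subgroup.card_mul_index]
  rw [← h1]
  apply Nat.mul_dvd_mul
  · have h2 : ρ.ker = D.subgroupOf C := by
      ext c
      rw [MonoidHom.mem_ker, Subgroup.mem_subgroupOf]
      exact QuotientGroup.eq_one_iff (c : G)
    have h3 : Nat.card (D.subgroupOf C) = Nat.card (D ⊓ C : Subgroup G) := by
      rw [← Subgroup.inf_subgroupOf_right]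
      exact Nat.card_congr (Subgroup.subgroupOfEquivOfLe inf_le_right).toEquiv
    rw [h2, h3, hC]
    have h4 := card_inf_centralizer_modEq D hxa (p := p)
    exact (Nat.modEq_zero_iff_dvd.mp ((h4.symm).trans (Nat.modEq_zero_iff_dvd.mpr hpD)))
  · have hmem : QuotientGroup.mk' D x ∈ ρ.range :=
      ⟨⟨x, by rw [hC]; exact Subgroup.mem_centralizer_singleton_iff.mpr rfl⟩, rfl⟩
    have h5 := orderOf_dvd_natCard (⟨_, hmem⟩ : ρ.range)
    rwa [Subgroup.orderOf_mk] at h5

/-- In a Camina pair `(X, M)` with `M` a nontrivial `p'`-group and `p ∣ |X|`, some nontrivial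
`p`-element `x` has `p · o(x) ∤ |C_X(x)|`. -/
theorem cam_exists_small_centralizer {X : Type*} [Group X] [Finite X] {M : Subgroup X}
    [M.Normal] (h : Cam M) (hM : M ≠ ⊥) {p : ℕ} [hp : Fact p.Prime]
    (hMp : ∀ m ∈ M, ∀ j : ℕ, m ^ p ^ j = 1 → m = 1) (hpX : p ∣ Nat.card X) :
    ∃ x : X, x ≠ 1 ∧ (∃ j : ℕ, x ^ p ^ j = 1) ∧
      ¬ p * orderOf x ∣ Nat.card (centralizer ({x} : Set X)) := by
  classical
  have hpp : p.Prime := hp.out
  obtain ⟨x0, hx0⟩ := exists_prime_orderOf_dvd_card' p hpX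
  have hS : {x : X | x ≠ 1 ∧ ∃ j : ℕ, x ^ p ^ j = 1}.Nonempty := by
    refine ⟨x0, ?_, 1, ?_⟩
    · intro h1
      rw [h1, orderOf_one] at hx0
      exact hpp.one_lt.ne hx0
    · rw [pow_one, ← hx0]; exact pow_orderOf_eq_one x0
  obtain ⟨x, ⟨hx1, j, hxj⟩, hmax⟩ :=
    Set.exists_max_image _ (fun x : X => orderOf x) (Set.toFinite _) hS
  refine ⟨x, hx1, ⟨j, hxj⟩, ?_⟩
  intro hdvd
  obtain ⟨k, -, hk⟩ := (Nat.dvd_prime_pow hpp).mp (orderOf_dvd_of_pow_eq_one hxj)
  have hk1 : 1 ≤ k := by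
    by_contra hk0
    have : k = 0 := by omega
    rw [this, pow_zero, orderOf_eq_one_iff] at hk
    exact hx1 hk
  have hxk : x ^ p ^ k = 1 := by rw [← hk]; exact pow_orderOf_eq_one x
  obtain ⟨C, hC⟩ : ∃ C : Subgroup X, C = centralizer ({x} : Set X) := ⟨_, rfl⟩
  rw [← hC] at hdvd
  have hmemC : ∀ c : X, c ∈ C ↔ c * x = x * c := by
    intro c; rw [hC, Subgroup.mem_centralizer_singleton_iff]
  have hxC : x ∈ C := (hmemC x).mpr rfl
  obtain ⟨xC, hxCdef⟩ : ∃ xC : C, xC = ⟨x, hxC⟩ := ⟨_, rfl⟩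
  have hZn : (zpowers xC).Normal := by
    refine ⟨fun z hz c => ?_⟩
    obtain ⟨i, rfl⟩ := Subgroup.mem_zpowers_iff.mp hz
    have hc : Commute c xC := by
      apply Subtype.ext
      rw [hxCdef]
      exact (hmemC c).mp c.2
    have h1 : c * xC ^ i * c⁻¹ = xC ^ i := by
      rw [(hc.zpow_right i).eq]; group
    rw [h1]; exact Subgroup.zpow_mem _ (Subgroup.mem_zpowers _) i
  have hordC : orderOf xC = p ^ k := by
    rw [hxCdef, Subgroup.orderOf_mk, hk]
  have hcardZ : Nat.card (zpowers xC) = p ^ k := by rw [Nat.card_zpowers, hordC]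
  have hquot : p ∣ Nat.card (↥C ⧸ zpowers xC) := by
    have h1 := Subgroup.card_eq_card_quotient_mul_card_subgroup (zpowers xC)
    rw [hcardZ] at h1
    rw [h1, hk] at hdvd
    exact Nat.dvd_of_mul_dvd_mul_right (pow_pos hpp.pos k) hdvd
  obtain ⟨ybar, hybar⟩ := exists_prime_orderOf_dvd_card' p hquot
  obtain ⟨y, rfl⟩ := QuotientGroup.mk_surjective ybar
  have hyZ : y ∉ zpowers xC := by
    intro hy
    have h1 : (QuotientGroup.mk y : ↥C ⧸ zpowers xC) = 1 := (QuotientGroup.eq_one_iff y).mpr hy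
    rw [h1, orderOf_one] at hybar
    exact hpp.one_lt.ne hybar
  have hypZ : y ^ p ∈ zpowers xC := by
    have h1 : (QuotientGroup.mk y : ↥C ⧸ zpowers xC) ^ p = 1 := by
      rw [← hybar]; exact pow_orderOf_eq_one _
    rw [← QuotientGroup.mk_pow] at h1
    exact (QuotientGroup.eq_one_iff _).mp h1
  have hxCfin : IsOfFinOrder xC := isOfFinOrder_of_finite xC
  obtain ⟨i, hi⟩ := (Submonoid.mem_powers_iff _ _).mp ((mem_powers_iff_mem_zpowers).mpr hypZ)
  -- pass to `X`
  obtain ⟨yv, hyv⟩ : ∃ yv : X, yv = (y : X) := ⟨_, rfl⟩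
  have hyx : Commute yv x := by rw [hyv]; exact (hmemC y).mp y.2
  have hypow : yv ^ p = x ^ i := by
    have := congrArg Subtype.val hi
    rw [hxCdef] at this
    rw [hyv]
    simpa using this.symm
  have hynot : ∀ n : ℤ, yv ≠ x ^ n := by
    intro n hn
    apply hyZ
    refine Subgroup.mem_zpowers_iff.mpr ⟨n, ?_⟩
    apply Subtype.ext
    rw [hxCdef]
    simpa [← hyv] using hn.symm
  have hy1 : yv ≠ 1 := fun h1 => hynot 0 (by rw [h1, zpow_zero])
  have hyk1 : yv ^ p ^ (k + 1) = 1 := by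
    rw [pow_succ', pow_mul, hypow, ← pow_mul, mul_comm, pow_mul, hxk, one_pow]
  have hyle : orderOf yv ≤ orderOf x := hmax yv ⟨hy1, k + 1, hyk1⟩
  obtain ⟨l, -, hl⟩ := (Nat.dvd_prime_pow hpp).mp (orderOf_dvd_of_pow_eq_one hyk1)
  have hlk : l ≤ k := by
    rw [hl, hk] at hyle
    exact (Nat.pow_le_pow_iff_right hpp.one_lt).mp hyle
  have hyk : yv ^ p ^ k = 1 := by
    apply orderOf_dvd_iff_pow_eq_one.mp
    rw [hl]; exact pow_dvd_pow p hlk
  have hpi : p ∣ i := by
    have h1 : x ^ (i * p ^ (k - 1)) = 1 := by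
      rw [pow_mul, ← hypow, ← pow_mul, ← pow_succ', Nat.sub_add_cancel hk1, hyk]
    have h2 := orderOf_dvd_of_pow_eq_one h1
    rw [hk] at h2
    have h3 : p ^ k = p * p ^ (k - 1) := by rw [← pow_succ', Nat.sub_add_cancel hk1]
    rw [h3] at h2
    exact Nat.dvd_of_mul_dvd_mul_right (pow_pos hpp.pos (k - 1)) h2
  obtain ⟨i', rfl⟩ := hpi
  obtain ⟨w, hw⟩ : ∃ w : X, w = yv * (x ^ i')⁻¹ := ⟨_, rfl⟩
  have hwp : w ^ p = 1 := by
    have hc : Commute yv (x ^ i')⁻¹ := (hyx.pow_right i').inv_right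
    rw [hw, hc.mul_pow, hypow, inv_pow, ← pow_mul, mul_comm i' p, mul_inv_cancel]
  have hw1 : w ≠ 1 := by
    intro h1
    rw [hw, mul_inv_eq_one] at h1
    exact hynot i' (by rw [h1, zpow_natCast])
  have hwo : orderOf w = p := orderOf_eq_prime hwp hw1
  obtain ⟨u, hu⟩ : ∃ u : X, u = x ^ p ^ (k - 1) := ⟨_, rfl⟩
  have hup : u ^ p = 1 := by
    rw [hu, ← pow_mul, ← pow_succ, Nat.sub_add_cancel hk1, hxk]
  have hu1 : u ≠ 1 := by
    intro h1
    rw [hu] at h1
    have h2 := orderOf_dvd_of_pow_eq_one h1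
    rw [hk] at h2
    have h3 := (Nat.pow_dvd_pow_iff_le_right hpp.one_lt).mp h2
    omega
  have huo : orderOf u = p := orderOf_eq_prime hup hu1
  have hAB : zpowers u ≠ zpowers w := by
    intro hAB
    have h1 : w ∈ zpowers u := by rw [hAB]; exact Subgroup.mem_zpowers w
    obtain ⟨n, hn⟩ := Subgroup.mem_zpowers_iff.mp h1
    apply hynot ((p ^ (k - 1) : ℕ) * n + i')
    have h2 : yv = w * x ^ i' := by rw [hw]; group
    rw [h2, ← hn, hu, zpow_add, zpow_mul, zpow_natCast, zpow_natCast]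
  -- the `p`-group `Q`
  have hPx : IsPGroup p (zpowers x) := IsPGroup.of_card (n := k) (by rw [Nat.card_zpowers, hk])
  have hPy : IsPGroup p (zpowers yv) := IsPGroup.of_card (n := l) (by rw [Nat.card_zpowers, hl])
  have hnorm : zpowers x ≤ normalizer ((zpowers yv : Subgroup X) : Set X) := by
    intro g hg
    obtain ⟨n, rfl⟩ := Subgroup.mem_zpowers_iff.mp hg
    rw [Subgroup.mem_normalizer_iff]
    intro t
    have key : ∀ t : X, t ∈ zpowers yv → x ^ n * t * (x ^ n)⁻¹ = t := by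
      intro t ht
      obtain ⟨m, rfl⟩ := Subgroup.mem_zpowers_iff.mp ht
      have hc : Commute (x ^ n) (yv ^ m) := (hyx.symm.zpow_left n).zpow_right m
      rw [hc.eq]; group
    constructor
    · intro ht; rw [key t ht]; exact ht
    · intro ht
      have h2 := key _ ht
      have h3 : x ^ n * t * (x ^ n)⁻¹ = t := by
        calc x ^ n * t * (x ^ n)⁻¹
            = (x ^ n)⁻¹ * (x ^ n * (x ^ n * t * (x ^ n)⁻¹) * (x ^ n)⁻¹) * x ^ n := by group
          _ = (x ^ n)⁻¹ * (x ^ n * t * (x ^ n)⁻¹) * x ^ n := by rw [h2]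
          _ = t := by group
      rw [← h3]; exact ht
  have hQ : IsPGroup p (zpowers x ⊔ zpowers yv : Subgroup X) :=
    IsPGroup.to_sup_of_normal_right' hPx hPy hnorm
  have hA : zpowers u ≤ zpowers x ⊔ zpowers yv := by
    refine le_trans ?_ le_sup_left
    rw [Subgroup.zpowers_le, hu]
    exact Subgroup.pow_mem _ (Subgroup.mem_zpowers x) _
  have hB : zpowers w ≤ zpowers x ⊔ zpowers yv := by
    rw [Subgroup.zpowers_le, hw]
    exact Subgroup.mul_mem _ (Subgroup.mem_sup_right (Subgroup.mem_zpowers yv))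
      (Subgroup.inv_mem _ (Subgroup.mem_sup_left (Subgroup.pow_mem _ (Subgroup.mem_zpowers x) _)))
  have hQK : zpowers x ⊔ zpowers yv ≤ normalizer (M : Set X) := by
    intro g _
    rw [Subgroup.mem_normalizer_iff]
    intro m
    constructor
    · intro hm; exact (inferInstance : M.Normal).conj_mem m hm g
    · intro hm
      have h1 := (inferInstance : M.Normal).conj_mem _ hm g⁻¹
      have h2 : g⁻¹ * (g * m * g⁻¹) * g⁻¹⁻¹ = m := by group
      rwa [h2] at h1
  have hfpf : ∀ t ∈ (zpowers x ⊔ zpowers yv : Subgroup X), t ≠ 1 →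
      M ⊓ centralizer ({t} : Set X) = ⊥ := by
    intro t ht ht1
    obtain ⟨n, hn⟩ := hQ ⟨t, ht⟩
    have htn : t ^ p ^ n = 1 := by
      have := congrArg Subtype.val hn
      simpa using this
    have htM : t ∉ M := fun htM => ht1 (hMp t htM n htn)
    rw [eq_bot_iff]
    rintro m ⟨hmM, hmc⟩
    rw [Subgroup.mem_bot]
    have hmt : m * t = t * m := Subgroup.mem_centralizer_singleton_iff.mp hmc
    have h1 := cam_pow_eq_one h htM hmM hmt
    obtain ⟨l', -, hl'⟩ := (Nat.dvd_prime_pow hpp).mp (orderOf_dvd_of_pow_eq_one htn)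
    rw [hl'] at h1
    exact hMp m hmM l' h1
  exact hAB (Cfsg.Agent.Helper1.fpf_eq_of_card_prime M _ hM hQK hfpf p hQ _ _ hA hB
    (by rw [Nat.card_zpowers, huo]) (by rw [Nat.card_zpowers, hwo]))

/-- An element two of whose coprime powers lie in a subgroup lies in it. -/
theorem mem_of_pow_mem_coprime (S : Subgroup G) {x : G} {m n : ℕ} (h : Nat.Coprime m n)
    (hm : x ^ m ∈ S) (hn : x ^ n ∈ S) : x ∈ S := by
  have h1 : (m : ℤ) * Nat.gcdA m n + (n : ℤ) * Nat.gcdB m n = 1 := by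
    have := Nat.gcd_eq_gcd_ab m n
    rw [h] at this
    exact_mod_cast this.symm
  have h2 : x = (x ^ m) ^ (Nat.gcdA m n) * (x ^ n) ^ (Nat.gcdB m n) := by
    rw [← zpow_natCast, ← zpow_natCast, ← zpow_mul, ← zpow_mul, ← zpow_add, h1, zpow_one]
  rw [h2]; exact S.mul_mem (S.zpow_mem hm _) (S.zpow_mem hn _)

/-- **Main lemma**: a Camina pair `(G, N)` with `p ∣ [G : N]` has no normal subgroup `D < N` of
`G` of order divisible by `p` and index in `N` prime to `p`. -/
theorem cam_false_of_normal [Finite G] {N : Subgroup G} [N.Normal] (h : Cam N) {p : ℕ}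
    [hp : Fact p.Prime] (hpi : p ∣ N.index) (D : Subgroup G) [D.Normal] (hDN : D ≤ N)
    (hND : ¬ N ≤ D) (hcop : (D.relIndex N).Coprime p) (hpD : p ∣ Nat.card D) : False := by
  have hpp : p.Prime := hp.out
  obtain ⟨π, hπ⟩ : ∃ π : G →* G ⧸ D, π = QuotientGroup.mk' D := ⟨_, rfl⟩
  have hπs : Function.Surjective π := by rw [hπ]; exact QuotientGroup.mk'_surjective D
  have hπD : ∀ g : G, π g = 1 ↔ g ∈ D := by
    intro g; rw [hπ]; exact QuotientGroup.eq_one_iff g
  have hMn : (N.map π).Normal := Subgroup.Normal.map inferInstance π hπs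
  have hcam : Cam (N.map π) := by rw [hπ]; exact cam_map_mk D h
  have hM : N.map π ≠ ⊥ := by
    obtain ⟨n, hn, hnD⟩ := SetLike.not_le_iff_exists.mp hND
    intro hbot
    have h1 : π n ∈ N.map π := Subgroup.mem_map_of_mem π hn
    rw [hbot, Subgroup.mem_bot, hπD] at h1
    exact hnD h1
  have hMp : ∀ m ∈ N.map π, ∀ j : ℕ, m ^ p ^ j = 1 → m = 1 := by
    rintro m ⟨n, hn, rfl⟩ j hj
    rw [← map_pow, hπD] at hj
    rw [hπD]
    exact mem_of_pow_mem_coprime D (Nat.Coprime.pow_left j hcop.symm) hj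
      (Subgroup.pow_relIndex_mem D hn)
  have hpX : p ∣ Nat.card (G ⧸ D) := by
    have h1 : N.index ∣ D.index := Subgroup.index_dvd_of_le hDN
    rw [Subgroup.index_eq_card] at h1
    exact dvd_trans hpi h1
  obtain ⟨xt, hxt1, ⟨j, hxtj⟩, hnd⟩ := cam_exists_small_centralizer hcam hM hMp hpX
  obtain ⟨g, rfl⟩ := hπs xt
  have hj1 : 1 ≤ j := by
    by_contra hj0
    have : j = 0 := by omega
    rw [this, pow_zero, pow_one] at hxtj
    exact hxt1 hxtj
  have ho : orderOf g ≠ 0 := (orderOf_pos g).ne'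
  obtain ⟨a, m, hm, hom⟩ := Nat.exists_eq_pow_mul_and_not_dvd ho p hpp.one_lt.ne'
  have hmcop : Nat.Coprime m (p ^ j) :=
    Nat.Coprime.pow_right j ((Nat.Prime.coprime_iff_not_dvd hpp).mpr hm).symm
  obtain ⟨c, -, hc⟩ := Nat.exists_mul_mod_eq_one_of_coprime hmcop
    (Nat.one_lt_pow (by omega) hpp.one_lt)
  have hxa : (g ^ (m * c)) ^ p ^ a = 1 := by
    rw [← pow_mul]
    have h1 : m * c * p ^ a = orderOf g * c := by rw [hom]; ring
    rw [h1, pow_mul, pow_orderOf_eq_one, one_pow]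
  have hπx : π (g ^ (m * c)) = π g := by
    rw [map_pow]
    conv_lhs => rw [← Nat.mod_add_div (m * c) (p ^ j)]
    rw [hc, pow_add, pow_one, pow_mul, hxtj, one_pow, mul_one]
  have hxN : g ^ (m * c) ∉ N := by
    intro hx
    have h1 : π (g ^ (m * c)) ∈ N.map π := Subgroup.mem_map_of_mem π hx
    rw [hπx] at h1
    exact hxt1 (hMp _ h1 j hxtj)
  have h2 := cam_dvd_card_centralizer h hDN hpD hxN hxa
  rw [← hπ, hπx] at h2
  exact hnd h2

/-- The map `a ↦ a x a⁻¹ x⁻¹` is injective on cosets of the centralizer of `x`. -/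
theorem conj_quot_inj (L T : Subgroup G) (x : G) (hT : ∀ a ∈ L, a * x * a⁻¹ * x⁻¹ ∈ T) :
    ∃ F : (↥L ⧸ (centralizer ({x} : Set G)).subgroupOf L) → ↥T, Function.Injective F ∧
      ∀ a : L, (F (QuotientGroup.mk a) : G) = (a : G) * x * (a : G)⁻¹ * x⁻¹ := by
  classical
  have hmemC : ∀ a : G, a ∈ centralizer ({x} : Set G) ↔ a * x = x * a := by
    intro a
    rw [Subgroup.mem_centralizer_singleton_iff]
  let f : ↥L → ↥T := fun a => ⟨(a : G) * x * (a : G)⁻¹ * x⁻¹, hT a a.2⟩
  have hf : ∀ a b : ↥L,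
      QuotientGroup.leftRel ((centralizer ({x} : Set G)).subgroupOf L) a b → f a = f b := by
    intro a b hab
    rw [QuotientGroup.leftRel_apply, Subgroup.mem_subgroupOf] at hab
    have h1 : ((a : G)⁻¹ * (b : G)) * x = x * ((a : G)⁻¹ * (b : G)) := by
      have := (hmemC _).mp hab
      simpa using this
    apply Subtype.ext
    show (a : G) * x * (a : G)⁻¹ * x⁻¹ = (b : G) * x * (b : G)⁻¹ * x⁻¹
    have h2 : (b : G) * x * (b : G)⁻¹ = (a : G) * (((a : G)⁻¹ * (b : G)) * x) * (b : G)⁻¹ := by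
      group
    rw [h2, h1]; group
  refine ⟨Quotient.lift f hf, ?_, fun a => rfl⟩
  intro u v huv
  induction u using QuotientGroup.induction_on with
  | H a =>
  induction v using QuotientGroup.induction_on with
  | H b =>
  have h1 : f a = f b := huv
  have h2 : (a : G) * x * (a : G)⁻¹ * x⁻¹ = (b : G) * x * (b : G)⁻¹ * x⁻¹ :=
    congrArg Subtype.val h1
  apply QuotientGroup.eq.mpr
  rw [Subgroup.mem_subgroupOf]
  have h3 : (a : G) * x * (a : G)⁻¹ = (b : G) * x * (b : G)⁻¹ := by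
    have := congrArg (· * x) h2
    simpa using this
  have h4 : ((a : G)⁻¹ * (b : G)) * x = x * ((a : G)⁻¹ * (b : G)) := by
    have h5 : (b : G) * x = (a : G) * x * (a : G)⁻¹ * (b : G) := by rw [h3]; group
    calc ((a : G)⁻¹ * (b : G)) * x = (a : G)⁻¹ * ((b : G) * x) := by group
      _ = (a : G)⁻¹ * ((a : G) * x * (a : G)⁻¹ * (b : G)) := by rw [h5]
      _ = x * ((a : G)⁻¹ * (b : G)) := by group
  have := (hmemC _).mpr h4
  simpa using this

/-- In a Camina pair, `N ∩ Q ≤ Φ(Q)` for every Sylow `q`-subgroup `Q` of `G` with `q ∣ [G : N]`. -/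
theorem cam_inf_sylow_le_frattini [Finite G] {N : Subgroup G} [N.Normal] (h : Cam N) {q : ℕ}
    [hq : Fact q.Prime] (hqi : q ∣ N.index) (Q : Sylow q G) :
    N ⊓ (Q : Subgroup G) ≤ (frattini Q).map (Q : Subgroup G).subtype := by
  classical
  have hqq : q.Prime := hq.out
  obtain ⟨π, hπ⟩ : ∃ π : G →* G ⧸ N, π = QuotientGroup.mk' N := ⟨_, rfl⟩
  have hπN : ∀ g : G, π g = 1 ↔ g ∈ N := by
    intro g; rw [hπ]; exact QuotientGroup.eq_one_iff g
  have hQN : ¬ (Q : Subgroup G) ≤ N := by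
    intro hle
    exact Q.not_dvd_index (dvd_trans hqi (Subgroup.index_dvd_of_le hle))
  obtain ⟨g0, hg0Q, hg0N⟩ := SetLike.not_le_iff_exists.mp hQN
  have hPbar : IsPGroup q ((Q : Subgroup G).map π) := IsPGroup.map Q.isPGroup' π
  have hnt : Nontrivial ((Q : Subgroup G).map π) := by
    refine ⟨⟨⟨π g0, Subgroup.mem_map_of_mem π hg0Q⟩, 1, ?_⟩⟩
    intro h1
    have := congrArg Subtype.val h1
    exact hg0N ((hπN g0).mp this)
  have hcen := hPbar.center_nontrivial
  obtain ⟨z, hz⟩ := exists_ne (1 : Subgroup.center ((Q : Subgroup G).map π))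
  obtain ⟨x, hxQ, hxz⟩ := (z : (Q : Subgroup G).map π).2
  have hxN : x ∉ N := by
    intro hx
    apply hz
    apply Subtype.ext
    apply Subtype.ext
    rw [← hxz]
    exact (hπN x).mpr hx
  have hcomm : ∀ a ∈ (Q : Subgroup G), π a * π x = π x * π a := by
    intro a ha
    have h1 := Subgroup.mem_center_iff.mp z.2 ⟨π a, Subgroup.mem_map_of_mem π ha⟩
    have h2 := congrArg Subtype.val h1
    simp only [Subgroup.coe_mul] at h2
    rw [← hxz] at h2
    exact h2
  have hT : ∀ a ∈ (Q : Subgroup G), a * x * a⁻¹ * x⁻¹ ∈ N ⊓ (Q : Subgroup G) := by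
    intro a ha
    refine Subgroup.mem_inf.mpr ⟨?_, ?_⟩
    · rw [← hπN, map_mul, map_mul, map_mul, map_inv, map_inv, hcomm a ha]
      group
    · exact Subgroup.mul_mem _ (Subgroup.mul_mem _ (Subgroup.mul_mem _ ha hxQ)
        (Subgroup.inv_mem _ ha)) (Subgroup.inv_mem _ hxQ)
  obtain ⟨C, hC⟩ : ∃ C : Subgroup G, C = centralizer ({x} : Set G) := ⟨_, rfl⟩
  have hT' := conj_quot_inj (Q : Subgroup G) (N ⊓ (Q : Subgroup G)) x hT
  rw [← hC] at hT'
  obtain ⟨F, hFinj, hFval⟩ := hT'
  have hC1 : Nat.card (C.subgroupOf (Q : Subgroup G)) = Nat.card (C ⊓ (Q : Subgroup G) : Subgroup G) := by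
    rw [← Subgroup.inf_subgroupOf_right]
    exact Nat.card_congr (Subgroup.subgroupOfEquivOfLe inf_le_right).toEquiv
  obtain ⟨a, ha⟩ := (IsPGroup.iff_card).mp
    (Q.isPGroup'.to_le (inf_le_right : C ⊓ (Q : Subgroup G) ≤ (Q : Subgroup G)))
  obtain ⟨b, hb⟩ := (IsPGroup.iff_card).mp
    (Q.isPGroup'.to_le (inf_le_right : N ⊓ (Q : Subgroup G) ≤ (Q : Subgroup G)))
  have hdvd1 : Nat.card (C ⊓ (Q : Subgroup G) : Subgroup G) ∣ N.index := by
    have h1 : Nat.card (C ⊓ (Q : Subgroup G) : Subgroup G) ∣ Nat.card C :=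
      Subgroup.card_dvd_of_le inf_le_left
    have h2 : Nat.card (centralizer ({QuotientGroup.mk' N x} : Set (G ⧸ N))) = Nat.card C := by
      rw [hC]; exact cam_card_centralizer h (le_refl N) hxN
    have h3 : Nat.card (centralizer ({QuotientGroup.mk' N x} : Set (G ⧸ N))) ∣
        Nat.card (G ⧸ N) := Subgroup.card_subgroup_dvd_card _
    rw [h2] at h3
    rw [Subgroup.index_eq_card]
    exact dvd_trans h1 h3
  have hdvd2 : Nat.card (N ⊓ (Q : Subgroup G) : Subgroup G) ∣ Nat.card N :=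
    Subgroup.card_dvd_of_le inf_le_left
  have hprod : q ^ (a + b) ∣ Nat.card G := by
    rw [pow_add, ← ha, ← hb, ← Subgroup.index_mul_card N]
    exact Nat.mul_dvd_mul hdvd1 hdvd2
  have hQle : q ^ (a + b) ≤ Nat.card Q :=
    Nat.le_of_dvd Nat.card_pos (Q.pow_dvd_card_of_pow_dvd_card hprod)
  have hcardQ := Subgroup.card_eq_card_quotient_mul_card_subgroup (C.subgroupOf (Q : Subgroup G))
  have hle : Nat.card (N ⊓ (Q : Subgroup G) : Subgroup G) ≤
      Nat.card (↥(Q : Subgroup G) ⧸ C.subgroupOf (Q : Subgroup G)) := by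
    rw [hC1, ha] at hcardQ
    rw [hb]
    have h3 : q ^ a * q ^ b ≤ q ^ a *
        Nat.card (↥(Q : Subgroup G) ⧸ C.subgroupOf (Q : Subgroup G)) := by
      rw [← pow_add]
      calc q ^ (a + b) ≤ Nat.card Q := hQle
        _ = _ := by rw [mul_comm]; exact hcardQ
    exact Nat.le_of_mul_le_mul_left h3 (pow_pos hqq.pos a)
  have hbij := hFinj.bijective_of_nat_card_le hle
  intro n hn
  obtain ⟨u, hu⟩ := hbij.2 ⟨n, hn⟩
  obtain ⟨c, rfl⟩ := QuotientGroup.mk_surjective u
  have h4 := hFval c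
  rw [hu] at h4
  refine ⟨⁅c, (⟨x, hxQ⟩ : (Q : Subgroup G))⁆, ?_, ?_⟩
  · apply Cfsg.Agent.Helper2.commutator_le_frattini_of_isPGroup Q.isPGroup'
    rw [_root_.commutator_def]
    exact Subgroup.commutator_mem_commutator (Subgroup.mem_top _) (Subgroup.mem_top _)
  · rw [commutatorElement_def]
    simpa using h4.symm

/-- **Tate step**: for a prime `q ∣ [G : N]`, `N` has a normal `q`-complement, normal in `G`. -/
theorem cam_exists_normal_compl [Finite G] {N : Subgroup G} [N.Normal] (h : Cam N) {q : ℕ}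
    [hq : Fact q.Prime] (hqi : q ∣ N.index) :
    ∃ D : Subgroup G, D.Normal ∧ D ≤ N ∧ (Nat.card D).Coprime q ∧
      ∃ v : ℕ, D.relIndex N = q ^ v ∧ Nat.card D * q ^ v = Nat.card N := by
  have hqq : q.Prime := hq.out
  obtain ⟨Q⟩ : Nonempty (Sylow q G) := inferInstance
  obtain ⟨P', K, hKn, hKc⟩ :=
    Cfsg.Agent.Helper2.hasNormalPComplement_of_normal_inf_sylow_le_frattini Q N
      (cam_inf_sylow_le_frattini h hqi Q)
  obtain ⟨v, hv⟩ : ∃ v, Nat.card P' = q ^ v := ⟨_, P'.card_eq_multiplicity⟩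
  have hcard : Nat.card K * q ^ v = Nat.card N := by rw [← hv]; exact hKc.card_mul_card
  have hidx : K.index = q ^ v := by
    have h1 := Subgroup.card_mul_index K
    have h2 : Nat.card K * K.index = Nat.card K * q ^ v := by rw [h1, hcard]
    exact Nat.eq_of_mul_eq_mul_left Nat.card_pos h2
  have hcopK : (Nat.card K).Coprime q := by
    have hv' : v = (Nat.card N).factorization q := by
      have := P'.card_eq_multiplicity
      rw [hv] at this
      exact Nat.pow_right_injective hqq.two_le this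
    rw [Nat.coprime_comm, Nat.Prime.coprime_iff_not_dvd hqq]
    intro hdvd
    have h1 : q ^ (v + 1) ∣ Nat.card N := by
      rw [← hcard, pow_succ, mul_comm]
      exact Nat.mul_dvd_mul hdvd (dvd_refl _)
    rw [hv'] at h1
    exact Nat.pow_succ_factorization_not_dvd Nat.card_pos.ne' hqq h1
  have hKmem : ∀ n : N, n ∈ K ↔ n ^ Nat.card K = 1 := by
    intro n
    constructor
    · intro hn
      have h1 : (⟨n, hn⟩ : K) ^ Nat.card K = 1 := pow_card_eq_one'
      exact congrArg Subtype.val h1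
    · intro hn
      refine mem_of_pow_mem_coprime K (Nat.Coprime.pow_right v hcopK) ?_ ?_
      · rw [hn]; exact K.one_mem
      · rw [← hidx]; exact K.pow_index_mem n
  refine ⟨K.map N.subtype, ?_, ?_, ?_, v, ?_, ?_⟩
  · refine ⟨fun d hd g => ?_⟩
    obtain ⟨k, hk, rfl⟩ := hd
    have hmem : g * (k : G) * g⁻¹ ∈ N := (inferInstance : N.Normal).conj_mem _ k.2 g
    refine ⟨⟨_, hmem⟩, ?_, rfl⟩
    rw [SetLike.mem_coe, hKmem]
    apply Subtype.ext
    rw [Subgroup.coe_pow, Subgroup.coe_one, conj_pow]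
    have h1 := (hKmem k).mp hk
    have h2 : (k : G) ^ Nat.card K = 1 := by
      have := congrArg Subtype.val h1
      simpa using this
    rw [h2]; group
  · exact Subgroup.map_subtype_le K
  · rw [Subgroup.card_map_of_injective N.subtype_injective]; exact hcopK
  · rw [Subgroup.relIndex, Subgroup.subgroupOf,
      Subgroup.comap_map_eq_self_of_injective N.subtype_injective, hidx]
  · rw [Subgroup.card_map_of_injective N.subtype_injective]; exact hcard

/-- **Thompson step**: if some prime `q ∣ [G : N]` does not divide `|N|`, then `N` is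
nilpotent. -/
theorem cam_isNilpotent [Finite G] {N : Subgroup G} [N.Normal] (h : Cam N) {q : ℕ}
    [hq : Fact q.Prime] (hqi : q ∣ N.index) (hqN : ¬ q ∣ Nat.card N) : Group.IsNilpotent N := by
  have hqq : q.Prime := hq.out
  have hqG : q ∣ Nat.card G := dvd_trans hqi (Subgroup.index_dvd_card N)
  obtain ⟨y, hy⟩ := exists_prime_orderOf_dvd_card' q hqG
  have hyN : y ∉ N := by
    intro hyN
    apply hqN
    have := orderOf_dvd_natCard (⟨y, hyN⟩ : N)
    rwa [Subgroup.orderOf_mk, hy] at this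
  let φ : N →* N := (MulAut.conjNormal y : MulAut N).toMonoidHom
  have hφ : ∀ n : N, ((φ n : N) : G) = y * n * y⁻¹ := fun n => MulAut.conjNormal_apply y n
  apply Cfsg.Agent.Helper19.thompson_thesis hqq φ
  refine ⟨?_, ?_⟩
  · intro n hn
    have h1 : y * (n : G) * y⁻¹ = n := by rw [← hφ, hn]
    have h2 : (n : G) * y = y * (n : G) := by
      calc (n : G) * y = (y * (n : G) * y⁻¹) * y := by rw [h1]
        _ = y * (n : G) := by group
    have h3 := cam_pow_eq_one h hyN n.2 h2
    rw [hy] at h3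
    have h4 : orderOf (n : G) ∣ q := orderOf_dvd_of_pow_eq_one h3
    have h5 : orderOf (n : G) ∣ Nat.card N := by
      have := orderOf_dvd_natCard n
      rwa [← Subgroup.orderOf_coe] at this
    rcases (Nat.dvd_prime hqq).mp h4 with h6 | h6
    · apply Subtype.ext
      exact orderOf_eq_one_iff.mp h6
    · rw [h6] at h5; exact absurd h5 hqN
  · intro n
    have key : ∀ k : ℕ, (((⇑φ)^[k] n : N) : G) = y ^ k * n * (y ^ k)⁻¹ := by
      intro k
      induction k with
      | zero => simp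
      | succ k ih =>
        rw [Function.iterate_succ_apply', hφ, ih, pow_succ']
        group
    apply Subtype.ext
    rw [key, ← hy, pow_orderOf_eq_one]
    group

/-- **Camina's theorem**: for a Camina pair `(G, N)`, either `G` is a Frobenius group with
kernel `N`, or `N` is a `p`-group, or `G / N` is a `p`-group. -/
theorem camina_trichotomy [Finite G] (N : Subgroup G) [N.Normal] (hN1 : N ≠ ⊥)
    (hcam : ∀ g : G, g ∉ N → ∀ n ∈ N, ∃ x : G, x * g * x⁻¹ = g * n) :
    (∀ x ∈ N, x ≠ 1 → Subgroup.centralizer ({x} : Set G) ≤ N) ∨ IsPrimePow (Nat.card N) ∨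
      IsPrimePow N.index := by
  classical
  by_contra hcon
  rw [not_or, not_or] at hcon
  obtain ⟨h1, h2, h3⟩ := hcon
  have h : Cam N := hcam
  push Not at h1
  obtain ⟨x, hxN, hx1, hxc⟩ := h1
  obtain ⟨g, hgC, hgN⟩ := SetLike.not_le_iff_exists.mp hxc
  have hgx : g * x = x * g := Subgroup.mem_centralizer_singleton_iff.mp hgC
  obtain ⟨π, hπ⟩ : ∃ π : G →* G ⧸ N, π = QuotientGroup.mk' N := ⟨_, rfl⟩
  have hπN : ∀ g : G, π g = 1 ↔ g ∈ N := by
    intro g; rw [hπ]; exact QuotientGroup.eq_one_iff g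
  have ho1 : orderOf (π g) ≠ 1 := by
    intro h0; exact hgN ((hπN g).mp (orderOf_eq_one_iff.mp h0))
  obtain ⟨p, hp, hpo⟩ := Nat.exists_prime_and_dvd ho1
  haveI : Fact p.Prime := ⟨hp⟩
  have hpi : p ∣ N.index := by
    rw [Subgroup.index_eq_card]; exact dvd_trans hpo (orderOf_dvd_natCard (π g))
  obtain ⟨a, m, hm, hom⟩ :=
    Nat.exists_eq_pow_mul_and_not_dvd (orderOf_pos g).ne' p hp.one_lt.ne'
  have hg'N : g ^ m ∉ N := by
    intro hmem
    have h4 : (π g) ^ m = 1 := by rw [← map_pow]; exact (hπN _).mpr hmem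
    exact hm (dvd_trans hpo (orderOf_dvd_of_pow_eq_one h4))
  have hg'a : (g ^ m) ^ p ^ a = 1 := by
    rw [← pow_mul, mul_comm, ← hom, pow_orderOf_eq_one]
  have hcomm : x * g ^ m = g ^ m * x :=
    (Commute.pow_right (show Commute x g from hgx.symm) m).eq
  have h5 := cam_pow_eq_one h hg'N hxN hcomm
  obtain ⟨b, -, hb⟩ := (Nat.dvd_prime_pow hp).mp (orderOf_dvd_of_pow_eq_one hg'a)
  rw [hb] at h5
  have hpN : p ∣ Nat.card N := by
    have h6 : orderOf x ∣ p ^ b := orderOf_dvd_of_pow_eq_one h5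
    obtain ⟨c, -, hc⟩ := (Nat.dvd_prime_pow hp).mp h6
    have hc0 : c ≠ 0 := by
      intro hc0; rw [hc0, pow_zero, orderOf_eq_one_iff] at hc; exact hx1 hc
    have h7 : p ∣ orderOf x := by rw [hc]; exact dvd_pow_self p hc0
    have h8 : orderOf x ∣ Nat.card N := by
      have := orderOf_dvd_natCard (⟨x, hxN⟩ : N)
      rwa [Subgroup.orderOf_mk] at this
    exact dvd_trans h7 h8
  obtain ⟨q, hq, hqi, hqp⟩ : ∃ q : ℕ, q.Prime ∧ q ∣ N.index ∧ q ≠ p := by
    by_contra hno
    push Not at hno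
    apply h3
    rw [isPrimePow_iff_unique_prime_dvd]
    exact ⟨p, ⟨hp, hpi⟩, fun q ⟨hq, hqi⟩ => hno q hq hqi⟩
  haveI : Fact q.Prime := ⟨hq⟩
  by_cases hqN : q ∣ Nat.card N
  · obtain ⟨D, hDn, hDN, hDcop, v, hrel, hcard⟩ := cam_exists_normal_compl h hqi
    haveI := hDn
    have hpD : p ∣ Nat.card D := by
      rw [← hcard] at hpN
      rcases (Nat.Prime.dvd_mul hp).mp hpN with h9 | h9
      · exact h9
      · exact absurd ((Nat.prime_dvd_prime_iff_eq hp hq).mp (hp.dvd_of_dvd_pow h9)) hqp.symm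
    have hND : ¬ N ≤ D := by
      intro hle
      have heq : D = N := le_antisymm hDN hle
      rw [heq] at hDcop
      exact (Nat.Prime.coprime_iff_not_dvd hq).mp hDcop.symm hqN
    have hcop : (D.relIndex N).Coprime p := by
      rw [hrel]
      exact Nat.Coprime.pow_left v ((Nat.coprime_primes hq hp).mpr hqp)
    exact cam_false_of_normal h hpi D hDN hND hcop hpD
  · have hnil : Group.IsNilpotent N := cam_isNilpotent h hqi hqN
    obtain ⟨P0⟩ : Nonempty (Sylow p N) := inferInstance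
    have hP0n : (P0 : Subgroup N).Normal :=
      Sylow.normal_of_normalizerCondition Group.normalizerCondition_of_isNilpotent P0
    haveI : (P0 : Subgroup N).Characteristic := Sylow.characteristic_of_normal P0 hP0n
    haveI hDn : ((P0 : Subgroup N).map N.subtype).Normal := inferInstance
    have hDN : (P0 : Subgroup N).map N.subtype ≤ N := Subgroup.map_subtype_le _
    have hcardD : Nat.card ((P0 : Subgroup N).map N.subtype) = Nat.card P0 :=
      Subgroup.card_map_of_injective N.subtype_injective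
    have hpD : p ∣ Nat.card ((P0 : Subgroup N).map N.subtype) := by
      rw [hcardD]; exact P0.dvd_card_of_dvd_card hpN
    have hcop : (((P0 : Subgroup N).map N.subtype).relIndex N).Coprime p := by
      rw [Subgroup.relIndex, Subgroup.subgroupOf,
        Subgroup.comap_map_eq_self_of_injective N.subtype_injective]
      exact ((Nat.Prime.coprime_iff_not_dvd hp).mpr P0.not_dvd_index).symm
    have hND : ¬ N ≤ (P0 : Subgroup N).map N.subtype := by
      intro hle
      apply h2
      have h9 : Nat.card N ∣ Nat.card P0 := by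
        rw [← hcardD]; exact Subgroup.card_dvd_of_le hle
      obtain ⟨w, hw⟩ := (IsPGroup.iff_card).mp P0.isPGroup'
      rw [hw] at h9
      obtain ⟨c, -, hc⟩ := (Nat.dvd_prime_pow hp).mp h9
      have hc0 : c ≠ 0 := by
        intro hc0
        rw [hc0, pow_zero] at hc
        exact hN1 ((Subgroup.card_eq_one).mp hc)
      rw [hc]
      exact ⟨p, c, hp.prime, Nat.pos_of_ne_zero hc0, rfl⟩
    exact cam_false_of_normal h hpi _ hDN hND hcop hpD

end Cfsg.Agent.Helper71.CaminaPair
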