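import Mathlib
import Cfsg.Agent.Helper69.Q8

set_option autoImplicit false

/-!
Dedekind groups (all subgroups normal): a non-commuting pair yields a quaternion pair.
-/

namespace Cfsg.Agent.Helper71

open Subgroup

section Dedekind

variable {G : Type*} [Group G]

/-- In a group all of whose subgroups are normal, the commutator `x⁻¹ y⁻¹ x y` lies in both
cyclic subgroups. -/
theorem dedekind_comm_mem (hn : ∀ H : Subgroup G, H.Normal) (x y : G) :
    x⁻¹ * y⁻¹ * x * y ∈ zpowers x ∧ x⁻¹ * y⁻¹ * x * y ∈ zpowers y := by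
  constructor
  · have h1 : y⁻¹ * x * y⁻¹⁻¹ ∈ zpowers x := (hn (zpowers x)).conj_mem x (mem_zpowers x) y⁻¹
    rw [inv_inv] at h1
    have h2 : x⁻¹ * (y⁻¹ * x * y) ∈ zpowers x := mul_mem (inv_mem (mem_zpowers x)) h1
    simpa [mul_assoc] using h2
  · have h1 : x⁻¹ * y⁻¹ * x⁻¹⁻¹ ∈ zpowers y :=
      (hn (zpowers y)).conj_mem y⁻¹ (inv_mem (mem_zpowers y)) x⁻¹
    rw [inv_inv] at h1
    exact mul_mem h1 (mem_zpowers y)

theorem pow_mul_comm_of_comm {x y c : G} (h : x * y = y * x * c) (hcx : Commute c x) (n : ℕ) :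
    x ^ n * y = y * x ^ n * c ^ n := by
  induction n with
  | zero => simp
  | succ n ih =>
    calc x ^ (n+1) * y = x ^ n * (x * y) := by rw [pow_succ, mul_assoc]
      _ = x ^ n * y * x * c := by rw [h]; simp only [mul_assoc]
      _ = y * x ^ n * c ^ n * x * c := by rw [ih]
      _ = y * x ^ n * (c ^ n * x) * c := by simp only [mul_assoc]
      _ = y * x ^ n * (x * c ^ n) * c := by rw [(hcx.pow_left n).eq]
      _ = y * x ^ (n+1) * c ^ (n+1) := by rw [pow_succ, pow_succ]; simp only [mul_assoc]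

theorem mul_pow_of_comm {u y d : G} (h : y * u = u * y * d) (hdu : Commute d u)
    (hdy : Commute d y) (n : ℕ) :
    (u * y) ^ n = u ^ n * y ^ n * d ^ (∑ i ∈ Finset.range n, i) := by
  induction n with
  | zero => simp
  | succ n ih =>
    have h1 := pow_mul_comm_of_comm h hdy n
    have hT : Commute (d ^ (∑ i ∈ Finset.range n, i)) (u * y) := (hdu.mul_right hdy).pow_left _
    have hn' : Commute (d ^ n) y := hdy.pow_left n
    have hdd : d ^ n * d ^ (∑ i ∈ Finset.range n, i) = d ^ (∑ i ∈ Finset.range (n+1), i) := by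
      rw [Finset.sum_range_succ, ← pow_add, add_comm]
    calc (u * y) ^ (n+1) = u ^ n * y ^ n * d ^ (∑ i ∈ Finset.range n, i) * (u * y) := by
          rw [pow_succ, ih]
      _ = u ^ n * y ^ n * ((u * y) * d ^ (∑ i ∈ Finset.range n, i)) := by
          rw [← hT.eq]; simp only [mul_assoc]
      _ = u ^ n * (y ^ n * u) * y * d ^ (∑ i ∈ Finset.range n, i) := by simp only [mul_assoc]
      _ = u ^ n * (u * y ^ n * d ^ n) * y * d ^ (∑ i ∈ Finset.range n, i) := by rw [h1]
      _ = u ^ n * u * y ^ n * (d ^ n * y) * d ^ (∑ i ∈ Finset.range n, i) := by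
          simp only [mul_assoc]
      _ = u ^ n * u * y ^ n * (y * d ^ n) * d ^ (∑ i ∈ Finset.range n, i) := by rw [hn'.eq]
      _ = u ^ (n+1) * y ^ (n+1) * (d ^ n * d ^ (∑ i ∈ Finset.range n, i)) := by
          rw [pow_succ, pow_succ]; simp only [mul_assoc]
      _ = u ^ (n+1) * y ^ (n+1) * d ^ (∑ i ∈ Finset.range (n+1), i) := by rw [hdd]

theorem orderOf_eq_four {a : G} (ha4 : a ^ 4 = 1) (ha2 : a ^ 2 ≠ 1) : orderOf a = 4 := by
  have : Fact (Nat.Prime 2) := ⟨Nat.prime_two⟩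
  have := orderOf_eq_prime_pow (x := a) (p := 2) (n := 1) (by simpa using ha2) (by simpa using ha4)
  simpa using this

theorem zpowers_pow_four_cases [Finite G] {a g : G} (ha4 : a ^ 4 = 1) (h : g ∈ zpowers a) :
    g = 1 ∨ g = a ∨ g = a ^ 2 ∨ g = a ^ 3 := by
  rw [← mem_powers_iff_mem_zpowers] at h
  obtain ⟨n, hn⟩ := h
  have hn' : a ^ n = g := hn
  have h1 : a ^ n = a ^ (n % 4) := pow_eq_pow_mod n ha4
  have h2 : n % 4 < 4 := Nat.mod_lt _ (by norm_num)
  rw [← hn', h1]
  interval_cases (n % 4)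
  · left; exact pow_zero a
  · right; left; exact pow_one a
  · right; right; left; rfl
  · right; right; right; rfl

/-- For a minimal non-commuting pair, `c ^ p = 1` for every prime `p ∣ orderOf x`. -/
theorem dedekind_min_pair_pow [Finite G] {x y : G}
    (hmin : ∀ x' y' : G, ¬ Commute x' y' → orderOf x + orderOf y ≤ orderOf x' + orderOf y')
    {c : G} (hc : x * y = y * x * c) (hcx : Commute c x) {p : ℕ} (hp : p.Prime)
    (hpx : p ∣ orderOf x) : c ^ p = 1 := by
  have hox : 0 < orderOf x := orderOf_pos x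
  have h1 : orderOf (x ^ p) = orderOf x / p := orderOf_pow_of_dvd hp.ne_zero hpx
  have h2 : orderOf (x ^ p) < orderOf x := by rw [h1]; exact Nat.div_lt_self hox hp.one_lt
  have h3 : Commute (x ^ p) y := by
    by_contra hcon
    have := hmin _ _ hcon
    omega
  have h4 := pow_mul_comm_of_comm hc hcx p
  rw [h3.eq] at h4
  have h5 : y * x ^ p * c ^ p = y * x ^ p * 1 := by rw [mul_one]; exact h4.symm
  exact mul_left_cancel h5

/-- Structure of a minimal non-commuting pair in a finite Dedekind group. -/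
theorem dedekind_min_pair_aux [Finite G] {x y : G}
    (hxy : ¬ Commute x y)
    (hmin : ∀ x' y' : G, ¬ Commute x' y' → orderOf x + orderOf y ≤ orderOf x' + orderOf y')
    {c : G} (hc : x * y = y * x * c) (hcx : c ∈ zpowers x) (hcy : c ∈ zpowers y)
    {p α β : ℕ} (hp : p.Prime) (hoc : orderOf c = p) (hox : orderOf x = p ^ α)
    (hoy : orderOf y = p ^ β) (hβα : β ≤ α) : p = 2 ∧ α = 2 ∧ β = 2 := by
  have hcommx : Commute c x := by
    obtain ⟨k, hk⟩ := mem_zpowers_iff.mp hcx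
    rw [← hk]; exact (Commute.refl x).zpow_left k
  have hcommy : Commute c y := by
    obtain ⟨k, hk⟩ := mem_zpowers_iff.mp hcy
    rw [← hk]; exact (Commute.refl y).zpow_left k
  have hc1 : c ≠ 1 := by
    intro h
    rw [h, orderOf_one] at hoc
    exact hp.one_lt.ne hoc
  have hcp : c ^ p = 1 := by rw [← hoc]; exact pow_orderOf_eq_one c
  have hx1 : x ≠ 1 := fun h => hxy (h ▸ Commute.one_left y)
  have hy1 : y ≠ 1 := fun h => hxy (h ▸ Commute.one_right x)
  have hα : 1 ≤ α := by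
    rcases Nat.eq_zero_or_pos α with h | h
    · rw [h, pow_zero, orderOf_eq_one_iff] at hox; exact absurd hox hx1
    · exact h
  have hβ : 1 ≤ β := by
    rcases Nat.eq_zero_or_pos β with h | h
    · rw [h, pow_zero, orderOf_eq_one_iff] at hoy; exact absurd hoy hy1
    · exact h
  -- the elements of order p
  have hXp : (x ^ p ^ (α - 1)) ^ p = 1 := by
    rw [← pow_mul, ← pow_succ, Nat.sub_add_cancel hα, ← hox]; exact pow_orderOf_eq_one x
  have hYp : (y ^ p ^ (β - 1)) ^ p = 1 := by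
    rw [← pow_mul, ← pow_succ, Nat.sub_add_cancel hβ, ← hoy]; exact pow_orderOf_eq_one y
  -- c is a power of X and of Y
  have hcX : ∃ k' : ℕ, c = (x ^ p ^ (α - 1)) ^ k' := by
    have h := hcx
    rw [← mem_powers_iff_mem_zpowers] at h
    obtain ⟨k, hk⟩ := h
    have hk' : x ^ k = c := hk
    have h1 : x ^ (k * p) = 1 := by rw [pow_mul, hk', hcp]
    have h2 : p ^ α ∣ k * p := by rw [← hox]; exact orderOf_dvd_of_pow_eq_one h1
    have h3 : p ^ (α - 1) * p ∣ k * p := by rwa [← pow_succ, Nat.sub_add_cancel hα]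
    obtain ⟨k', hk''⟩ := Nat.dvd_of_mul_dvd_mul_right hp.pos h3
    exact ⟨k', by rw [← pow_mul, ← hk'', hk']⟩
  have hcY : ∃ l' : ℕ, c = (y ^ p ^ (β - 1)) ^ l' := by
    have h := hcy
    rw [← mem_powers_iff_mem_zpowers] at h
    obtain ⟨k, hk⟩ := h
    have hk' : y ^ k = c := hk
    have h1 : y ^ (k * p) = 1 := by rw [pow_mul, hk', hcp]
    have h2 : p ^ β ∣ k * p := by rw [← hoy]; exact orderOf_dvd_of_pow_eq_one h1
    have h3 : p ^ (β - 1) * p ∣ k * p := by rwa [← pow_succ, Nat.sub_add_cancel hβ]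
    obtain ⟨k', hk''⟩ := Nat.dvd_of_mul_dvd_mul_right hp.pos h3
    exact ⟨k', by rw [← pow_mul, ← hk'', hk']⟩
  obtain ⟨k', hk'⟩ := hcX
  obtain ⟨l', hl'⟩ := hcY
  -- Y is a power of X
  have hYX : ∃ j : ℕ, y ^ p ^ (β - 1) = (x ^ p ^ (α - 1)) ^ j := by
    have hpl : ¬ p ∣ l' := by
      rintro ⟨t, rfl⟩
      rw [pow_mul, hYp, one_pow] at hl'
      exact hc1 hl'
    have hcop : Nat.Coprime l' p := (Nat.Prime.coprime_iff_not_dvd hp).mpr hpl |>.symm
    obtain ⟨l'', -, hl''⟩ := Nat.exists_mul_mod_eq_one_of_coprime hcop hp.one_lt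
    refine ⟨k' * l'', ?_⟩
    have h1 : (y ^ p ^ (β - 1)) ^ (l' * l'') = y ^ p ^ (β - 1) := by
      rw [pow_eq_pow_mod (l' * l'') hYp, hl'', pow_one]
    rw [pow_mul, ← hk', hl', ← pow_mul, h1]
  obtain ⟨j, hj⟩ := hYX
  -- the modified element
  set N : ℕ := (p - 1) * j * p ^ (α - β) with hN
  set u : G := x ^ N with hu
  set m : ℕ := p ^ (β - 1) with hm
  have hum : u ^ m * y ^ m = 1 := by
    have h1 : u ^ m = (x ^ p ^ (α - 1)) ^ ((p - 1) * j) := by
      rw [hu, ← pow_mul, ← pow_mul, hN, hm]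
      congr 1
      have : p ^ (α - β) * p ^ (β - 1) = p ^ (α - 1) := by
        rw [← pow_add]; congr 1; omega
      rw [mul_assoc, this, mul_comm]
    rw [h1, hm, hj, ← pow_add]
    have : (p - 1) * j + j = p * j := by
      have hp1 := hp.pos
      obtain ⟨p', rfl⟩ : ∃ p', p = p' + 1 := ⟨p - 1, by omega⟩
      simp; ring
    rw [this, pow_mul, hXp, one_pow]
  have hrel : y * u = u * y * (c ^ N)⁻¹ := by
    have h1 := pow_mul_comm_of_comm hc hcommx N
    rw [← hu] at h1
    rw [h1]; group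
  have hdu : Commute (c ^ N)⁻¹ u := ((hcommx.pow_left N).inv_left).pow_right N
  have hdy : Commute (c ^ N)⁻¹ y := (hcommy.pow_left N).inv_left
  have hnc : ¬ Commute x (u * y) := by
    intro h
    apply hxy
    have hxu : Commute x u := (Commute.refl x).pow_right N
    have h1 : x * (u * y) = u * y * x := h.eq
    have h2 : u * (x * y) = u * (y * x) := by
      rw [← mul_assoc, ← hxu.eq, mul_assoc, h1, mul_assoc]
    exact mul_left_cancel h2
  have hord : p ^ β ≤ orderOf (u * y) := by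
    have := hmin x (u * y) hnc
    rw [hoy] at this
    omega
  have hform := mul_pow_of_comm hrel hdu hdy m
  rw [hum, one_mul] at hform
  have hkey : ((c ^ N)⁻¹) ^ (∑ i ∈ Finset.range m, i) ≠ 1 := by
    intro h
    rw [h] at hform
    have h1 : orderOf (u * y) ∣ p ^ (β - 1) := orderOf_dvd_of_pow_eq_one hform
    have h2 : orderOf (u * y) ≤ p ^ (β - 1) := Nat.le_of_dvd (pow_pos hp.pos _) h1
    have h3 : p ^ (β - 1) < p ^ β := Nat.pow_lt_pow_right hp.one_lt (by omega)
    omega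
  have hT : ¬ p ∣ ∑ i ∈ Finset.range m, i := by
    rintro ⟨t, ht⟩
    apply hkey
    rw [ht, inv_pow, ← pow_mul, mul_comm N, mul_assoc, pow_mul, hcp, one_pow, inv_one]
  have hNp : ¬ p ∣ N := by
    rintro ⟨t, ht⟩
    apply hkey
    rw [ht, pow_mul, hcp, one_pow, inv_one, one_pow]
  have hsum := Finset.sum_range_id_mul_two m
  have hβ2 : 2 ≤ β := by
    by_contra hlt
    have hβ1 : β = 1 := by omega
    apply hT
    have : m = 1 := by rw [hm, hβ1]; simp
    rw [this]; simp
  have hpm : p ∣ m := by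
    rw [hm]; exact dvd_pow_self p (by omega)
  have hp2 : p = 2 := by
    by_contra hne
    apply hT
    have h1 : p ∣ (∑ i ∈ Finset.range m, i) * 2 := by rw [hsum]; exact Dvd.dvd.mul_right hpm _
    rcases (Nat.Prime.dvd_mul hp).mp h1 with h | h
    · exact h
    · exact absurd ((Nat.prime_dvd_prime_iff_eq hp Nat.prime_two).mp h) hne
  subst hp2
  have hβ' : β = 2 := by
    by_contra hne
    have hβ3 : 3 ≤ β := by omega
    apply hT
    have h4 : 4 ∣ m := by
      rw [hm]
      have : (4 : ℕ) = 2 ^ 2 := by norm_num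
      rw [this]; exact pow_dvd_pow 2 (by omega)
    have h1 : 4 ∣ (∑ i ∈ Finset.range m, i) * 2 := by rw [hsum]; exact Dvd.dvd.mul_right h4 _
    omega
  subst hβ'
  refine ⟨rfl, ?_, rfl⟩
  by_contra hne
  have hα3 : 3 ≤ α := by omega
  apply hNp
  rw [hN]
  apply Dvd.dvd.mul_left
  exact dvd_pow_self 2 (by omega)

theorem eq_sq_of_mem_zpowers [Finite G] {x c : G} (hx : orderOf x = 4) (hc : orderOf c = 2)
    (h : c ∈ zpowers x) : c = x ^ 2 := by
  have hx4 : x ^ 4 = 1 := by rw [← hx]; exact pow_orderOf_eq_one x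
  have hc2 : c ^ 2 = 1 := by rw [← hc]; exact pow_orderOf_eq_one c
  have hx2 : x ^ 2 ≠ 1 := by
    intro h2
    have := orderOf_dvd_of_pow_eq_one h2
    rw [hx] at this
    omega
  rcases zpowers_pow_four_cases hx4 h with h1 | h1 | h1 | h1
  · rw [h1, orderOf_one] at hc; omega
  · rw [h1, hx] at hc; omega
  · exact h1
  · exfalso
    apply hx2
    rw [h1, ← pow_mul] at hc2
    have : x ^ (3 * 2) = x ^ 4 * x ^ 2 := by rw [← pow_add]
    rw [this, hx4, one_mul] at hc2
    exact hc2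

/-- A finite group all of whose subgroups are normal and which has a non-commuting pair contains
a quaternion pair. -/
theorem dedekind_exists_q8_pair [Finite G] (hn : ∀ H : Subgroup G, H.Normal) {x₀ y₀ : G}
    (h₀ : ¬ Commute x₀ y₀) :
    ∃ a b : G, a ^ 4 = 1 ∧ a ^ 2 ≠ 1 ∧ b ^ 2 = a ^ 2 ∧ b * a * b⁻¹ = a⁻¹ := by
  obtain ⟨⟨x, y⟩, hP, hmin0⟩ := exists_minimalFor_of_wellFoundedLT
    (fun q : G × G => ¬ Commute q.1 q.2) (fun q : G × G => orderOf q.1 + orderOf q.2)
    ⟨(x₀, y₀), h₀⟩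
  have hxy : ¬ Commute x y := hP
  have hmin : ∀ x' y' : G, ¬ Commute x' y' → orderOf x + orderOf y ≤ orderOf x' + orderOf y' := by
    intro x' y' h'
    rcases le_total (orderOf x + orderOf y) (orderOf x' + orderOf y') with h | h
    · exact h
    · exact hmin0 (j := (x', y')) h' h
  have hmin' : ∀ x' y' : G, ¬ Commute x' y' → orderOf y + orderOf x ≤ orderOf x' + orderOf y' := by
    intro x' y' h'
    rw [add_comm]; exact hmin x' y' h'
  have hyx : ¬ Commute y x := fun h => hxy h.symm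
  set c : G := x⁻¹ * y⁻¹ * x * y with hcdef
  have hc : x * y = y * x * c := by rw [hcdef]; group
  have hc' : y * x = x * y * c⁻¹ := by rw [hc]; group
  obtain ⟨hcx, hcy⟩ := dedekind_comm_mem hn x y
  rw [← hcdef] at hcx hcy
  have hcommx : Commute c x := by
    obtain ⟨k, hk⟩ := mem_zpowers_iff.mp hcx
    rw [← hk]; exact (Commute.refl x).zpow_left k
  have hcommy : Commute c y := by
    obtain ⟨k, hk⟩ := mem_zpowers_iff.mp hcy
    rw [← hk]; exact (Commute.refl y).zpow_left k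
  have hc1 : c ≠ 1 := by
    intro h
    rw [h, mul_one] at hc
    exact hxy hc
  have hx1 : x ≠ 1 := fun h => hxy (h ▸ Commute.one_left y)
  have hy1 : y ≠ 1 := fun h => hxy (h ▸ Commute.one_right x)
  have hox1 : orderOf x ≠ 1 := fun h => hx1 (orderOf_eq_one_iff.mp h)
  have hoy1 : orderOf y ≠ 1 := fun h => hy1 (orderOf_eq_one_iff.mp h)
  obtain ⟨p, hp, hpx⟩ := Nat.exists_prime_and_dvd hox1
  have hcp : c ^ p = 1 := dedekind_min_pair_pow hmin hc hcommx hp hpx
  have hoc : orderOf c = p := by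
    rcases hp.eq_one_or_self_of_dvd _ (orderOf_dvd_of_pow_eq_one hcp) with h | h
    · exact absurd (orderOf_eq_one_iff.mp h) hc1
    · exact h
  have hxq : ∀ {q : ℕ}, q.Prime → q ∣ orderOf x → q = p := by
    intro q hq hqx
    have h1 : c ^ q = 1 := dedekind_min_pair_pow hmin hc hcommx hq hqx
    have h2 : p ∣ q := by rw [← hoc]; exact orderOf_dvd_of_pow_eq_one h1
    exact ((Nat.prime_dvd_prime_iff_eq hp hq).mp h2).symm
  have hyq : ∀ {q : ℕ}, q.Prime → q ∣ orderOf y → q = p := by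
    intro q hq hqy
    have h1 : c⁻¹ ^ q = 1 := dedekind_min_pair_pow hmin' hc' hcommy.inv_left hq hqy
    have h1' : c ^ q = 1 := by rwa [inv_pow, inv_eq_one] at h1
    have h2 : p ∣ q := by rw [← hoc]; exact orderOf_dvd_of_pow_eq_one h1'
    exact ((Nat.prime_dvd_prime_iff_eq hp hq).mp h2).symm
  have hox := Nat.eq_prime_pow_of_unique_prime_dvd (orderOf_pos x).ne' hxq
  have hoy := Nat.eq_prime_pow_of_unique_prime_dvd (orderOf_pos y).ne' hyq
  set α := (orderOf x).primeFactorsList.length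
  set β := (orderOf y).primeFactorsList.length
  have hall : p = 2 ∧ α = 2 ∧ β = 2 := by
    rcases le_total β α with h | h
    · exact dedekind_min_pair_aux hxy hmin hc hcx hcy hp hoc hox hoy h
    · have := dedekind_min_pair_aux hyx hmin' hc' (inv_mem hcy) (inv_mem hcx) hp
        (by rw [orderOf_inv]; exact hoc) hoy hox h
      exact ⟨this.1, this.2.2, this.2.1⟩
  obtain ⟨hp2, hα2, hβ2⟩ := hall
  rw [hp2, hα2] at hox
  rw [hp2, hβ2] at hoy
  rw [hp2] at hoc
  have hox4 : orderOf x = 4 := by rw [hox]; norm_num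
  have hoy4 : orderOf y = 4 := by rw [hoy]; norm_num
  have hcx2 : c = x ^ 2 := eq_sq_of_mem_zpowers hox4 hoc hcx
  have hcy2 : c = y ^ 2 := eq_sq_of_mem_zpowers hoy4 hoc hcy
  have hx4 : x ^ 4 = 1 := by rw [← hox4]; exact pow_orderOf_eq_one x
  have hx2 : x ^ 2 ≠ 1 := by rw [← hcx2]; exact hc1
  refine ⟨x, y, hx4, hx2, by rw [← hcy2, hcx2], ?_⟩
  have h3 : x ^ 3 = x⁻¹ := by
    apply eq_inv_of_mul_eq_one_left
    rw [← pow_succ]; exact hx4
  have h4 : y * x ^ 3 = x * y := by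
    rw [hc, hcx2]
    have : x ^ 3 = x * x ^ 2 := by rw [← pow_succ']
    rw [this, mul_assoc]
  have h5 : y * x * y⁻¹ = (y * x⁻¹ * y⁻¹)⁻¹ := by group
  rw [h5, ← h3, h4, mul_inv_cancel_right, h3]

theorem orderOf_dvd_four_conj (hn : ∀ H : Subgroup G, H.Normal) [Finite G] {a : G}
    (ha4 : a ^ 4 = 1) (ha2 : a ^ 2 ≠ 1) (g : G) : g * a * g⁻¹ = a ∨ g * a * g⁻¹ = a⁻¹ := by
  have h1 : g * a * g⁻¹ ∈ zpowers a := (hn (zpowers a)).conj_mem a (mem_zpowers a) g
  have hconj2 : (g * a * g⁻¹) ^ 2 = g * a ^ 2 * g⁻¹ := conj_pow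
  rcases zpowers_pow_four_cases ha4 h1 with h | h | h | h
  · exfalso
    apply ha2
    have : a = 1 := by
      have h' : g * a * g⁻¹ = g * 1 * g⁻¹ := by rw [h]; group
      exact mul_left_cancel (mul_right_cancel h')
    rw [this, one_pow]
  · exact Or.inl h
  · exfalso
    apply ha2
    rw [h, ← pow_mul] at hconj2
    have h4 : a ^ (2 * 2) = 1 := ha4
    rw [h4] at hconj2
    have h' : g * a ^ 2 * g⁻¹ = g * 1 * g⁻¹ := by rw [← hconj2]; group
    exact mul_left_cancel (mul_right_cancel h')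
  · right
    rw [h]
    apply eq_inv_of_mul_eq_one_left
    rw [← pow_succ]; exact ha4

theorem q8_conj_b {a b : G} (ha4 : a ^ 4 = 1) (hb : b ^ 2 = a ^ 2) (hba : b * a * b⁻¹ = a⁻¹) :
    a * b * a⁻¹ = b⁻¹ := by
  have h1 : a * b * a⁻¹ = a * b * (b * a * b⁻¹) := by rw [hba]
  have h2 : a * b * (b * a * b⁻¹) = a * b ^ 2 * a * b⁻¹ := by rw [pow_two]; simp only [mul_assoc]
  have h3 : a * a ^ 2 * a = a ^ 4 := by
    rw [← pow_succ', ← pow_succ]
  rw [h1, h2, hb, h3, ha4, one_mul]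

/-- An element centralising a quaternion pair and of order dividing four has order at most two. -/
theorem dedekind_central_sq [Finite G] (hn : ∀ H : Subgroup G, H.Normal) {a b : G}
    (ha4 : a ^ 4 = 1) (ha2 : a ^ 2 ≠ 1) (hb : b ^ 2 = a ^ 2) (hba : b * a * b⁻¹ = a⁻¹) {g : G}
    (hga : Commute g a) (hgb : Commute g b) (hg4 : g ^ 4 = 1) : g ^ 2 = 1 := by
  have hb4 : b ^ 4 = 1 := by
    have : b ^ 4 = (b ^ 2) ^ 2 := by rw [← pow_mul]
    rw [this, hb, ← pow_mul]; exact ha4
  have hb2 : b ^ 2 ≠ 1 := by rw [hb]; exact ha2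
  have hab : ¬ Commute b a := by
    intro h
    have h1 : b * a * b⁻¹ = a := by rw [h.eq]; group
    rw [hba] at h1
    apply ha2
    rw [pow_two]; nth_rewrite 1 [← h1]; exact inv_mul_cancel a
  have hh4 : (g * b) ^ 4 = 1 := by rw [hgb.mul_pow, hg4, hb4, one_mul]
  have h1 : a * (g * b) * a⁻¹ ∈ zpowers (g * b) :=
    (hn (zpowers (g * b))).conj_mem _ (mem_zpowers _) a
  have h2 : a * (g * b) * a⁻¹ = g * b⁻¹ := by
    have : a * (g * b) * a⁻¹ = (a * g) * b * a⁻¹ := by simp only [mul_assoc]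
    rw [this, ← hga.eq]
    have : g * a * b * a⁻¹ = g * (a * b * a⁻¹) := by simp only [mul_assoc]
    rw [this, q8_conj_b ha4 hb hba]
  rw [h2] at h1
  rcases zpowers_pow_four_cases hh4 h1 with h | h | h | h
  · exfalso
    have : g = b := by
      have h' : g * b⁻¹ * b = 1 * b := by rw [h]
      rw [inv_mul_cancel_right, one_mul] at h'
      exact h'
    exact hab (this ▸ hga)
  · exfalso
    apply hb2
    have h' : b⁻¹ = b := mul_left_cancel h
    rw [pow_two]; nth_rewrite 1 [← h']; exact inv_mul_cancel b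
  · exfalso
    rw [hgb.mul_pow] at h
    -- g * b⁻¹ = g^2 * b^2
    have h' : g = b := by
      have e1 : g * b⁻¹ = g * (g * b ^ 2) := by rw [h, pow_two g, mul_assoc]
      have e2 : b⁻¹ = g * b ^ 2 := mul_left_cancel e1
      have e3 : b * b ^ 2 = b⁻¹ := by
        apply eq_inv_of_mul_eq_one_left
        have : b * b ^ 2 * b = b ^ 4 := by rw [← pow_succ', ← pow_succ]
        rw [this]; exact hb4
      exact mul_right_cancel (e2.symm.trans e3.symm)
    exact hab (h' ▸ hga)
  · rw [hgb.mul_pow] at h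
    -- g * b⁻¹ = g^3 * b^3
    have e3 : b ^ 3 = b⁻¹ := by
      apply eq_inv_of_mul_eq_one_left
      rw [← pow_succ]; exact hb4
    rw [e3] at h
    have e1 : g = g ^ 3 := mul_right_cancel h
    have e2 : g * 1 = g * g ^ 2 := by rw [mul_one, ← pow_succ']; exact e1
    exact (mul_left_cancel e2).symm

end Dedekind

end Cfsg.Agent.Helper71
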