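import Cfsg.Agent.Helper80.Gagola3
import Cfsg.Agent.Helper53.BaerSuzuki
import Cfsg.Agent.Helper3.Induced
import Cfsg.Agent.Helper79.Basic
import Cfsg.Prelude.Def_Solvable

/-!
# Gagola characters: `N = O_p(G)` iff `G` is a doubly transitive Frobenius group (helper71)

`χ ∈ Irr(G)` nonzero on exactly two classes, support `N` (a normal `p`-subgroup).  Built on the
Gagola libraries of helper80 (`gagola_subgroup`, `gagola_arith`, `gagola_centralizer_isPGroup`).

* `camina`: for `g ∉ N` and `y ∈ N` the elements `g` and `g * y` are conjugate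
  (column orthogonality: `χ` is the only irreducible character not trivial on `N`).
* `exists_twist`: if `h` centralises no nonidentity element of the finite normal subgroup `N`
  then `y ↦ y * (h * y⁻¹ * h⁻¹)` is onto `N`.
* `e_eq_one_odd`, `e_eq_one_two`: if `N = O_p(G)` then the number `e` with `χ(1) = e (|N| - 1)`
  is `1` (odd `p`: an involution inverts `N`, its centraliser is a complement on which `χ`
  vanishes off `1`; `p = 2`: Baer-Suzuki gives an involution of `G/N` inverting an element of odd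
  order, which lifts to an involution of `G`, and the Camina property makes it centralise `N`).
* `frob_of_pcore`, `pcore_of_frob`: the two directions.
-/

set_option autoImplicit false

namespace Cfsg.Agent.Helper71.GagolaFrob

open Cfsg Cfsg.Agent.Helper80

open scoped ComplexConjugate Classical Pointwise

variable {G : Type*} [Group G]

/-- Camina property of a Gagola character: `g ∉ N`, `y ∈ N` gives `g ∼ g * y`. -/
theorem camina [Finite G] (hG : 2 < Nat.card G) (χ : IrrCharacter G)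
    (hχ : Nat.card {C : ConjClasses G // ∃ g ∈ C.carrier, (χ : G → ℂ) g ≠ 0} = 2)
    (N : Subgroup G) (hN : ∀ g : G, g ∈ N ↔ (χ : G → ℂ) g ≠ 0) (g : G) (hg : g ∉ N)
    (y : G) (hy : y ∈ N) : IsConj g (g * y) := by
  let _ := Fintype.ofFinite G
  let _ := Fintype.ofFinite (IrrCharacter G)
  obtain ⟨N', -, -, hN'supp, hker, -, -, -, -⟩ := gagola_subgroup hG χ hχ
  have hNN : N' = N := Subgroup.ext (fun g => by rw [hN'supp, hN])
  rw [hNN] at hker
  by_contra hnc
  have h0 := irr_column_orthogonality_of_not_isConj hnc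
  have h1 := irr_column_orthogonality_of_isConj (IsConj.refl g)
  have hχg : (χ : G → ℂ) g = 0 := by
    by_contra h
    exact hg ((hN g).mpr h)
  have h2 : ∑ ψ : IrrCharacter G, (ψ : G → ℂ) g * conj ((ψ : G → ℂ) (g * y)) =
      ∑ ψ : IrrCharacter G, (ψ : G → ℂ) g * conj ((ψ : G → ℂ) g) := by
    apply Finset.sum_congr rfl
    intro ψ _
    by_cases hψ : ψ = χ
    · rw [hψ, hχg, zero_mul, zero_mul]
    · rw [Cfsg.Agent.Helper79.isCharacter_mul_of_ker (isCharacter_of_irr ψ.2) (hker ψ hψ y hy)]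
  rw [h2, h1] at h0
  have h3 : Nat.card (Subgroup.centralizer ({g} : Set G)) = 0 := by exact_mod_cast h0
  exact Nat.card_pos.ne' h3

/-- If `h` centralises no nonidentity element of the finite normal subgroup `N`, then every
`w ∈ N` has the form `y * (h * y⁻¹ * h⁻¹)` with `y ∈ N`. -/
theorem exists_twist {N : Subgroup G} [hNn : N.Normal] [Finite N] (h : G)
    (hfix : ∀ y ∈ N, h * y = y * h → y = 1) (w : G) (hw : w ∈ N) :
    ∃ y ∈ N, y * (h * y⁻¹ * h⁻¹) = w := by
  let φ : N → N := fun y => ⟨(y : G) * (h * (y : G)⁻¹ * h⁻¹),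
    N.mul_mem y.2 (hNn.conj_mem _ (N.inv_mem y.2) h)⟩
  have hinj : Function.Injective φ := by
    intro a b hab
    have hab' : (a : G) * (h * (a : G)⁻¹ * h⁻¹) = (b : G) * (h * (b : G)⁻¹ * h⁻¹) :=
      congrArg Subtype.val hab
    have h1 : (b : G)⁻¹ * a = h * ((b : G)⁻¹ * a) * h⁻¹ := by
      calc (b : G)⁻¹ * a = (b : G)⁻¹ * ((a : G) * (h * (a : G)⁻¹ * h⁻¹)) * (h * a * h⁻¹) := by
            group
        _ = (b : G)⁻¹ * ((b : G) * (h * (b : G)⁻¹ * h⁻¹)) * (h * a * h⁻¹) := by rw [hab']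
        _ = h * ((b : G)⁻¹ * a) * h⁻¹ := by group
    have hz : h * ((b : G)⁻¹ * a) = ((b : G)⁻¹ * a) * h := by
      calc h * ((b : G)⁻¹ * a) = h * ((b : G)⁻¹ * a) * h⁻¹ * h := by group
        _ = ((b : G)⁻¹ * a) * h := by rw [← h1]
    have h2 := hfix _ (N.mul_mem (N.inv_mem b.2) a.2) hz
    apply Subtype.ext
    calc (a : G) = b * ((b : G)⁻¹ * a) := by group
      _ = b := by rw [h2, mul_one]
  obtain ⟨y, hy⟩ := Finite.surjective_of_injective hinj ⟨w, hw⟩
  exact ⟨y, y.2, congrArg Subtype.val hy⟩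

/-- Basic structure of the support `N` of a Gagola character (a normal `p`-subgroup): it is
abelian of exponent `p`, and centralisers of its nonidentity elements consist of `p`-elements. -/
theorem basic [Finite G] (hG : 2 < Nat.card G) (χ : IrrCharacter G)
    (hχ : Nat.card {C : ConjClasses G // ∃ g ∈ C.carrier, (χ : G → ℂ) g ≠ 0} = 2)
    (p : ℕ) [Fact p.Prime] (N : Subgroup G) [N.Normal]
    (hN : ∀ g : G, g ∈ N ↔ (χ : G → ℂ) g ≠ 0) (hNp : IsPGroup p N) (hN1 : N ≠ ⊥) :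
    (∀ a ∈ N, ∀ b ∈ N, a * b = b * a) ∧ (∀ y ∈ N, y ^ p = 1) ∧
      (∀ x ∈ N, x ≠ 1 → ∀ h : G, h * x = x * h → ∃ k : ℕ, orderOf h = p ^ k) := by
  have hp : p.Prime := Fact.out
  obtain ⟨N', -, -, hN'supp, -, hconj, hmin, -, -⟩ := gagola_subgroup hG χ hχ
  have hNN : N' = N := Subgroup.ext (fun g => by rw [hN'supp, hN])
  rw [hNN] at hconj hmin
  have : Nontrivial N := (Subgroup.nontrivial_iff_ne_bot N).mpr hN1
  -- abelian
  have hab : ∀ a ∈ N, ∀ b ∈ N, a * b = b * a := by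
    have := hNp.center_nontrivial
    obtain ⟨z, hz⟩ := exists_ne (1 : Subgroup.center N)
    have hzc : ∀ n : N, n * (z : N) = (z : N) * n := fun n => Subgroup.mem_center_iff.mp z.2 n
    have hzmem : ((z : N) : G) ∈ Subgroup.centralizer (N : Set G) := by
      rw [Subgroup.mem_centralizer_iff]
      intro h hh
      exact congrArg Subtype.val (hzc ⟨h, hh⟩)
    have hne : Subgroup.centralizer (N : Set G) ≠ ⊥ := by
      intro h
      rw [h, Subgroup.mem_bot] at hzmem
      apply hz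
      apply Subtype.ext
      apply Subtype.ext
      exact hzmem
    have hle := hmin _ inferInstance hne
    intro a ha b hb
    exact (Subgroup.mem_centralizer_iff.mp (hle hb)) a ha
  refine ⟨hab, ?_, ?_⟩
  · -- exponent p
    obtain ⟨x0, hx0, hx01⟩ : ∃ x0 ∈ N, x0 ≠ 1 := by
      obtain ⟨a, ha⟩ := exists_ne (1 : N)
      exact ⟨a, a.2, fun h => ha (Subtype.ext h)⟩
    obtain ⟨k, hk⟩ := (IsPGroup.iff_orderOf.mp hNp) ⟨x0, hx0⟩
    rw [Subgroup.orderOf_mk] at hk
    have hk0 : k ≠ 0 := by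
      rintro rfl
      rw [pow_zero, orderOf_eq_one_iff] at hk
      exact hx01 hk
    obtain ⟨j, rfl⟩ := Nat.exists_eq_succ_of_ne_zero hk0
    set z0 := x0 ^ (p ^ j) with hz0
    have hz0N : z0 ∈ N := N.pow_mem hx0 _
    have hz01 : z0 ≠ 1 := by
      intro h
      have h1 := orderOf_dvd_of_pow_eq_one h
      rw [hk] at h1
      have h2 := (Nat.pow_dvd_pow_iff_le_right hp.one_lt).mp h1
      omega
    have hz0p : z0 ^ p = 1 := by
      rw [hz0, ← pow_mul, ← pow_succ, ← hk, pow_orderOf_eq_one]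
    intro y hy
    by_cases hy1 : y = 1
    · rw [hy1, one_pow]
    · obtain ⟨c, hc⟩ := isConj_iff.mp (hconj z0 hz0N y hy hz01 hy1)
      rw [← hc, conj_pow, hz0p]
      group
  · intro x hx hx1 h hh
    have hC := (gagola_centralizer_isPGroup hG χ hχ p N hN hNp x hx hx1).1
    have hmem : h ∈ Subgroup.centralizer ({x} : Set G) := by
      rw [Subgroup.mem_centralizer_iff]
      intro y hy
      rw [Set.mem_singleton_iff] at hy
      rw [hy]
      exact hh.symm
    obtain ⟨k, hk⟩ := (IsPGroup.iff_orderOf.mp hC) ⟨h, hmem⟩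
    rw [Subgroup.orderOf_mk] at hk
    exact ⟨k, hk⟩

/-- If `N = O_p(G)` then `C_G(N) ≤ N`. -/
theorem cent_le [Finite G] (hG : 2 < Nat.card G) (χ : IrrCharacter G)
    (hχ : Nat.card {C : ConjClasses G // ∃ g ∈ C.carrier, (χ : G → ℂ) g ≠ 0} = 2)
    (p : ℕ) [Fact p.Prime] (N : Subgroup G) [N.Normal]
    (hN : ∀ g : G, g ∈ N ↔ (χ : G → ℂ) g ≠ 0) (hNp : IsPGroup p N) (hN1 : N ≠ ⊥)
    (hcore : N = pCore p G) (g : G) (hg : ∀ y ∈ N, y * g = g * y) : g ∈ N := by
  have : Nontrivial N := (Subgroup.nontrivial_iff_ne_bot N).mpr hN1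
  obtain ⟨x0, hx0, hx01⟩ : ∃ x0 ∈ N, x0 ≠ 1 := by
    obtain ⟨a, ha⟩ := exists_ne (1 : N)
    exact ⟨a, a.2, fun h => ha (Subtype.ext h)⟩
  have hC := (gagola_centralizer_isPGroup hG χ hχ p N hN hNp x0 hx0 hx01).1
  have hle : Subgroup.centralizer (N : Set G) ≤ Subgroup.centralizer ({x0} : Set G) :=
    Subgroup.centralizer_le (Set.singleton_subset_iff.mpr hx0)
  have hZp : IsPGroup p (Subgroup.centralizer (N : Set G)) := hC.to_le hle
  have hZ : Subgroup.centralizer (N : Set G) ≤ pCore p G :=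
    le_sSup ⟨inferInstance, hZp⟩
  rw [hcore]
  exact hZ (Subgroup.mem_centralizer_iff.mpr hg)

/-- A character vanishing on the nonidentity elements of a subgroup `L` has degree divisible by
`|L|`. -/
theorem card_dvd_degree_of_vanish [Finite G] (χ : IrrCharacter G) (L : Subgroup G)
    (hvan : ∀ b ∈ L, b ≠ 1 → (χ : G → ℂ) b = 0) : Nat.card L ∣ charDegree (χ : G → ℂ) := by
  let _ : Fintype L := Fintype.ofFinite L
  obtain ⟨n, hn⟩ := Cfsg.Agent.Helper3.classInner_isCharacter_nat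
    (Cfsg.Agent.Helper79.isCharacter_restrict (isCharacter_of_irr χ.2) L)
    (isCharacter_of_irr (trivial_isIrrCharacter (G := L)))
  have hsum : ∑ b : L, (χ : G → ℂ) (b : G) * conj (1 : ℂ) = (χ : G → ℂ) 1 := by
    rw [Finset.sum_eq_single (1 : L)]
    · simp
    · intro b _ hb
      rw [hvan b b.2 (fun h => hb (Subtype.ext h)), zero_mul]
    · intro h
      exact absurd (Finset.mem_univ _) h
  unfold classInner at hn
  rw [hsum, irr_one_eq] at hn
  have hL : (Nat.card L : ℂ) ≠ 0 := by exact_mod_cast Nat.card_pos.ne'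
  have h1 : (charDegree (χ : G → ℂ) : ℂ) = ((Nat.card L * n : ℕ) : ℂ) := by
    push_cast
    rw [← hn]
    field_simp
  exact ⟨n, Nat.cast_injective h1⟩

/-- Odd `p`: `e = 1`. -/
theorem e_eq_one_odd [Finite G] (χ : IrrCharacter G) (p : ℕ) [Fact p.Prime] (hp2 : p ≠ 2)
    (N : Subgroup G) [N.Normal] (hN : ∀ g : G, g ∈ N ↔ (χ : G → ℂ) g ≠ 0) (hNp : IsPGroup p N)
    (hab : ∀ a ∈ N, ∀ b ∈ N, a * b = b * a)
    (hcl : ∀ g : G, (∀ y ∈ N, y * g = g * y) → g ∈ N)
    (hpg : ∀ x ∈ N, x ≠ 1 → ∀ h : G, h * x = x * h → ∃ k : ℕ, orderOf h = p ^ k)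
    (e : ℕ) (hepos : 0 < e) (hn2 : 2 ≤ Nat.card N)
    (hdeg : charDegree (χ : G → ℂ) = e * (Nat.card N - 1))
    (hcard : Nat.card G = e ^ 2 * Nat.card N * (Nat.card N - 1)) : e = 1 := by
  have hp : p.Prime := Fact.out
  haveI : Fact (Nat.Prime 2) := ⟨Nat.prime_two⟩
  -- `|N|` is odd
  obtain ⟨k, hk⟩ := IsPGroup.iff_card.mp hNp
  have hpodd : Odd p := hp.eq_two_or_odd'.resolve_left hp2
  have hNodd : Odd (Nat.card N) := by rw [hk]; exact hpodd.pow
  have h2dvd : 2 ∣ Nat.card G := by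
    have h1 : Even (Nat.card N - 1) := Nat.Odd.sub_odd hNodd odd_one
    rw [hcard]
    exact Dvd.dvd.mul_left h1.two_dvd _
  obtain ⟨t, ht⟩ := exists_prime_orderOf_dvd_card' 2 h2dvd
  have htt : t * t = 1 := by
    have := pow_orderOf_eq_one t
    rw [ht, pow_two] at this
    exact this
  have ht1 : t ≠ 1 := by
    intro h
    rw [h, orderOf_one] at ht
    omega
  -- involutions act without fixed points on `N`
  have hfix : ∀ s : G, s * s = 1 → s ≠ 1 → ∀ y ∈ N, s * y = y * s → y = 1 := by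
    intro s hss hs1 y hy hsy
    by_contra hy1
    obtain ⟨j, hj⟩ := hpg y hy hy1 s hsy
    have hs2 : orderOf s = 2 := orderOf_eq_prime (by rw [pow_two]; exact hss) hs1
    rw [hs2] at hj
    have hj0 : j ≠ 0 := by
      rintro rfl
      simp at hj
    have hdvd : p ∣ 2 := by rw [hj]; exact dvd_pow_self p hj0
    exact hp2 ((Nat.prime_dvd_prime_iff_eq hp Nat.prime_two).mp hdvd)
  -- involutions invert `N`
  have hinv : ∀ s : G, s * s = 1 → s ≠ 1 → ∀ y ∈ N, s * y * s⁻¹ = y⁻¹ := by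
    intro s hss hs1 y hy
    have hsinv : s⁻¹ = s := inv_eq_of_mul_eq_one_left hss
    have hc : s * y * s⁻¹ ∈ N := ‹N.Normal›.conj_mem y hy s
    have hc' : s * y * s ∈ N := by rw [hsinv] at hc; exact hc
    have hv : s * (y * (s * y * s⁻¹)) = (y * (s * y * s⁻¹)) * s := by
      rw [hsinv]
      calc s * (y * (s * y * s)) = (s * y * s) * y * s := by group
        _ = y * (s * y * s) * s := by rw [hab (s * y * s) hc' y hy]
    have h1 := hfix s hss hs1 _ (N.mul_mem hy hc) hv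
    exact eq_inv_of_mul_eq_one_right h1
  have htinv : t⁻¹ = t := inv_eq_of_mul_eq_one_left htt
  -- `G = N * C_G(t)`
  set L := Subgroup.centralizer ({t} : Set G) with hL
  obtain ⟨j, hj⟩ := hNodd
  have hdecomp : ∀ g : G, ∃ m ∈ N, m⁻¹ * g ∈ L := by
    intro g
    set s := g * t * g⁻¹ with hs
    have hss : s * s = 1 := by
      rw [hs]
      calc g * t * g⁻¹ * (g * t * g⁻¹) = g * (t * t) * g⁻¹ := by group
        _ = 1 := by rw [htt]; group
    have hs1 : s ≠ 1 := by
      intro h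
      apply ht1
      have : t = g⁻¹ * s * g := by rw [hs]; group
      rw [this, h]; group
    have hsinv : s⁻¹ = s := inv_eq_of_mul_eq_one_left hss
    -- `n = t * s` centralises `N`
    have hnN : t * s ∈ N := by
      apply hcl
      intro y hy
      have h1 := hinv s hss hs1 y hy
      have h2 := hinv t htt ht1 y⁻¹ (N.inv_mem hy)
      rw [inv_inv, htinv] at h2
      rw [hsinv] at h1
      -- h1 : s * y * s = y⁻¹,  h2 : t * y⁻¹ * t = y
      calc y * (t * s) = (t * y⁻¹ * t) * (t * s) := by rw [h2]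
        _ = t * y⁻¹ * (t * t) * s := by group
        _ = t * (s * y * s) * s := by rw [htt, mul_one, h1]
        _ = t * s * y * (s * s) := by group
        _ = t * s * y := by rw [hss, mul_one]
    set n := t * s with hn
    have hsn : s = t * n := by
      rw [hn, ← mul_assoc, htt, one_mul]
    -- `m⁻¹ = n ^ (j + 1)`
    have hnpow : n ^ (Nat.card N) = 1 := by
      have := pow_card_eq_one' (G := N) (x := ⟨n, hnN⟩)
      exact congrArg Subtype.val this
    obtain ⟨m, hmN, hmm⟩ : ∃ m ∈ N, m⁻¹ * m⁻¹ = n := by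
      refine ⟨(n ^ (j + 1))⁻¹, N.inv_mem (N.pow_mem hnN _), ?_⟩
      rw [inv_inv, ← pow_add]
      have : j + 1 + (j + 1) = Nat.card N + 1 := by omega
      rw [this, pow_succ, hnpow, one_mul]
    have hmt : m * t * m⁻¹ = s := by
      have h2 := hinv t htt ht1 m⁻¹ (N.inv_mem hmN)
      rw [inv_inv, htinv] at h2
      -- h2 : t * m⁻¹ * t = m
      calc m * t * m⁻¹ = (t * m⁻¹ * t) * t * m⁻¹ := by rw [h2]
        _ = t * m⁻¹ * (t * t) * m⁻¹ := by group
        _ = t * (m⁻¹ * m⁻¹) := by rw [htt, mul_one, mul_assoc]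
        _ = s := by rw [hmm, hsn]
    refine ⟨m, hmN, ?_⟩
    rw [hL, Subgroup.mem_centralizer_iff]
    intro y hy
    rw [Set.mem_singleton_iff] at hy
    rw [hy]
    have h3 : t = m⁻¹ * s * m := by rw [← hmt]; group
    calc t * (m⁻¹ * g) = m⁻¹ * s * m * (m⁻¹ * g) := by rw [← h3]
      _ = m⁻¹ * (g * t * g⁻¹) * g := by rw [hs]; group
      _ = m⁻¹ * g * t := by group
  -- `|G| ≤ |N| * |L|`
  have hle : Nat.card G ≤ Nat.card N * Nat.card L := by
    rw [← Nat.card_prod]
    apply Nat.card_le_card_of_surjective (fun x : N × L => (x.1 : G) * (x.2 : G))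
    intro g
    obtain ⟨m, hmN, hmL⟩ := hdecomp g
    exact ⟨(⟨m, hmN⟩, ⟨m⁻¹ * g, hmL⟩), by simp⟩
  -- `χ` vanishes on `L ∖ 1`
  have hvan : ∀ b ∈ L, b ≠ 1 → (χ : G → ℂ) b = 0 := by
    intro b hb hb1
    by_contra h0
    have hbN : b ∈ N := (hN b).mpr h0
    have htb : t * b = b * t := by
      rw [hL, Subgroup.mem_centralizer_iff] at hb
      exact hb t (Set.mem_singleton t)
    exact hb1 (hfix t htt ht1 b hbN htb)
  obtain ⟨c, hc⟩ := card_dvd_degree_of_vanish χ L hvan
  rw [hdeg] at hc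
  have hLpos : 0 < Nat.card L := Nat.card_pos
  have hNpos : 0 < Nat.card N - 1 := by omega
  have hc0 : c ≠ 0 := by
    rintro rfl
    rw [mul_zero] at hc
    have := Nat.mul_pos hepos hNpos
    omega
  have hLle : Nat.card L ≤ e * (Nat.card N - 1) := by
    rw [hc]
    exact Nat.le_mul_of_pos_right _ (Nat.pos_of_ne_zero hc0)
  rw [hcard] at hle
  have h4 : e ^ 2 * Nat.card N * (Nat.card N - 1) ≤ Nat.card N * (e * (Nat.card N - 1)) :=
    hle.trans (Nat.mul_le_mul_left _ hLle)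
  have h5 : e * e * (Nat.card N * (Nat.card N - 1)) ≤ e * (Nat.card N * (Nat.card N - 1)) := by
    calc e * e * (Nat.card N * (Nat.card N - 1)) = e ^ 2 * Nat.card N * (Nat.card N - 1) := by ring
      _ ≤ Nat.card N * (e * (Nat.card N - 1)) := h4
      _ = e * (Nat.card N * (Nat.card N - 1)) := by ring
  have hpos : 0 < Nat.card N * (Nat.card N - 1) := Nat.mul_pos (by omega) hNpos
  have h6 : e * e ≤ e := Nat.le_of_mul_le_mul_right h5 hpos
  have h7 : e ≤ 1 := by
    by_contra h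
    have : e < e * e := by nlinarith
    omega
  omega

/-- `p = 2`: the quotient `G / N` has no involution when `N = O_2(G)`. -/
theorem no_invol_two [Finite G] (hG : 2 < Nat.card G) (χ : IrrCharacter G)
    (hχ : Nat.card {C : ConjClasses G // ∃ g ∈ C.carrier, (χ : G → ℂ) g ≠ 0} = 2)
    (N : Subgroup G) [N.Normal] (hN : ∀ g : G, g ∈ N ↔ (χ : G → ℂ) g ≠ 0)
    (hcl : ∀ g : G, (∀ y ∈ N, y * g = g * y) → g ∈ N)
    (hsq : ∀ y ∈ N, y * y = 1)
    (hpg : ∀ x ∈ N, x ≠ 1 → ∀ h : G, h * x = x * h → ∃ k : ℕ, orderOf h = 2 ^ k)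
    (hcore : N = pCore 2 G) (gb : G ⧸ N) (hgb : gb * gb = 1) : gb = 1 := by
  by_contra hgb1
  by_cases hinv : ∀ u : G ⧸ N, Odd (orderOf u) → gb * u * gb⁻¹ = u⁻¹ → u = 1
  · obtain ⟨M, hMn, hMp, hgM⟩ := Cfsg.Agent.Helper53.baer_suzuki_two_of_inverts gb hgb hinv
    have hM'n : (M.comap (QuotientGroup.mk' N)).Normal := hMn.comap _
    have hM'p : IsPGroup 2 (M.comap (QuotientGroup.mk' N)) := by
      rintro ⟨m, hm⟩
      rw [Subgroup.mem_comap] at hm
      obtain ⟨k, hk⟩ := hMp ⟨_, hm⟩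
      have hk' : (QuotientGroup.mk' N m) ^ (2 ^ k) = 1 := by
        have := congrArg Subtype.val hk
        simpa using this
      rw [← map_pow] at hk'
      have hmem : m ^ (2 ^ k) ∈ N := (QuotientGroup.eq_one_iff _).mp hk'
      refine ⟨k + 1, Subtype.ext ?_⟩
      show m ^ (2 ^ (k + 1)) = 1
      rw [pow_succ, pow_mul, pow_two]
      exact hsq _ hmem
    have hle : M.comap (QuotientGroup.mk' N) ≤ pCore 2 G := le_sSup ⟨hM'n, hM'p⟩
    obtain ⟨g, rfl⟩ := QuotientGroup.mk_surjective gb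
    have hgN : g ∈ N := by
      rw [hcore]
      exact hle (Subgroup.mem_comap.mpr hgM)
    exact hgb1 ((QuotientGroup.eq_one_iff g).mpr hgN)
  · push Not at hinv
    obtain ⟨u, huodd, hu, hu1⟩ := hinv
    obtain ⟨g, rfl⟩ := QuotientGroup.mk_surjective gb
    obtain ⟨u1, rfl⟩ := QuotientGroup.mk_surjective u
    set m := orderOf (u1 : G ⧸ N) with hm
    have hu1m : u1 ^ m ∈ N := by
      apply (QuotientGroup.eq_one_iff _).mp
      rw [QuotientGroup.mk_pow, hm, pow_orderOf_eq_one]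
    obtain ⟨j, hj⟩ := huodd
    set h := u1 ^ (m + 1) with hh
    have hhm : h ^ m = 1 := by
      rw [hh, ← pow_mul, mul_comm, pow_mul]
      have : m + 1 = 2 * (j + 1) := by omega
      rw [this, pow_mul, pow_two, hsq _ hu1m, one_pow]
    have hhu : (h : G ⧸ N) = (u1 : G ⧸ N) := by
      rw [hh, QuotientGroup.mk_pow, pow_succ, hm, pow_orderOf_eq_one, one_mul]
    have hh1 : h ≠ 1 := by
      intro h1
      apply hu1
      rw [← hhu, h1]
      rfl
    have hhodd : Odd (orderOf h) :=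
      Odd.of_dvd_nat ⟨j, hj⟩ (orderOf_dvd_of_pow_eq_one hhm)
    have hfix : ∀ y ∈ N, h * y = y * h → y = 1 := by
      intro y hy hhy
      by_contra hy1
      obtain ⟨k, hk⟩ := hpg y hy hy1 h hhy
      have hk0 : k = 0 := by
        by_contra hk0
        rw [hk] at hhodd
        have : Even (2 ^ k) := (Nat.even_pow).mpr ⟨even_two, hk0⟩
        exact (Nat.not_even_iff_odd.mpr hhodd) this
      rw [hk0, pow_zero, orderOf_eq_one_iff] at hk
      exact hh1 hk
    -- the element `w = g⁻¹ h⁻¹ g h⁻¹` lies in `N`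
    have hw : g⁻¹ * h⁻¹ * g * h⁻¹ ∈ N := by
      apply (QuotientGroup.eq_one_iff _).mp
      have e1 : ((g⁻¹ * h⁻¹ * g * h⁻¹ : G) : G ⧸ N) =
          (g : G ⧸ N)⁻¹ * (h : G ⧸ N)⁻¹ * (g : G ⧸ N) * (h : G ⧸ N)⁻¹ := rfl
      rw [e1, hhu]
      have e2 : (g : G ⧸ N)⁻¹ * (u1 : G ⧸ N)⁻¹ * (g : G ⧸ N) = (u1 : G ⧸ N) := by
        rw [← hu]; group
      rw [e2, mul_inv_cancel]
    obtain ⟨y, hyN, hy⟩ := exists_twist h hfix _ hw
    set g1 := g * y with hg1
    have hg1h : g1 * h * g1⁻¹ = h⁻¹ := by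
      have e1 : y * h * y⁻¹ = g⁻¹ * h⁻¹ * g := by
        calc y * h * y⁻¹ = y * (h * y⁻¹ * h⁻¹) * h := by group
          _ = g⁻¹ * h⁻¹ * g * h⁻¹ * h := by rw [hy]
          _ = g⁻¹ * h⁻¹ * g := by group
      calc g1 * h * g1⁻¹ = g * (y * h * y⁻¹) * g⁻¹ := by rw [hg1]; group
        _ = g * (g⁻¹ * h⁻¹ * g) * g⁻¹ := by rw [e1]
        _ = h⁻¹ := by group
    have hg1q : (g1 : G ⧸ N) = (g : G ⧸ N) := by
      rw [hg1, QuotientGroup.mk_mul, (QuotientGroup.eq_one_iff y).mpr hyN, mul_one]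
    have hg1sqN : g1 * g1 ∈ N := by
      apply (QuotientGroup.eq_one_iff _).mp
      rw [QuotientGroup.mk_mul, hg1q]
      exact hgb
    have hg1comm : h * (g1 * g1) = (g1 * g1) * h := by
      have e1 : g1 * h⁻¹ * g1⁻¹ = h := by
        calc g1 * h⁻¹ * g1⁻¹ = (g1 * h * g1⁻¹)⁻¹ := by group
          _ = h := by rw [hg1h, inv_inv]
      calc h * (g1 * g1) = (g1 * h⁻¹ * g1⁻¹) * (g1 * g1) := by rw [e1]
        _ = g1 * h⁻¹ * g1 := by group
        _ = g1 * (g1 * h * g1⁻¹) * g1 := by rw [hg1h]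
        _ = g1 * g1 * h := by group
    have hg1sq : g1 * g1 = 1 := hfix _ hg1sqN hg1comm
    have hg1N : g1 ∉ N := by
      intro hmem
      apply hgb1
      rw [← hg1q]
      exact (QuotientGroup.eq_one_iff g1).mpr hmem
    have hg1inv : g1⁻¹ = g1 := inv_eq_of_mul_eq_one_left hg1sq
    apply hg1N
    apply hcl
    intro y' hy'
    obtain ⟨c, hc⟩ := isConj_iff.mp (camina hG χ hχ N hN g1 hg1N y' hy')
    have e1 : (g1 * y') * (g1 * y') = 1 := by
      rw [← hc]
      calc c * g1 * c⁻¹ * (c * g1 * c⁻¹) = c * (g1 * g1) * c⁻¹ := by group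
        _ = 1 := by rw [hg1sq]; group
    have hy'inv : y'⁻¹ = y' := inv_eq_of_mul_eq_one_left (hsq y' hy')
    calc y' * g1 = g1⁻¹ * ((g1 * y') * (g1 * y')) * y'⁻¹ := by group
      _ = g1 * y' := by rw [e1, mul_one, hg1inv, hy'inv]

/-- If `N = O_p(G)` then `|G| = |N| (|N| - 1)` and `C_G(x) ≤ N` for `1 ≠ x ∈ N`. -/
theorem cent_eq [Finite G] (hG : 2 < Nat.card G) (χ : IrrCharacter G)
    (hχ : Nat.card {C : ConjClasses G // ∃ g ∈ C.carrier, (χ : G → ℂ) g ≠ 0} = 2)
    (p : ℕ) [Fact p.Prime] (N : Subgroup G) [N.Normal]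
    (hN : ∀ g : G, g ∈ N ↔ (χ : G → ℂ) g ≠ 0) (hNp : IsPGroup p N) (hN1 : N ≠ ⊥)
    (hcore : N = pCore p G) :
    Nat.card G = Nat.card N * (Nat.card N - 1) ∧ 2 ≤ Nat.card N ∧
      ∀ x ∈ N, x ≠ 1 → ∀ h : G, h * x = x * h → h ∈ N := by
  have hp : p.Prime := Fact.out
  obtain ⟨hab, hexp, hpg⟩ := basic hG χ hχ p N hN hNp hN1
  have hcl := cent_le hG χ hχ p N hN hNp hN1 hcore
  obtain ⟨e, hepos, hn2, hdeg, hval, hcent, hidx⟩ := gagola_arith hG χ hχ N hN
  have : Nontrivial N := (Subgroup.nontrivial_iff_ne_bot N).mpr hN1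
  obtain ⟨x0, hx0, hx01⟩ : ∃ x0 ∈ N, x0 ≠ 1 := by
    obtain ⟨a, ha⟩ := exists_ne (1 : N)
    exact ⟨a, a.2, fun h => ha (Subtype.ext h)⟩
  have hcard : Nat.card G = e ^ 2 * Nat.card N * (Nat.card N - 1) := by
    rw [← Subgroup.card_mul_index (Subgroup.centralizer ({x0} : Set G)), hcent x0 hx0 hx01,
      hidx x0 hx0 hx01]
  have hNpos : 0 < Nat.card N := Nat.card_pos
  have he1 : e = 1 := by
    by_cases hp2 : p = 2
    · subst hp2
      have hC := (gagola_centralizer_isPGroup hG χ hχ 2 N hN hNp x0 hx0 hx01).1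
      obtain ⟨k, hk⟩ := IsPGroup.iff_card.mp hC
      rw [hcent x0 hx0 hx01] at hk
      have hedvd : e ∣ 2 ^ k := by
        rw [← hk, pow_two, mul_assoc]
        exact Dvd.intro _ rfl
      obtain ⟨i, -, hei⟩ := (Nat.dvd_prime_pow Nat.prime_two).mp hedvd
      by_contra he1
      have hi0 : i ≠ 0 := by
        rintro rfl
        exact he1 (by simpa using hei)
      have he2 : 2 ∣ e := by rw [hei]; exact dvd_pow_self 2 hi0
      have hidxN : N.index = e ^ 2 * (Nat.card N - 1) := by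
        have h1 := Subgroup.card_mul_index N
        rw [hcard] at h1
        apply Nat.eq_of_mul_eq_mul_left hNpos
        rw [h1]; ring
      have h2dvd : 2 ∣ Nat.card (G ⧸ N) := by
        rw [← Subgroup.index_eq_card, hidxN]
        exact Dvd.dvd.mul_right (Dvd.dvd.pow he2 (by norm_num)) _
      obtain ⟨gb, hgb⟩ := exists_prime_orderOf_dvd_card' 2 h2dvd
      have hgb2 : gb * gb = 1 := by
        have := pow_orderOf_eq_one gb
        rw [hgb, pow_two] at this
        exact this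
      have hsq : ∀ y ∈ N, y * y = 1 := fun y hy => by rw [← pow_two]; exact hexp y hy
      have h3 := no_invol_two hG χ hχ N hN hcl hsq hpg hcore gb hgb2
      rw [h3, orderOf_one] at hgb
      omega
    · exact e_eq_one_odd χ p hp2 N hN hNp hab hcl hpg e hepos hn2 hdeg hcard
  subst he1
  refine ⟨by rw [hcard]; ring, hn2, ?_⟩
  intro x hx hx1 h hh
  have hcx := hcent x hx hx1
  have hNle : N ≤ Subgroup.centralizer ({x} : Set G) := by
    intro y hy
    rw [Subgroup.mem_centralizer_iff]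
    intro z hz
    rw [Set.mem_singleton_iff] at hz
    rw [hz]
    exact hab x hx y hy
  have heq : N = Subgroup.centralizer ({x} : Set G) :=
    Subgroup.eq_of_le_of_card_ge hNle (by rw [hcx]; simp)
  rw [heq, Subgroup.mem_centralizer_iff]
  intro z hz
  rw [Set.mem_singleton_iff] at hz
  rw [hz]
  exact hh.symm

/-- `N = O_p(G)` implies that `G` is a doubly transitive Frobenius group with kernel `N`. -/
theorem frob_of_pcore [Finite G] (hG : 2 < Nat.card G) (χ : IrrCharacter G)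
    (hχ : Nat.card {C : ConjClasses G // ∃ g ∈ C.carrier, (χ : G → ℂ) g ≠ 0} = 2)
    (p : ℕ) [Fact p.Prime] (N : Subgroup G) [hNn : N.Normal]
    (hN : ∀ g : G, g ∈ N ↔ (χ : G → ℂ) g ≠ 0) (hNp : IsPGroup p N) (hN1 : N ≠ ⊥)
    (hcore : N = pCore p G) :
    ∃ H : Subgroup G, IsFrobeniusComplement H ∧ frobeniusKernel H = (N : Set G) ∧
      Nat.card H + 1 = Nat.card N := by
  obtain ⟨hcard, hn2, hcent⟩ := cent_eq hG χ hχ p N hN hNp hN1 hcore
  have hNpos : 0 < Nat.card N := Nat.card_pos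
  have hn3 : 3 ≤ Nat.card N := by
    by_contra h
    have h2 : Nat.card N = 2 := by omega
    rw [h2] at hcard
    omega
  have hidx : N.index = Nat.card N - 1 := by
    have h1 := Subgroup.card_mul_index N
    rw [hcard] at h1
    exact Nat.eq_of_mul_eq_mul_left hNpos h1
  have hcop : Nat.Coprime (Nat.card N) N.index := by
    rw [hidx]
    exact (Nat.coprime_self_sub_right (by omega)).mpr (Nat.coprime_one_right _)
  obtain ⟨H, hH⟩ := Subgroup.exists_right_complement'_of_coprime hcop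
  have hHcard : Nat.card N * Nat.card H = Nat.card G := hH.card_mul_card
  have hHc : Nat.card H = Nat.card N - 1 := by
    rw [hcard] at hHcard
    exact Nat.eq_of_mul_eq_mul_left hNpos hHcard
  have hdisj : ∀ k, k ∈ N → k ∈ H → k = 1 := by
    intro k hkN hkH
    exact Subgroup.disjoint_def.mp hH.disjoint hkN hkH
  have hprod : ∀ g : G, ∃ n ∈ N, ∃ h ∈ H, g = n * h := by
    intro g
    obtain ⟨⟨a, b⟩, hab⟩ := hH.2 g
    exact ⟨a, a.2, b, b.2, hab.symm⟩
  refine ⟨H, ⟨?_, ?_, ?_⟩, ?_, by omega⟩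
  · intro h
    rw [h, Subgroup.card_bot] at hHc
    omega
  · intro h
    rw [h, Subgroup.card_top, hcard] at hHc
    have h1 : 2 ≤ Nat.card N - 1 := by omega
    nlinarith
  · intro g hg
    rw [eq_bot_iff]
    intro k hk
    rw [Subgroup.mem_bot]
    obtain ⟨hkH, hkc⟩ := Subgroup.mem_inf.mp hk
    obtain ⟨k', hk'H, hk'⟩ := (Subgroup.mem_smul_pointwise_iff_exists _ _ _).mp hkc
    rw [MulAut.smul_def, MulAut.conj_apply] at hk'
    obtain ⟨n, hnN, h0, hh0, rfl⟩ := hprod g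
    have hn1 : n ≠ 1 := by
      rintro rfl
      apply hg
      rw [one_mul]
      exact hh0
    have hk''H : h0 * k' * h0⁻¹ ∈ H := H.mul_mem (H.mul_mem hh0 hk'H) (H.inv_mem hh0)
    obtain ⟨k'', hk''H, hk''⟩ : ∃ k'' ∈ H, k = n * k'' * n⁻¹ :=
      ⟨h0 * k' * h0⁻¹, hk''H, by rw [← hk']; group⟩
    have h1 : k''⁻¹ * k ∈ N := by
      have e1 : k''⁻¹ * k = (k''⁻¹ * n * k''⁻¹⁻¹) * n⁻¹ := by rw [hk'']; group
      rw [e1]
      exact N.mul_mem (hNn.conj_mem n hnN _) (N.inv_mem hnN)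
    have h2 : k''⁻¹ * k ∈ H := H.mul_mem (H.inv_mem hk''H) hkH
    have h3 : k'' = k := inv_mul_eq_one.mp (hdisj _ h1 h2)
    have h4 : k * n = n * k := by
      rw [h3] at hk''
      calc k * n = (n * k * n⁻¹) * n := by rw [← hk'']
        _ = n * k := by group
    exact hdisj k (hcent n hnN hn1 k h4) hkH
  · ext x'
    show (x' = 1 ∨ ∀ g : G, x' ∉ MulAut.conj g • H) ↔ x' ∈ N
    constructor
    · rintro (rfl | hx')
      · exact N.one_mem
      · by_contra hx'N
        obtain ⟨n, hnN, h0, hh0, rfl⟩ := hprod x'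
        have hh01 : h0 ≠ 1 := by
          rintro rfl
          apply hx'N
          rw [mul_one]
          exact hnN
        have hfix : ∀ y ∈ N, h0 * y = y * h0 → y = 1 := by
          intro y hy hhy
          by_contra hy1
          exact hh01 (hdisj h0 (hcent y hy hy1 h0 hhy) hh0)
        obtain ⟨m, hmN, hm⟩ := exists_twist h0 hfix n hnN
        apply hx' m
        rw [Subgroup.mem_smul_pointwise_iff_exists]
        refine ⟨h0, hh0, ?_⟩
        rw [MulAut.smul_def, MulAut.conj_apply, ← hm]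
        group
    · intro hx'N
      by_cases hx1 : x' = 1
      · left; exact hx1
      · right
        intro g hmem
        obtain ⟨k', hk'H, hk'⟩ := (Subgroup.mem_smul_pointwise_iff_exists _ _ _).mp hmem
        rw [MulAut.smul_def, MulAut.conj_apply] at hk'
        have hk'N : k' ∈ N := by
          have e1 : k' = g⁻¹ * x' * g⁻¹⁻¹ := by rw [← hk']; group
          rw [e1]
          exact hNn.conj_mem x' hx'N _
        have h1 := hdisj k' hk'N hk'H
        rw [h1] at hk'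
        apply hx1
        rw [← hk']
        group

/-- A Frobenius complement with kernel `N` forces `N = O_p(G)`. -/
theorem pcore_of_frob [Finite G] (hG : 2 < Nat.card G) (χ : IrrCharacter G)
    (hχ : Nat.card {C : ConjClasses G // ∃ g ∈ C.carrier, (χ : G → ℂ) g ≠ 0} = 2)
    (p : ℕ) [Fact p.Prime] (N : Subgroup G) [hNn : N.Normal]
    (hN : ∀ g : G, g ∈ N ↔ (χ : G → ℂ) g ≠ 0) (hNp : IsPGroup p N) (hN1 : N ≠ ⊥)
    (H : Subgroup G) (hH : IsFrobeniusComplement H) (hK : frobeniusKernel H = (N : Set G)) :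
    N = pCore p G := by
  have hp : p.Prime := Fact.out
  have : Nontrivial N := (Subgroup.nontrivial_iff_ne_bot N).mpr hN1
  obtain ⟨x, hx, hx1⟩ : ∃ x ∈ N, x ≠ 1 := by
    obtain ⟨a, ha⟩ := exists_ne (1 : N)
    exact ⟨a, a.2, fun h => ha (Subtype.ext h)⟩
  obtain ⟨hCp, hCidx⟩ := gagola_centralizer_isPGroup hG χ hχ p N hN hNp x hx hx1
  obtain ⟨e, hepos, hn2, hdeg, hval, hcent, hidx⟩ := gagola_arith hG χ hχ N hN
  have hmemK : ∀ y : G, y ∈ N ↔ (y = 1 ∨ ∀ g : G, y ∉ MulAut.conj g • H) := by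
    intro y
    have h1 : y ∈ frobeniusKernel H ↔ y ∈ (N : Set G) := by rw [hK]
    exact h1.symm
  have hCN : Subgroup.centralizer ({x} : Set G) ≤ N := by
    intro g hg
    by_contra hgN
    have hg' : ¬ (g = 1 ∨ ∀ c : G, g ∉ MulAut.conj c • H) := fun h => hgN ((hmemK g).mpr h)
    push Not at hg'
    obtain ⟨hg1, c, hc⟩ := hg'
    obtain ⟨g', hg'H, hg'c⟩ := (Subgroup.mem_smul_pointwise_iff_exists _ _ _).mp hc
    rw [MulAut.smul_def, MulAut.conj_apply] at hg'c
    have hx'N : c⁻¹ * x * c ∈ N := by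
      have e1 : c⁻¹ * x * c = c⁻¹ * x * c⁻¹⁻¹ := by group
      rw [e1]
      exact hNn.conj_mem x hx _
    have hx'1 : c⁻¹ * x * c ≠ 1 := by
      intro h
      apply hx1
      have e1 : x = c * (c⁻¹ * x * c) * c⁻¹ := by group
      rw [e1, h]
      group
    have hx'H : c⁻¹ * x * c ∉ H := by
      intro hmem
      rcases (hmemK _).mp hx'N with h | h
      · exact hx'1 h
      · apply h 1
        rw [map_one, one_smul]
        exact hmem
    have hTI := hH.2.2 _ hx'H
    have hcomm : x * g = g * x := by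
      rw [Subgroup.mem_centralizer_iff] at hg
      exact hg x (Set.mem_singleton x)
    have hg'2 : g' ∈ MulAut.conj (c⁻¹ * x * c) • H := by
      rw [Subgroup.mem_smul_pointwise_iff_exists]
      refine ⟨g', hg'H, ?_⟩
      rw [MulAut.smul_def, MulAut.conj_apply]
      have e1 : g' = c⁻¹ * g * c := by rw [← hg'c]; group
      rw [e1]
      calc c⁻¹ * x * c * (c⁻¹ * g * c) * (c⁻¹ * x * c)⁻¹ = c⁻¹ * (x * g) * x⁻¹ * c := by group
        _ = c⁻¹ * (g * x) * x⁻¹ * c := by rw [hcomm]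
        _ = c⁻¹ * g * c := by group
    have h2 : g' ∈ H ⊓ MulAut.conj (c⁻¹ * x * c) • H := Subgroup.mem_inf.mpr ⟨hg'H, hg'2⟩
    rw [hTI, Subgroup.mem_bot] at h2
    apply hg1
    rw [← hg'c, h2]
    group
  have hcC := hcent x hx hx1
  have hNpos : 0 < Nat.card N := Nat.card_pos
  have hCeq : Subgroup.centralizer ({x} : Set G) = N := by
    apply Subgroup.eq_of_le_of_card_ge hCN
    rw [hcC]
    have h1 : 1 ≤ e ^ 2 := Nat.one_le_pow _ _ hepos
    nlinarith
  rw [hCeq] at hCidx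
  have hNQ : N ≤ pCore p G := le_sSup ⟨hNn, hNp⟩
  apply le_antisymm hNQ
  have hQp : IsPGroup p (pCore p G) := by
    unfold pCore
    exact Sylow.sSup_of_normal _ (fun H hH => hH.2) (fun H hH => hH.1)
  have h1 : N.relIndex (pCore p G) ∣ N.index := Subgroup.relIndex_dvd_index_of_le hNQ
  obtain ⟨n, hn⟩ := hQp.index (N.subgroupOf (pCore p G))
  have hn' : N.relIndex (pCore p G) = p ^ n := hn
  have hn0 : n = 0 := by
    by_contra hn0
    apply hCidx
    exact (dvd_pow_self p hn0).trans (hn' ▸ h1)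
  rw [hn0, pow_zero] at hn'
  exact Subgroup.relIndex_eq_one.mp hn'

end Cfsg.Agent.Helper71.GagolaFrob
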