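import Mathlib
import Cfsg.Agent.Helper71.Pronormal

set_option autoImplicit false

namespace Cfsg.Agent.Helper71

open Subgroup

/-- `|H| * [K : H] = |K|` for `H ≤ K`. -/
theorem card_mul_relIndex_of_le' {G : Type*} [Group G] {H K : Subgroup G} (h : H ≤ K) :
    Nat.card H * H.relIndex K = Nat.card K := by
  have := Subgroup.relIndex_mul_relIndex ⊥ H K bot_le h
  simpa using this

/-- `[HK : H] = [K : H ∩ K]` for `K` normal in a finite group. -/
theorem relIndex_sup_eq_of_normal {G : Type*} [Group G] [Finite G] (H K : Subgroup G)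
    [K.Normal] : H.relIndex (H ⊔ K) = H.relIndex K := by
  have a1 : H.relIndex (H ⊔ K) * Nat.card H = Nat.card (H ⊔ K : Subgroup G) := by
    rw [mul_comm]; exact card_mul_relIndex_of_le' le_sup_left
  have a2 : K.relIndex (H ⊔ K) * Nat.card K = Nat.card (H ⊔ K : Subgroup G) := by
    rw [mul_comm]; exact card_mul_relIndex_of_le' le_sup_right
  have a3 : K.relIndex (H ⊔ K) = K.relIndex H := Subgroup.relIndex_sup_right H K
  have a4 : K.relIndex H * Nat.card (H ⊓ K : Subgroup G) = Nat.card H := by
    rw [← Subgroup.inf_relIndex_left, mul_comm]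
    exact card_mul_relIndex_of_le' inf_le_left
  have a5 : H.relIndex K * Nat.card (H ⊓ K : Subgroup G) = Nat.card K := by
    rw [← Subgroup.inf_relIndex_right, mul_comm]
    exact card_mul_relIndex_of_le' inf_le_right
  have hpos : 0 < Nat.card H := Nat.card_pos
  apply Nat.eq_of_mul_eq_mul_right hpos
  rw [a1, ← a2, a3, ← a5, ← a4]
  ring

/-- `[AB : A] = [B : A ∩ B]` when `A` normalizes `B` (finite group). -/
theorem relIndex_sup_eq_of_le_normalizer {G : Type*} [Group G] [Finite G] (A B : Subgroup G)
    (h : A ≤ Subgroup.normalizer (B : Set G)) : A.relIndex (A ⊔ B) = A.relIndex B := by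
  have hB : B ≤ Subgroup.normalizer (B : Set G) := Subgroup.le_normalizer
  have : (B.subgroupOf (Subgroup.normalizer (B : Set G))).Normal := Subgroup.normal_in_normalizer
  have h1 := relIndex_sup_eq_of_normal (A.subgroupOf (Subgroup.normalizer (B : Set G)))
    (B.subgroupOf (Subgroup.normalizer (B : Set G)))
  rw [← Subgroup.subgroupOf_sup h hB, Subgroup.relIndex_subgroupOf (sup_le h hB),
    Subgroup.relIndex_subgroupOf hB] at h1
  exact h1

/-- A normal subgroup is fixed by every conjugation. -/
theorem map_conj_eq_self_of_normal {G : Type*} [Group G] (K : Subgroup G) [K.Normal] (g : G) :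
    K.map (MulAut.conj g).toMonoidHom = K :=
  map_conj_eq_self_of_mem_normalizer K (by rw [Subgroup.normalizer_eq_top]; exact Subgroup.mem_top g)

/-- Frattini argument in elementwise form. -/
theorem normalizer_le_sup_normalizer {G : Type*} [Group G] [Finite G] {p : ℕ} [Fact p.Prime]
    (P : Sylow p G) (L : Subgroup G) (hPL : (P : Subgroup G) ≤ L) :
    Subgroup.normalizer (L : Set G) ≤ Subgroup.normalizer ((P : Subgroup G) : Set G) ⊔ L := by
  intro y hy
  have hyL : L.map (MulAut.conj y).toMonoidHom = L := map_conj_eq_self_of_mem_normalizer L hy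
  have h1 : (P : Subgroup G).map (MulAut.conj y).toMonoidHom ≤ L := by
    rw [← hyL]; exact Subgroup.map_mono hPL
  obtain ⟨d, hd, hdeq⟩ := exists_conj_eq_of_maximal_pgroup L (P : Subgroup G)
    ((P : Subgroup G).map (MulAut.conj y).toMonoidHom) hPL h1 P.isPGroup' (P.isPGroup'.map _)
    (by rw [Subgroup.card_map_of_injective (MulAut.conj y).injective])
    (fun R hR _ hPR => P.is_maximal' hR hPR)
  have h2 : d⁻¹ * y ∈ Subgroup.normalizer ((P : Subgroup G) : Set G) :=
    mem_normalizer_of_map_conj_eq _ hdeq
  have e : y = d * (d⁻¹ * y) := by group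
  rw [e, sup_comm]
  exact Subgroup.mul_mem_sup hd h2

/-- `n_p(G) = [G : N_G(P)]`, with the coercion through `Subgroup`. -/
theorem card_sylow_eq_index_normalizer' {G : Type*} [Group G] [Finite G] {p : ℕ} [Fact p.Prime]
    (P : Sylow p G) :
    Nat.card (Sylow p G) = (Subgroup.normalizer ((P : Subgroup G) : Set G)).index :=
  Sylow.card_eq_index_normalizer P

/-- The number of Sylow subgroups of a subgroup `L` containing the Sylow subgroup `P`. -/
theorem card_sylow_subgroup_eq_relIndex {G : Type*} [Group G] [Finite G] {p : ℕ} [Fact p.Prime]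
    (P : Sylow p G) (L : Subgroup G) (hPL : (P : Subgroup G) ≤ L) :
    Nat.card (Sylow p L) = (Subgroup.normalizer ((P : Subgroup G) : Set G)).relIndex L := by
  rw [card_sylow_eq_index_normalizer' (P.subtype hPL), Sylow.coe_subtype,
    ← Subgroup.subgroupOf_normalizer_eq hPL]
  rfl

/-- Step 1 of M. Hall's factorisation: `n_p(G) = n_p(G/K) * n_p(PK)`. -/
theorem card_sylow_eq_mul_of_normal {G : Type*} [Group G] [Finite G] {p : ℕ} [Fact p.Prime]
    (P : Sylow p G) (K : Subgroup G) [K.Normal] :
    Nat.card (Sylow p G) =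
      Nat.card (Sylow p (G ⧸ K)) * Nat.card (Sylow p ↥((P : Subgroup G) ⊔ K)) := by
  have hNY : Subgroup.normalizer ((P : Subgroup G) : Set G) ≤
      Subgroup.normalizer (((P : Subgroup G) ⊔ K : Subgroup G) : Set G) := by
    intro g hg
    rw [mem_normalizer_iff_map_conj, Subgroup.map_sup, map_conj_eq_self_of_mem_normalizer _ hg,
      map_conj_eq_self_of_normal K g]
  have ha := Subgroup.relIndex_mul_index hNY
  have hb : Nat.card (Sylow p (G ⧸ K)) =
      (Subgroup.normalizer (((P : Subgroup G) ⊔ K : Subgroup G) : Set G)).index := by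
    rw [card_sylow_eq_index_normalizer' (Sylow.mapSurjective (QuotientGroup.mk'_surjective K) P),
      Sylow.coe_mapSurjective,
      ← Subgroup.index_comap_of_surjective _ (QuotientGroup.mk'_surjective K),
      Subgroup.comap_normalizer_eq_of_surjective _ (QuotientGroup.mk'_surjective K),
      Subgroup.comap_map_eq, QuotientGroup.ker_mk']
  have hc := card_sylow_subgroup_eq_relIndex P ((P : Subgroup G) ⊔ K) le_sup_left
  have hY : Subgroup.normalizer (((P : Subgroup G) ⊔ K : Subgroup G) : Set G) =
      Subgroup.normalizer ((P : Subgroup G) : Set G) ⊔ ((P : Subgroup G) ⊔ K) :=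
    le_antisymm (normalizer_le_sup_normalizer P _ le_sup_left)
      (sup_le hNY Subgroup.le_normalizer)
  have hd : (Subgroup.normalizer ((P : Subgroup G) : Set G)).relIndex
      (Subgroup.normalizer (((P : Subgroup G) ⊔ K : Subgroup G) : Set G)) =
      (Subgroup.normalizer ((P : Subgroup G) : Set G)).relIndex ((P : Subgroup G) ⊔ K) := by
    conv_lhs => rw [hY]
    exact relIndex_sup_eq_of_le_normalizer _ _ hNY
  rw [card_sylow_eq_index_normalizer' P, ← ha, hd, hb, hc, mul_comm]

/-- `[K : H ∩ K]` divides `[G : H]` for `K` normal. -/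
theorem relIndex_dvd_index_of_normal_right' {G : Type*} [Group G] [Finite G] (H K : Subgroup G)
    [K.Normal] : H.relIndex K ∣ H.index := by
  rw [← relIndex_sup_eq_of_normal]
  exact Subgroup.relIndex_dvd_index_of_le le_sup_left

/-- Step 2 of M. Hall's factorisation: if `G = PK` then `n_p(G) = n_p(K) * n_p(N_G(P ∩ K))`. -/
theorem card_sylow_eq_mul_of_sup_eq_top {G : Type*} [Group G] [Finite G] {p : ℕ} [Fact p.Prime]
    (P : Sylow p G) (K : Subgroup G) [K.Normal] (hsup : (P : Subgroup G) ⊔ K = ⊤) :
    Nat.card (Sylow p G) = Nat.card (Sylow p ↥K) *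
      Nat.card (Sylow p ↥(Subgroup.normalizer ((((P : Subgroup G) ⊓ K : Subgroup G)) : Set G))) := by
  have hNM : Subgroup.normalizer ((P : Subgroup G) : Set G) ≤
      Subgroup.normalizer ((((P : Subgroup G) ⊓ K : Subgroup G)) : Set G) := by
    intro g hg
    rw [mem_normalizer_iff_map_conj, Subgroup.map_inf_eq _ _ _ (MulAut.conj g).injective,
      map_conj_eq_self_of_mem_normalizer _ hg, map_conj_eq_self_of_normal K g]
  have hPM : (P : Subgroup G) ≤
      Subgroup.normalizer ((((P : Subgroup G) ⊓ K : Subgroup G)) : Set G) :=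
    Subgroup.le_normalizer.trans hNM
  have ha := Subgroup.relIndex_mul_index hNM
  have hc := card_sylow_subgroup_eq_relIndex P _ hPM
  have hDK : (P : Subgroup G) ⊓ K ≤ K := inf_le_right
  have hDp : IsPGroup p (((P : Subgroup G) ⊓ K).subgroupOf K) :=
    (P.isPGroup'.to_le inf_le_left).comap_of_injective _ (Subgroup.subtype_injective K)
  have hDidx : ¬ p ∣ (((P : Subgroup G) ⊓ K).subgroupOf K).index := by
    show ¬ p ∣ ((P : Subgroup G) ⊓ K).relIndex K
    rw [Subgroup.inf_relIndex_right]
    intro h
    exact P.not_dvd_index (h.trans (relIndex_dvd_index_of_normal_right' (P : Subgroup G) K))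
  have hMK : Subgroup.normalizer ((((P : Subgroup G) ⊓ K : Subgroup G)) : Set G) ⊔ K = ⊤ := by
    rw [eq_top_iff, ← hsup]
    exact sup_le_sup_right hPM K
  have hb : Nat.card (Sylow p K) =
      (Subgroup.normalizer ((((P : Subgroup G) ⊓ K : Subgroup G)) : Set G)).index := by
    rw [card_sylow_eq_index_normalizer' (hDp.toSylow hDidx)]
    show (Subgroup.normalizer ((((P : Subgroup G) ⊓ K).subgroupOf K : Subgroup K) : Set K)).index
      = _
    rw [← Subgroup.subgroupOf_normalizer_eq hDK]
    show (Subgroup.normalizer ((((P : Subgroup G) ⊓ K : Subgroup G)) : Set G)).relIndex K = _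
    rw [← relIndex_sup_eq_of_normal, hMK, Subgroup.relIndex_top_right]
  rw [card_sylow_eq_index_normalizer' P, ← ha, hb, hc, mul_comm]

/-- Step 3: factoring out a normal `p`-subgroup does not change the number of Sylow
`p`-subgroups. -/
theorem card_sylow_quotient_of_isPGroup {G : Type*} [Group G] [Finite G] {p : ℕ} [Fact p.Prime]
    (D : Subgroup G) [D.Normal] (hD : IsPGroup p D) :
    Nat.card (Sylow p (G ⧸ D)) = Nat.card (Sylow p G) := by
  obtain ⟨P⟩ : Nonempty (Sylow p G) := inferInstance
  have hDP : D ≤ (P : Subgroup G) := by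
    have h1 : IsPGroup p ((P : Subgroup G) ⊔ D : Subgroup G) :=
      P.isPGroup'.to_sup_of_normal_right hD
    have h2 := P.is_maximal' h1 le_sup_left
    rw [← h2]; exact le_sup_right
  rw [card_sylow_eq_index_normalizer' (Sylow.mapSurjective (QuotientGroup.mk'_surjective D) P),
    Sylow.coe_mapSurjective, ← Subgroup.index_comap_of_surjective _ (QuotientGroup.mk'_surjective D),
    Subgroup.comap_normalizer_eq_of_surjective _ (QuotientGroup.mk'_surjective D),
    Subgroup.comap_map_eq, QuotientGroup.ker_mk', sup_eq_left.mpr hDP,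
    card_sylow_eq_index_normalizer' P]

end Cfsg.Agent.Helper71
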