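import Mathlib
import Cfsg.Agent.Helper71.HallIndex

set_option autoImplicit false

namespace Cfsg.Agent.Helper71

open Subgroup
open scoped Pointwise

/-- If conjugation by every element of `P` maps `Q` into `Q`, then `P` normalizes `Q`. -/
theorem le_normalizer_of_forall_conj_mem {G : Type*} [Group G] (P Q : Subgroup G)
    (h : ∀ x ∈ P, ∀ y ∈ Q, x * y * x⁻¹ ∈ Q) : P ≤ Subgroup.normalizer (Q : Set G) := by
  intro x hx
  rw [Subgroup.mem_normalizer_iff]
  intro y
  constructor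
  · exact h x hx y
  · intro hy
    have h1 := h x⁻¹ (P.inv_mem hx) _ hy
    have e : x⁻¹ * (x * y * x⁻¹) * x⁻¹⁻¹ = y := by group
    rw [e] at h1
    exact h1

theorem normalizer_inf_le {G : Type*} [Group G] (A B : Subgroup G) :
    Subgroup.normalizer (A : Set G) ⊓ Subgroup.normalizer (B : Set G) ≤
      Subgroup.normalizer ((A ⊓ B : Subgroup G) : Set G) := by
  intro x hx
  rw [Subgroup.mem_inf] at hx
  obtain ⟨hxA, hxB⟩ := hx
  rw [Subgroup.mem_normalizer_iff] at hxA hxB ⊢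
  intro y
  rw [Subgroup.mem_inf, Subgroup.mem_inf, hxA y, hxB y]

/-- A `q`-subgroup `R ≤ T ≤ C` with `q ∤ [C : R]` and `T` a `q`-group equals `T`. -/
theorem eq_of_le_of_not_dvd_relIndex {G : Type*} [Group G] [Finite G] {q : ℕ} [Fact q.Prime]
    {R T C : Subgroup G} (hRT : R ≤ T) (hTC : T ≤ C) (hT : IsPGroup q T)
    (hR : ¬ q ∣ R.relIndex C) : R = T := by
  have h1 := Subgroup.relIndex_mul_relIndex R T C hRT hTC
  obtain ⟨j, hj⟩ := hT.index (R.subgroupOf T)
  have h2 : R.relIndex T = q ^ j := hj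
  have hj0 : j = 0 := by
    by_contra hne
    apply hR
    rw [← h1, h2]
    exact Dvd.dvd.mul_right (dvd_pow_self q hne) _
  rw [hj0, pow_zero] at h2
  exact le_antisymm hRT (Subgroup.relIndex_eq_one.mp h2)

/-- Existence of a `P`-invariant Sylow `q`-subgroup of `K`, for a `p`-group `P` normalizing the
`p'`-group `K`. -/
theorem exists_invariant_sylow {G : Type*} [Group G] [Finite G] {p q : ℕ} [Fact p.Prime]
    [Fact q.Prime] (P K : Subgroup G) (hP : IsPGroup p P)
    (hPK : P ≤ Subgroup.normalizer (K : Set G)) (hpK : ¬ p ∣ Nat.card K) :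
    ∃ Q : Subgroup G, Q ≤ K ∧ IsPGroup q Q ∧ ¬ q ∣ Q.relIndex K ∧
      P ≤ Subgroup.normalizer (Q : Set G) := by
  have hP' : IsPGroup p (P.subgroupOf (Subgroup.normalizer (K : Set G))) :=
    hP.comap_of_injective _ (Subgroup.subtype_injective _)
  have hcard : ¬ p ∣ Nat.card (Sylow q K) := by
    intro h
    apply hpK
    obtain ⟨S⟩ : Nonempty (Sylow q K) := inferInstance
    exact h.trans ((Sylow.card_dvd_index S).trans (Subgroup.index_dvd_card _))
  obtain ⟨S, hS⟩ := hP'.nonempty_fixed_point_of_prime_not_dvd_card (Sylow q K) hcard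
  refine ⟨(S : Subgroup K).map K.subtype, Subgroup.map_subtype_le _, S.isPGroup'.map _, ?_, ?_⟩
  · have e : ((S : Subgroup K).map K.subtype).subgroupOf K = S :=
      Subgroup.comap_map_eq_self_of_injective (Subgroup.subtype_injective K) _
    show ¬ q ∣ (((S : Subgroup K).map K.subtype).subgroupOf K).index
    rw [e]
    exact S.not_dvd_index
  · apply le_normalizer_of_forall_conj_mem
    rintro x hx y ⟨s, hs, rfl⟩
    have hxK : x ∈ Subgroup.normalizer (K : Set G) := hPK hx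
    have h1 := hS ⟨⟨x, hxK⟩, hx⟩
    have h2 : (⟨x, hxK⟩ : Subgroup.normalizer (K : Set G)) • s ∈
        (⟨x, hxK⟩ : Subgroup.normalizer (K : Set G)) • (S : Subgroup K) :=
      Subgroup.smul_mem_pointwise_smul _ _ _ hs
    have h3 : ((⟨x, hxK⟩ : Subgroup.normalizer (K : Set G)) • S : Sylow q K) = S := h1
    rw [← Sylow.pointwise_smul_def, h3] at h2
    exact ⟨_, h2, rfl⟩

/-- Every `P`-invariant `q`-subgroup `R` of `K` lies in a `P`-invariant Sylow `q`-subgroup
of `K` (coprime action of the `p`-group `P` on the `p'`-group `K`). -/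
theorem exists_invariant_sylow_ge {G : Type*} [Group G] [Finite G] {p q : ℕ} [Fact p.Prime]
    [Fact q.Prime] (P K R : Subgroup G) (hP : IsPGroup p P)
    (hPK : P ≤ Subgroup.normalizer (K : Set G)) (hpK : ¬ p ∣ Nat.card K) (hRK : R ≤ K)
    (hR : IsPGroup q R) (hPR : P ≤ Subgroup.normalizer (R : Set G)) :
    ∃ Q : Subgroup G, R ≤ Q ∧ Q ≤ K ∧ IsPGroup q Q ∧ ¬ q ∣ Q.relIndex K ∧
      P ≤ Subgroup.normalizer (Q : Set G) := by
  obtain ⟨U, ⟨hRU, hUK, hUq, hPU⟩, hmax⟩ := Set.Finite.exists_maximalFor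
    (fun U : Subgroup G => Nat.card U)
    {U : Subgroup G | R ≤ U ∧ U ≤ K ∧ IsPGroup q U ∧ P ≤ Subgroup.normalizer (U : Set G)}
    (Set.toFinite _) ⟨R, le_refl R, hRK, hR, hPR⟩
  -- the normalizer of `U` in `K`
  obtain ⟨NU, hNU⟩ : ∃ NU : Subgroup G, NU = K ⊓ Subgroup.normalizer (U : Set G) := ⟨_, rfl⟩
  have hNUK : NU ≤ K := by rw [hNU]; exact inf_le_left
  have hNUn : NU ≤ Subgroup.normalizer (U : Set G) := by rw [hNU]; exact inf_le_right
  have hUNU : U ≤ NU := by rw [hNU]; exact le_inf hUK Subgroup.le_normalizer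
  have hPNU : P ≤ Subgroup.normalizer (NU : Set G) := by
    rw [hNU]
    refine le_trans ?_ (normalizer_inf_le K (Subgroup.normalizer (U : Set G)))
    exact le_inf hPK (hPU.trans Subgroup.le_normalizer)
  have hpNU : ¬ p ∣ Nat.card NU := fun h => hpK (h.trans (Subgroup.card_dvd_of_le hNUK))
  obtain ⟨S, hSNU, hSq, hSidx, hPS⟩ := exists_invariant_sylow (q := q) P NU hP hPNU hpNU
  have hUS : U ≤ S := by
    have h1 : IsPGroup q (S ⊔ U : Subgroup G) :=
      hSq.to_sup_of_normal_right' hUq (hSNU.trans hNUn)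
    have h2 : S = S ⊔ U :=
      eq_of_le_of_not_dvd_relIndex le_sup_left (sup_le hSNU hUNU) h1 hSidx
    rw [h2]; exact le_sup_right
  have hSU : S = U := by
    have h1 : Nat.card S ≤ Nat.card U :=
      hmax ⟨hRU.trans hUS, hSNU.trans hNUK, hSq, hPS⟩ (Subgroup.card_le_of_le hUS)
    exact (Subgroup.eq_of_le_of_card_ge hUS h1).symm
  rw [hSU] at hSidx
  refine ⟨U, hRU, hUK, hUq, ?_, hPU⟩
  -- `U` is a Sylow `q`-subgroup of `K`
  obtain ⟨n, hn⟩ := hUq.exists_card_eq
  have hn' : Nat.card (U.subgroupOf K) = q ^ n := by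
    rw [← hn]; exact Nat.card_congr (Subgroup.subgroupOfEquivOfLe hUK).toEquiv
  have hmod := Sylow.card_normalizer_modEq_card hn'
  have hcardN : Nat.card (Subgroup.normalizer ((U.subgroupOf K : Subgroup K) : Set K)) =
      Nat.card NU := by
    rw [← Subgroup.subgroupOf_normalizer_eq hUK,
      ← Subgroup.card_map_of_injective (Subgroup.subtype_injective K),
      Subgroup.subgroupOf_map_subtype, hNU, inf_comm]
  rw [hcardN] at hmod
  have h1 : Nat.card U * U.relIndex NU = Nat.card NU := card_mul_relIndex_of_le' hUNU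
  have h2 : Nat.card U * U.relIndex K = Nat.card K := card_mul_relIndex_of_le' hUK
  rw [← h1, ← h2, hn] at hmod
  intro hdvd
  apply hSidx
  have h3 : q ^ (n + 1) ∣ q ^ n * U.relIndex K := by
    rw [pow_succ]; exact Nat.mul_dvd_mul_left _ hdvd
  have h4 : q ^ (n + 1) ∣ q ^ n * U.relIndex NU := (hmod.dvd_iff dvd_rfl).mpr h3
  rw [pow_succ] at h4
  exact (Nat.mul_dvd_mul_iff_left (pow_pos (Fact.out : q.Prime).pos n)).mp h4

/-- For a `p`-group `P` normalizing a `p'`-group `Q`: `[Q : N_Q(P)] ≡ 1 (mod p)`. -/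
theorem relIndex_normalizer_mod_eq_one {G : Type*} [Group G] [Finite G] {p : ℕ} [Fact p.Prime]
    (P Q : Subgroup G) (hP : IsPGroup p P) (hPQ : P ≤ Subgroup.normalizer (Q : Set G))
    (hpQ : ¬ p ∣ Nat.card Q) : (Subgroup.normalizer (P : Set G)).relIndex Q % p = 1 := by
  have hPL : P ≤ P ⊔ Q := le_sup_left
  have hLn : P ⊔ Q ≤ Subgroup.normalizer (Q : Set G) := sup_le hPQ Subgroup.le_normalizer
  have hidx : ¬ p ∣ (P.subgroupOf (P ⊔ Q)).index := by
    show ¬ p ∣ P.relIndex (P ⊔ Q)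
    rw [relIndex_sup_eq_of_le_normalizer P Q hPQ]
    exact fun h => hpQ (h.trans (Subgroup.relIndex_dvd_card _ _))
  have hPp : IsPGroup p (P.subgroupOf (P ⊔ Q)) :=
    hP.comap_of_injective _ (Subgroup.subtype_injective _)
  have h1 := card_sylow_modEq_one p (↥(P ⊔ Q))
  have h2 : Nat.card (Sylow p (↥(P ⊔ Q))) =
      (Subgroup.normalizer (P : Set G)).relIndex (P ⊔ Q) := by
    rw [card_sylow_eq_index_normalizer' (hPp.toSylow hidx)]
    show (Subgroup.normalizer ((P.subgroupOf (P ⊔ Q) : Subgroup ↥(P ⊔ Q)) : Set ↥(P ⊔ Q))).index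
      = _
    rw [← Subgroup.subgroupOf_normalizer_eq hPL]
    rfl
  have h3 : (Subgroup.normalizer (P : Set G)).relIndex (P ⊔ Q) =
      (Subgroup.normalizer (P : Set G)).relIndex Q := by
    have hA : Subgroup.normalizer (P : Set G) ⊓ (P ⊔ Q) ⊔ Q = P ⊔ Q := by
      apply le_antisymm
      · exact sup_le inf_le_right le_sup_right
      · exact sup_le_sup_right (le_inf Subgroup.le_normalizer hPL) Q
    have h4 := relIndex_sup_eq_of_le_normalizer
      (Subgroup.normalizer (P : Set G) ⊓ (P ⊔ Q)) Q (inf_le_right.trans hLn)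
    rw [hA, Subgroup.inf_relIndex_right] at h4
    rw [h4, ← Subgroup.inf_relIndex_right (Subgroup.normalizer (P : Set G) ⊓ (P ⊔ Q)) Q,
      inf_assoc, inf_eq_right.mpr (le_sup_right : Q ≤ P ⊔ Q), Subgroup.inf_relIndex_right]
  rw [← h3, ← h2]
  have h5 : Nat.card (Sylow p (↥(P ⊔ Q))) % p = 1 % p := h1
  rw [h5]
  exact Nat.one_mod_eq_one.mpr (Fact.out : p.Prime).one_lt.ne'

end Cfsg.Agent.Helper71
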