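import Mathlib
import Cfsg.Agent.Helper71.HallCoprime

set_option autoImplicit false

namespace Cfsg.Agent.Helper71

open Subgroup

/-- Base case of M. Hall's theorem: if `G = PK` with `K` a normal `p'`-subgroup, then every
prime-power part of the number of Sylow `p`-subgroups is `≡ 1 (mod p)`. -/
theorem prime_pow_part_mod_eq_one {G : Type*} [Group G] [Finite G] {p : ℕ} [Fact p.Prime]
    (P : Sylow p G) (K : Subgroup G) [K.Normal] (hsup : (P : Subgroup G) ⊔ K = ⊤)
    (hinf : (P : Subgroup G) ⊓ K = ⊥) (q : ℕ) (hq : q.Prime) :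
    q ^ (Nat.card (Sylow p G)).factorization q % p = 1 := by
  have hp : p.Prime := Fact.out
  obtain ⟨N, hN⟩ : ∃ N : Subgroup G, N = Subgroup.normalizer ((P : Subgroup G) : Set G) :=
    ⟨_, rfl⟩
  have hPN : (P : Subgroup G) ≤ N := by rw [hN]; exact Subgroup.le_normalizer
  have hpK : ¬ p ∣ Nat.card K := by
    have h1 : Nat.card ((P : Subgroup G) ⊓ K : Subgroup G) * ((P : Subgroup G) ⊓ K).relIndex K =
        Nat.card K := card_mul_relIndex_of_le' inf_le_right
    rw [Subgroup.inf_relIndex_right, hinf, Subgroup.card_bot, one_mul] at h1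
    rw [← h1]
    exact fun h => P.not_dvd_index
      (h.trans (relIndex_dvd_index_of_normal_right' (P : Subgroup G) K))
  have hn : Nat.card (Sylow p G) = N.relIndex K := by
    have hNK : N ⊔ K = ⊤ := by
      rw [eq_top_iff, ← hsup]; exact sup_le_sup_right hPN K
    rw [card_sylow_eq_index_normalizer' P, ← hN, ← Subgroup.relIndex_top_right, ← hNK,
      relIndex_sup_eq_of_normal N K]
  obtain ⟨C, hC⟩ : ∃ C : Subgroup G, C = N ⊓ K := ⟨_, rfl⟩
  have hCK : C ≤ K := by rw [hC]; exact inf_le_right
  have hCN : C ≤ N := by rw [hC]; exact inf_le_left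
  have hCcard : Nat.card C * N.relIndex K = Nat.card K := by
    have h1 := card_mul_relIndex_of_le' hCK
    have h2 : C.relIndex K = N.relIndex K := by rw [hC]; exact Subgroup.inf_relIndex_right N K
    rwa [h2] at h1
  by_cases hqp : q = p
  · have h0 : (Nat.card (Sylow p G)).factorization q = 0 := by
      apply Nat.factorization_eq_zero_of_not_dvd
      rw [hn, hqp]
      exact fun h => hpK (h.trans (Subgroup.relIndex_dvd_card _ _))
    rw [h0, pow_zero]
    exact Nat.one_mod_eq_one.mpr hp.one_lt.ne'
  · have : Fact q.Prime := ⟨hq⟩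
    have hcomm : ∀ c ∈ C, ∀ x ∈ (P : Subgroup G), x * c * x⁻¹ = c := by
      intro c hc x hx
      have hcN : c ∈ N := hCN hc
      have hcK : c ∈ K := hCK hc
      have h1 : x * c * x⁻¹ * c⁻¹ ∈ (P : Subgroup G) := by
        have h2 : c * x⁻¹ * c⁻¹ ∈ (P : Subgroup G) := by
          rw [hN] at hcN
          exact (Subgroup.mem_normalizer_iff.mp hcN x⁻¹).mp (Subgroup.inv_mem _ hx)
        have e : x * c * x⁻¹ * c⁻¹ = x * (c * x⁻¹ * c⁻¹) := by group
        rw [e]
        exact Subgroup.mul_mem _ hx h2
      have h2 : x * c * x⁻¹ * c⁻¹ ∈ K :=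
        K.mul_mem (Subgroup.Normal.conj_mem inferInstance c hcK x) (K.inv_mem hcK)
      have h3 : x * c * x⁻¹ * c⁻¹ ∈ ((P : Subgroup G) ⊓ K : Subgroup G) := ⟨h1, h2⟩
      rw [hinf, Subgroup.mem_bot] at h3
      exact mul_inv_eq_one.mp h3
    obtain ⟨R₀⟩ : Nonempty (Sylow q C) := inferInstance
    obtain ⟨R, hRdef⟩ : ∃ R : Subgroup G, R = (R₀ : Subgroup C).map C.subtype := ⟨_, rfl⟩
    have hRC : R ≤ C := by rw [hRdef]; exact Subgroup.map_subtype_le _
    have hRq : IsPGroup q R := by rw [hRdef]; exact R₀.isPGroup'.map _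
    have hRidx : ¬ q ∣ R.relIndex C := by
      have e : R.subgroupOf C = R₀ := by
        rw [hRdef]
        exact Subgroup.comap_map_eq_self_of_injective (Subgroup.subtype_injective C) _
      show ¬ q ∣ (R.subgroupOf C).index
      rw [e]
      exact R₀.not_dvd_index
    have hPR : (P : Subgroup G) ≤ Subgroup.normalizer (R : Set G) := by
      apply le_normalizer_of_forall_conj_mem
      intro x hx y hy
      rw [hcomm y (hRC hy) x hx]
      exact hy
    have hPK : (P : Subgroup G) ≤ Subgroup.normalizer (K : Set G) := by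
      rw [Subgroup.normalizer_eq_top]; exact le_top
    obtain ⟨Q, hRQ, hQK, hQq, hQidx, hPQ⟩ := exists_invariant_sylow_ge (P : Subgroup G) K R
      P.isPGroup' hPK hpK (hRC.trans hCK) hRq hPR
    have hQN : R = N ⊓ Q := by
      refine eq_of_le_of_not_dvd_relIndex (le_inf (hRC.trans hCN) hRQ) ?_
        (hQq.to_le inf_le_right) hRidx
      rw [hC]
      exact le_inf inf_le_left (inf_le_right.trans hQK)
    have hpQ : ¬ p ∣ Nat.card Q := fun h => hpK (h.trans (Subgroup.card_dvd_of_le hQK))
    have h1 := relIndex_normalizer_mod_eq_one (P : Subgroup G) Q P.isPGroup' hPQ hpQ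
    rw [← hN, ← Subgroup.inf_relIndex_right, ← hQN] at h1
    obtain ⟨t, ht⟩ := hQq.index (R.subgroupOf Q)
    have ht' : R.relIndex Q = q ^ t := ht
    have hfac : (Nat.card (Sylow p G)).factorization q = t := by
      have e1 : Nat.card R * R.relIndex Q = Nat.card Q := card_mul_relIndex_of_le' hRQ
      have e2 : Nat.card Q * Q.relIndex K = Nat.card K := card_mul_relIndex_of_le' hQK
      have e3 : Nat.card R * R.relIndex C = Nat.card C := card_mul_relIndex_of_le' hRC
      have e4 : q ^ t * Q.relIndex K = R.relIndex C * N.relIndex K := by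
        have hRpos : 0 < Nat.card R := Nat.card_pos
        apply Nat.eq_of_mul_eq_mul_left hRpos
        calc Nat.card R * (q ^ t * Q.relIndex K)
            = (Nat.card R * R.relIndex Q) * Q.relIndex K := by rw [ht']; ring
          _ = Nat.card K := by rw [e1, e2]
          _ = Nat.card C * N.relIndex K := hCcard.symm
          _ = Nat.card R * (R.relIndex C * N.relIndex K) := by rw [← e3]; ring
      have hne1 : Q.relIndex K ≠ 0 := fun h => hQidx (by rw [h]; exact dvd_zero q)
      have hne2 : R.relIndex C ≠ 0 := fun h => hRidx (by rw [h]; exact dvd_zero q)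
      have hne3 : N.relIndex K ≠ 0 := by rw [← hn]; exact Nat.card_pos.ne'
      have e5 : (q ^ t * Q.relIndex K).factorization q =
          (R.relIndex C * N.relIndex K).factorization q := by rw [e4]
      rw [Nat.factorization_mul (pow_pos hq.pos t).ne' hne1,
        Nat.factorization_mul hne2 hne3] at e5
      simp only [Finsupp.add_apply] at e5
      rw [Nat.factorization_eq_zero_of_not_dvd hQidx,
        Nat.factorization_eq_zero_of_not_dvd hRidx, hq.factorization_pow] at e5
      simp only [Finsupp.single_eq_same, add_zero, zero_add] at e5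
      rw [hn]
      exact e5.symm
    rw [hfac, ← ht']
    exact h1

end Cfsg.Agent.Helper71
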