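import Cfsg.Agent.Helper71.McLDich
import Cfsg.Agent.Helper19.McLI2aux
import Cfsg.Agent.Helper19.McLJ
import Cfsg.Agent.Helper39.McLI
import Cfsg.Agent.Helper73.McLK2

/-!
# The core theorem on good transvection systems (S5075, McLaughlin's theorem)

A good system on `W` has `V = W ⊕ Fix` and is either the full `SL`-system of `W` or the
system of an alternating form.
-/

set_option autoImplicit false

namespace Cfsg.Agent.Helper71.McL

open Module

variable {F V : Type*} [Field F] [AddCommGroup V] [Module F V]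

/-- The core theorem. -/
theorem core [Module.Finite F V] (h2 : (2 : F) ≠ 0) (S : TSys F V) (W : Submodule F V)
    (hG : S.Good W) :
    IsCompl W S.Fix ∧
    ((∀ v ∈ W, ∀ φ : Dual F V, φ v = 0 → (∀ c ∈ S.Fix, φ c = 0) → S.Θ φ v) ∨
     (∃ β : V →ₗ[F] Dual F V, (∀ v ∈ W, v ≠ 0 → β v ≠ 0) ∧
        ∀ v ∈ W, v ≠ 0 → ∀ φ : Dual F V, (S.Θ φ v ↔ ∃ c : F, φ = c • β v))) := by
  have hsym := Cfsg.Agent.Helper98.McL.sym_of_good S W hG
  rcases dichotomy S W hG with h | hT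
  · exact ⟨h.1, Or.inl h.2⟩
  · have hall : ∀ x ∈ W, x ≠ 0 → S.IsCenter x := by
      refine Cfsg.Agent.Helper19.McL.all_centers_aux S W hG hsym
        (fun hv => Cfsg.Agent.Helper98.McL.exists_opp S W hG hv) ?_ ?_
      · intro φ ψ v w h1 hw hφw hψv x y hx hx0 hy hy0 χ hχ
        obtain ⟨χP, χK, e, a, b, -, -⟩ :=
          Cfsg.Agent.Helper80.McL.spade S h2 hT hsym h1 hw hφw hψv hx hx0 hy hy0 χ hχ
        exact ⟨χP, χK, e, a, b⟩
      · intro φ ψ v w h1 hw hφw hψv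
        exact Cfsg.Agent.Helper39.McL.club S h2 W hG hT hsym h1 hw hφw hψv
    have hadd : ∀ u v : V, u ∈ W → v ∈ W → u + v ≠ 0 → ∀ χ : Dual F V, S.Θ χ (u + v) →
        ∃ φ ψ : Dual F V, S.Θ φ u ∧ S.Θ ψ v ∧ χ = φ + ψ :=
      fun u v hu hv huv χ hχ =>
        Cfsg.Agent.Helper19.McL.L_add_le S h2 W hG hT hsym hall hu hv huv χ hχ
    obtain ⟨β, hβ⟩ := Cfsg.Agent.Helper73.McL.exists_beta S h2 W hG hT hsym hall hadd
    refine ⟨sp_compl S W hG hall β hβ, Or.inr ⟨β, ?_, hβ⟩⟩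
    intro v hv hv0 h0
    obtain ⟨-, φ, hφ0, hφ⟩ := hall v hv hv0
    obtain ⟨c, hc⟩ := (hβ v hv hv0 φ).mp hφ
    rw [h0, smul_zero] at hc
    exact hφ0 hc

/-- The space of a good system has dimension at least two. -/
theorem good_finrank [Module.Finite F V] (S : TSys F V) (W : Submodule F V) (hG : S.Good W) :
    2 ≤ finrank F W := by
  obtain ⟨φ, v, h, hφ, hv⟩ := hG.ne
  have hvW := hG.center_mem φ v h hφ hv
  obtain ⟨x, hxW, hx⟩ := hG.not_type2 φ v h hφ hv
  by_contra hlt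
  have hle : finrank F W ≤ 1 := by omega
  obtain ⟨w, hw⟩ := (finrank_le_one_iff (K := F) (V := W)).mp hle
  obtain ⟨a, ha⟩ := hw ⟨v, hvW⟩
  obtain ⟨b, hb⟩ := hw ⟨x, hxW⟩
  have ha' : a • (w : V) = v := congrArg Subtype.val ha
  have hb' : b • (w : V) = x := congrArg Subtype.val hb
  have ha0 : a ≠ 0 := by
    rintro rfl
    rw [zero_smul] at ha'
    exact hv ha'.symm
  have h0 := S.vanish h
  rw [← ha', map_smul, smul_eq_mul] at h0
  have hw0 : φ (w : V) = 0 := (mul_eq_zero.mp h0).resolve_left ha0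
  apply hx
  rw [← hb', map_smul, hw0, smul_zero]

end Cfsg.Agent.Helper71.McL
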