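import Mathlib

/-!
# Abstract transvection systems (definitions for S5075, McLaughlin's theorem)

`TSys F V` axiomatises the set of pairs `(φ, v)` such that the transvection
`x ↦ x + φ x • v` lies in a fixed group of linear automorphisms of `V`
(closed under scalars: full root subgroups).
-/

set_option autoImplicit false

namespace Cfsg.Agent.Helper71.McL

open Module

/-- An abstract transvection system on `V`: `Θ φ v` means that the transvection
`x ↦ x + φ x • v` belongs to the group. -/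
structure TSys (F V : Type*) [Field F] [AddCommGroup V] [Module F V] where
  /-- the pairs (functional, centre) of the transvections of the group -/
  Θ : Dual F V → V → Prop
  vanish : ∀ {φ : Dual F V} {v : V}, Θ φ v → φ v = 0
  zero_left : ∀ v : V, Θ 0 v
  zero_right : ∀ φ : Dual F V, Θ φ 0
  add_left : ∀ {φ φ' : Dual F V} {v : V}, Θ φ v → Θ φ' v → Θ (φ + φ') v
  add_right : ∀ {φ : Dual F V} {v v' : V}, Θ φ v → Θ φ v' → Θ φ (v + v')
  smul_left : ∀ (c : F) {φ : Dual F V} {v : V}, Θ φ v → Θ (c • φ) v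
  smul_right : ∀ (c : F) {φ : Dual F V} {v : V}, Θ φ v → Θ φ (c • v)
  /-- conjugation of `(φ, v)` by the transvection `(ψ, w)` -/
  conj : ∀ {φ ψ : Dual F V} {v w : V}, Θ φ v → Θ ψ w → Θ (φ - φ w • ψ) (v + ψ v • w)
  /-- conjugation of `(χ, u)` by the element `-1` of the `SL₂` generated by an opposite pair
  `(φ, v)`, `(ψ, w)` -/
  neg : ∀ {φ ψ χ : Dual F V} {v w u : V}, Θ φ v → Θ ψ w → φ w ≠ 0 → ψ v ≠ 0 → Θ χ u →
    Θ (χ - (2 * χ v / ψ v) • ψ - (2 * χ w / φ w) • φ)
      (u - (2 * ψ u / ψ v) • v - (2 * φ u / φ w) • w)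
  /-- a product of two commuting transvections of the group which is also the product of a
  transvection of the group and a further transvection: the latter is in the group -/
  prod : ∀ {φ₁ φ₂ φ₃ φ₄ : Dual F V} {v₁ v₂ v₃ v₄ : V}, Θ φ₁ v₁ → Θ φ₂ v₂ → Θ φ₃ v₃ →
    φ₁ v₂ = 0 → φ₄ v₄ = 0 → φ₃ v₄ = 0 →
    (∀ x : V, φ₁ x • v₁ + φ₂ x • v₂ = φ₃ x • v₃ + φ₄ x • v₄) → Θ φ₄ v₄

variable {F V : Type*} [Field F] [AddCommGroup V] [Module F V]

/-- `v` is the centre of a nontrivial transvection of the system. -/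
def TSys.IsCenter (S : TSys F V) (v : V) : Prop := v ≠ 0 ∧ ∃ φ : Dual F V, φ ≠ 0 ∧ S.Θ φ v

/-- The functionals of the transvections with centre `v`. -/
def TSys.L (S : TSys F V) (v : V) : Submodule F (Dual F V) where
  carrier := {φ | S.Θ φ v}
  add_mem' := fun h1 h2 => S.add_left h1 h2
  zero_mem' := S.zero_left v
  smul_mem' := fun c _ h => S.smul_left c h

theorem TSys.mem_L (S : TSys F V) {v : V} {φ : Dual F V} : φ ∈ S.L v ↔ S.Θ φ v := Iff.rfl

/-- `w` does not lie on all the axes of the transvections with centre `v`. -/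
def TSys.Opp (S : TSys F V) (v w : V) : Prop := ∃ φ : Dual F V, S.Θ φ v ∧ φ w ≠ 0

/-- The common fixed vectors of the transvections of the system. -/
def TSys.Fix (S : TSys F V) : Submodule F V where
  carrier := {x | ∀ (φ : Dual F V) (v : V), S.Θ φ v → φ x • v = 0}
  add_mem' := by
    intro a b ha hb φ v h
    rw [map_add, add_smul, ha φ v h, hb φ v h, add_zero]
  zero_mem' := by
    intro φ v _
    rw [map_zero, zero_smul]
  smul_mem' := by
    intro c a ha φ v h
    rw [map_smul, smul_eq_mul, mul_smul, ha φ v h, smul_zero]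

theorem TSys.mem_Fix (S : TSys F V) {x : V} :
    x ∈ S.Fix ↔ ∀ (φ : Dual F V) (v : V), S.Θ φ v → φ x • v = 0 := Iff.rfl

/-- Subspaces invariant under all transvections of the system. -/
def TSys.Inv (S : TSys F V) (U : Submodule F V) : Prop :=
  ∀ (φ : Dual F V) (v : V), S.Θ φ v → ∀ x ∈ U, x + φ x • v ∈ U

/-- Every nonzero vector of `Q` is a centre, and the functionals with that centre restrict
onto all functionals of `Q` vanishing at it. -/
def TSys.Full (S : TSys F V) (Q : Submodule F V) : Prop :=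
  ∀ x ∈ Q, x ≠ 0 → ∀ χ : Dual F V, χ x = 0 → ∃ φ : Dual F V, S.Θ φ x ∧ ∀ q ∈ Q, φ q = χ q

/-- Every centre has a one-dimensional space of functionals. -/
def TSys.Thin (S : TSys F V) : Prop :=
  ∀ (v : V) (φ ψ : Dual F V), S.Θ φ v → S.Θ ψ v → φ ≠ 0 → v ≠ 0 → ∃ c : F, ψ = c • φ

/-- The opposition relation is symmetric on centres. -/
def TSys.Sym (S : TSys F V) : Prop :=
  ∀ v w : V, S.IsCenter v → S.IsCenter w → S.Opp v w → S.Opp w v

/-- Standing hypotheses of the core theorem: all centres lie in `W`, no functional of a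
nontrivial transvection vanishes on `W`, `W` is minimal among the invariant subspaces not fixed
pointwise, no centre is fixed by the whole system, and the system is nontrivial. -/
structure TSys.Good (S : TSys F V) (W : Submodule F V) : Prop where
  center_mem : ∀ (φ : Dual F V) (v : V), S.Θ φ v → φ ≠ 0 → v ≠ 0 → v ∈ W
  not_type2 : ∀ (φ : Dual F V) (v : V), S.Θ φ v → φ ≠ 0 → v ≠ 0 → ∃ x ∈ W, φ x ≠ 0
  min : ∀ U : Submodule F V, U ≤ W → S.Inv U → U = W ∨ U ≤ S.Fix
  nc : ∀ (φ : Dual F V) (v : V), S.Θ φ v → φ ≠ 0 → v ≠ 0 → v ∉ S.Fix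
  ne : ∃ (φ : Dual F V) (v : V), S.Θ φ v ∧ φ ≠ 0 ∧ v ≠ 0

end Cfsg.Agent.Helper71.McL
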