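import Cfsg.Agent.Helper71.McLA
import Cfsg.Agent.Helper98.McLB
import Cfsg.Agent.Helper52.McLC
import Cfsg.Agent.Helper73.McLD
import Cfsg.Agent.Helper51.McLE

/-!
# The dichotomy for good transvection systems (S5075, McLaughlin's theorem)

A good system either is a full block (the `SL` case) or is thin.
-/

set_option autoImplicit false

namespace Cfsg.Agent.Helper71.McL

open Module

variable {F V : Type*} [Field F] [AddCommGroup V] [Module F V]

/-- In a two-dimensional `Q`, a functional vanishing at two independent vectors vanishes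
on `Q`. -/
theorem dich_two_dim [Module.Finite F V] (Q : Submodule F V) (hQ : finrank F Q = 2) {x y : V}
    (hx : x ∈ Q) (hy : y ∈ Q) (hx0 : x ≠ 0) (hyx : y ∉ Submodule.span F {x}) (lam : Dual F V)
    (h1 : lam x = 0) (h2 : lam y = 0) : ∀ q ∈ Q, lam q = 0 := by
  by_contra hcon
  push Not at hcon
  obtain ⟨q, hq, hq0⟩ := hcon
  set χ : Dual F Q := lam.domRestrict Q with hχ
  have hχ0 : χ ≠ 0 := by
    intro h0
    apply hq0
    have := congrArg (fun f : Dual F Q => f ⟨q, hq⟩) h0
    simpa [hχ] using this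
  have hk := Module.Dual.finrank_ker_add_one_of_ne_zero hχ0
  have hk1 : finrank F (LinearMap.ker χ) = 1 := by omega
  let x' : LinearMap.ker χ := ⟨⟨x, hx⟩, by rw [LinearMap.mem_ker]; exact h1⟩
  have hx' : x' ≠ 0 := by
    intro h0
    apply hx0
    have := congrArg (fun z : LinearMap.ker χ => ((z : Q) : V)) h0
    simpa [x'] using this
  obtain ⟨c, hc⟩ := (finrank_eq_one_iff_of_nonzero' x' hx').mp hk1
    ⟨⟨y, hy⟩, by rw [LinearMap.mem_ker]; exact h2⟩
  apply hyx
  rw [Submodule.mem_span_singleton]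
  refine ⟨c, ?_⟩
  have := congrArg (fun z : LinearMap.ker χ => ((z : Q) : V)) hc
  simpa [x'] using this

/-- Local thinness on a two-dimensional full subspace. -/
theorem dich_thin_local [Module.Finite F V] (S : TSys F V) (Q : Submodule F V)
    (hQ2 : finrank F Q = 2)
    (hN : ∀ x ∈ Q, x ≠ 0 → ∀ lam : Dual F V, S.Θ lam x → (∀ q ∈ Q, lam q = 0) → lam = 0)
    {x : V} (hx : x ∈ Q) (hx0 : x ≠ 0) : finrank F (S.L x) ≤ 1 := by
  have hlt : Submodule.span F {x} < Q := by
    refine lt_of_le_of_ne ((Submodule.span_singleton_le_iff_mem x Q).mpr hx) ?_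
    intro h
    have h1 : finrank F (Submodule.span F {x}) = 1 := finrank_span_singleton hx0
    rw [h] at h1
    omega
  obtain ⟨y, hy, hyx⟩ := SetLike.exists_of_lt hlt
  by_cases hL : ∀ φ : Dual F V, S.Θ φ x → φ = 0
  · have hbot : S.L x = ⊥ := by
      rw [eq_bot_iff]
      intro φ hφ
      rw [Submodule.mem_bot]
      exact hL φ hφ
    rw [hbot]
    simp
  · push Not at hL
    obtain ⟨φ, hφ, hφ0⟩ := hL
    have hφy : φ y ≠ 0 := by
      intro h0
      exact hφ0 (hN x hx hx0 φ hφ (dich_two_dim Q hQ2 hx hy hx0 hyx φ (S.vanish hφ) h0))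
    have : Module.Free F ↥(S.L x) := Module.Free.of_divisionRing F ↥(S.L x)
    refine (finrank_le_one_iff (K := F) (V := S.L x)).mpr ⟨⟨φ, hφ⟩, ?_⟩
    rintro ⟨ψ, hψ⟩
    refine ⟨ψ y / φ y, ?_⟩
    apply Subtype.ext
    show (ψ y / φ y) • φ = ψ
    have hlam : S.Θ (ψ - (ψ y / φ y) • φ) x := by
      have := S.add_left hψ (S.smul_left (-(ψ y / φ y)) hφ)
      have e : ψ + (-(ψ y / φ y)) • φ = ψ - (ψ y / φ y) • φ := by
        ext z
        simp only [LinearMap.add_apply, LinearMap.sub_apply, LinearMap.smul_apply, smul_eq_mul]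
        ring
      rwa [e] at this
    have h0 := hN x hx hx0 _ hlam (dich_two_dim Q hQ2 hx hy hx0 hyx _ (S.vanish hlam) (by
      simp only [LinearMap.sub_apply, LinearMap.smul_apply, smul_eq_mul]
      field_simp
      ring))
    exact (sub_eq_zero.mp h0).symm

/-- A full subspace of dimension at least two can be enlarged to one on which no nonzero
functional of the system vanishes. -/
theorem dich_exists_Q [Module.Finite F V] (S : TSys F V) (W : Submodule F V) (hG : S.Good W)
    (hsym : S.Sym) :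
    ∀ (k : ℕ) (Q : Submodule F V), S.Full Q → 2 ≤ finrank F Q →
      finrank F V - finrank F Q ≤ k →
      ∃ Q' : Submodule F V, S.Full Q' ∧ 2 ≤ finrank F Q' ∧
        ∀ x ∈ Q', x ≠ 0 → ∀ lam : Dual F V, S.Θ lam x → (∀ q ∈ Q', lam q = 0) → lam = 0 := by
  intro k
  induction k with
  | zero =>
    intro Q hQ hQ2 hk
    refine ⟨Q, hQ, hQ2, ?_⟩
    intro x hx hx0 lam hlam hlamQ
    have hle : finrank F Q ≤ finrank F V := Submodule.finrank_le Q
    have htop : Q = ⊤ := Submodule.eq_top_of_finrank_eq (by omega)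
    ext y
    rw [LinearMap.zero_apply]
    exact hlamQ y (by rw [htop]; trivial)
  | succ k ih =>
    intro Q hQ hQ2 hk
    by_cases hN : ∀ x ∈ Q, x ≠ 0 → ∀ lam : Dual F V, S.Θ lam x → (∀ q ∈ Q, lam q = 0) →
        lam = 0
    · exact ⟨Q, hQ, hQ2, hN⟩
    · push Not at hN
      obtain ⟨x, hx, hx0, lam, hlam, hlamQ, hlam0⟩ := hN
      obtain ⟨y, hyW, hy⟩ := hG.not_type2 lam x hlam hlam0 hx0
      have hu : ∃ u, S.IsCenter u ∧ lam u ≠ 0 := by
        by_contra hcon
        push Not at hcon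
        apply hy
        have hyW' : y ∈ Submodule.span F {v | S.IsCenter v} := by
          rw [Cfsg.Agent.Helper98.McL.span_centers S W hG]
          exact hyW
        have hle : Submodule.span F {v | S.IsCenter v} ≤ LinearMap.ker lam := by
          rw [Submodule.span_le]
          intro v hv
          exact LinearMap.mem_ker.mpr (hcon v hv)
        exact LinearMap.mem_ker.mp (hle hyW')
      obtain ⟨u, hu, hlamu⟩ := hu
      have hfull := Cfsg.Agent.Helper52.McL.full_extend S hsym Q hQ2 hQ lam u x hx hx0 hlam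
        hlamQ hu hlamu
      have hlt : Q < Q ⊔ Submodule.span F {u} := by
        refine lt_of_le_of_ne le_sup_left ?_
        intro h
        apply hlamu
        apply hlamQ
        rw [h]
        exact Submodule.mem_sup_right (Submodule.mem_span_singleton_self u)
      have hfr := Submodule.finrank_lt_finrank_of_lt hlt
      have hle : finrank F ↥(Q ⊔ Submodule.span F {u}) ≤ finrank F V := Submodule.finrank_le _
      exact ih _ hfull (by omega) (by omega)

/-- The dichotomy: a good system is a full block with complement `Fix`, or it is thin. -/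
theorem dichotomy [Module.Finite F V] (S : TSys F V) (W : Submodule F V) (hG : S.Good W) :
    (IsCompl W S.Fix ∧
      ∀ v ∈ W, ∀ φ : Dual F V, φ v = 0 → (∀ c ∈ S.Fix, φ c = 0) → S.Θ φ v) ∨ S.Thin := by
  have hsym := Cfsg.Agent.Helper98.McL.sym_of_good S W hG
  obtain ⟨φ₀, v₀, h₀, hφ₀, hv₀⟩ := hG.ne
  have hc₀ : S.IsCenter v₀ := ⟨hv₀, φ₀, hφ₀, h₀⟩
  obtain ⟨w, hw, φ, hφ, hφw⟩ := Cfsg.Agent.Helper98.McL.exists_opp S W hG hc₀
  obtain ⟨ψ, hψ, hψv⟩ := hsym v₀ w hc₀ hw ⟨φ, hφ, hφw⟩
  have hfull := full_pair S hφ hψ hφw hψv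
  have hfr := finrank_pair S hφ hψ hφw hψv
  obtain ⟨Q, hQ, hQ2, hN⟩ := dich_exists_Q S W hG hsym _ _ hfull (by omega) le_rfl
  by_cases h3 : 3 ≤ finrank F Q
  · left
    obtain ⟨K, hQK, hL⟩ := Cfsg.Agent.Helper73.McL.full_block S Q h3 hQ hN
    obtain ⟨hQW, hKF⟩ := Cfsg.Agent.Helper51.McL.block_eq S W hG hsym Q K h3 hQK hL
    subst hQW
    subst hKF
    refine ⟨hQK, ?_⟩
    intro v hv φ' hφ'v hφ'c
    by_cases hv0 : v = 0
    · rw [hv0]
      exact S.zero_right φ'
    · exact (hL v hv hv0 φ').mpr ⟨hφ'v, hφ'c⟩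
  · right
    have hQ2' : finrank F Q = 2 := by omega
    obtain ⟨x, hx, hx0, -⟩ := Cfsg.Agent.Helper73.McL.mclD_ker_one Q hQ2 0
    have hcx : S.IsCenter x := by
      have hlt : Submodule.span F {x} < Q := by
        refine lt_of_le_of_ne ((Submodule.span_singleton_le_iff_mem x Q).mpr hx) ?_
        intro h
        have h1 : finrank F (Submodule.span F {x}) = 1 := finrank_span_singleton hx0
        rw [h] at h1
        omega
      obtain ⟨y, hy, hyx⟩ := SetLike.exists_of_lt hlt
      obtain ⟨χ, hχx, hχy⟩ := Cfsg.Agent.Helper73.McL.mclD_dual_zero_one hyx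
      obtain ⟨θ, hθ, hθQ⟩ := hQ x hx hx0 χ hχx
      refine ⟨hx0, θ, ?_, hθ⟩
      intro h0
      have := hθQ y hy
      rw [h0, hχy, LinearMap.zero_apply] at this
      exact zero_ne_one this
    have hle := dich_thin_local S Q hQ2' hN hx hx0
    intro v φ' ψ' h1 h2 hφ'0 hv0
    have hcv : S.IsCenter v := ⟨hv0, φ', hφ'0, h1⟩
    have heq := Cfsg.Agent.Helper98.McL.finrank_L_eq S W hG hcv hcx
    have hle' : finrank F (S.L v) ≤ 1 := by omega
    have : Module.Free F ↥(S.L v) := Module.Free.of_divisionRing F ↥(S.L v)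
    obtain ⟨⟨θ, hθ⟩, hall⟩ := (finrank_le_one_iff (K := F) (V := S.L v)).mp hle'
    obtain ⟨a, ha⟩ := hall ⟨φ', h1⟩
    obtain ⟨b, hb⟩ := hall ⟨ψ', h2⟩
    have ha' : a • θ = φ' := congrArg Subtype.val ha
    have hb' : b • θ = ψ' := congrArg Subtype.val hb
    have ha0 : a ≠ 0 := by
      rintro rfl
      rw [zero_smul] at ha'
      exact hφ'0 ha'.symm
    refine ⟨b / a, ?_⟩
    rw [← ha', ← hb', smul_smul, div_mul_cancel₀ b ha0]

/-- In the thin case with an alternating-form description, `W` and `Fix` are complementary. -/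
theorem sp_compl [Module.Finite F V] (S : TSys F V) (W : Submodule F V) (hG : S.Good W)
    (hall : ∀ x ∈ W, x ≠ 0 → S.IsCenter x) (β : V →ₗ[F] Dual F V)
    (hβ : ∀ v ∈ W, v ≠ 0 → ∀ φ : Dual F V, (S.Θ φ v ↔ ∃ c : F, φ = c • β v)) :
    IsCompl W S.Fix := by
  have hdisj : W ⊓ S.Fix = ⊥ := by
    rw [eq_bot_iff]
    intro x hx
    rw [Submodule.mem_bot]
    by_contra hx0
    obtain ⟨-, φ, hφ0, hφ⟩ := hall x hx.1 hx0
    exact hG.nc φ x hφ hφ0 hx0 hx.2
  let f : V →ₗ[F] Dual F W := (β.domRestrict W).flip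
  have hf : ∀ (x : V) (w : W), f x w = β w x := fun x w => rfl
  have hker : LinearMap.ker f ≤ S.Fix := by
    intro x hx
    rw [LinearMap.mem_ker] at hx
    intro φ v hφ
    by_cases hφ0 : φ = 0
    · rw [hφ0, LinearMap.zero_apply, zero_smul]
    by_cases hv0 : v = 0
    · rw [hv0, smul_zero]
    have hvW := hG.center_mem φ v hφ hφ0 hv0
    obtain ⟨c, hc⟩ := (hβ v hvW hv0 φ).mp hφ
    have h1 : β v x = 0 := by
      have := congrArg (fun g : Dual F W => g ⟨v, hvW⟩) hx
      simpa [hf] using this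
    rw [hc, LinearMap.smul_apply, h1, smul_zero, zero_smul]
  have h1 := LinearMap.finrank_range_add_finrank_ker f
  have h2 : finrank F (LinearMap.range f) ≤ finrank F W := by
    calc finrank F (LinearMap.range f) ≤ finrank F (Dual F W) := Submodule.finrank_le _
      _ = finrank F W := Subspace.dual_finrank_eq
  have h3 : finrank F (LinearMap.ker f) ≤ finrank F S.Fix := Submodule.finrank_mono hker
  have h4 := Submodule.finrank_sup_add_finrank_inf_eq W S.Fix
  rw [hdisj] at h4
  have h5 : finrank F (⊥ : Submodule F V) = 0 := finrank_bot F V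
  have htop : W ⊔ S.Fix = ⊤ := Submodule.eq_top_of_finrank_eq (by
    have : finrank F ↥(W ⊔ S.Fix) ≤ finrank F V := Submodule.finrank_le _
    omega)
  exact ⟨disjoint_iff.mpr hdisj, codisjoint_iff.mpr htop⟩

end Cfsg.Agent.Helper71.McL
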